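import Cfsg.Agent.Lib.X9.O3T
import Cfsg.Agent.Lib.Stein.SLPres
import Cfsg.Agent.Lib.ABG.H52_Tools

/-!
Twenty-four abstract root elements of order three: the blocks are moved, two blocks of different classes
generate `SL₃(3)`.
-/

set_option autoImplicit false
set_option linter.unusedSectionVars false
set_option maxHeartbeats 400000

namespace H9.X9

open Subgroup Cfsg
open scoped MatrixGroups commutatorElement

variable {G : Type*} [Group G] [Finite G]

/-- equal or inverse -/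
def Pm {G : Type*} [Group G] (x y : G) : Prop := x = y ∨ x = y⁻¹

/-- `m` maps block `j` of class `w` to block `k` of class `w'` -/
def Rts.Mp {G : Type*} [Group G] (A : Rts G) (m : G) (w : Fin 3) (j : Fin 4) (w' : Fin 3) (k : Fin 4) : Prop :=
  ∀ e, ∃ f, Pm (m * A.r w j e * m⁻¹) (A.r w' k f)

/-- the embedding of `SL₂` in `SL₃` -/
def a2emb : SL(2, ZMod 3) →* SL(3, ZMod 3) where
  toFun g := ⟨!![g.1 0 0, g.1 0 1, 0; g.1 1 0, g.1 1 1, 0; 0, 0, 1], by
    have := g.2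
    rw [Matrix.det_fin_two] at this
    simp [Matrix.det_fin_three, this]⟩
  map_one' := Subtype.ext (by simp [Matrix.one_fin_three])
  map_mul' a b := Subtype.ext (by
    change (_ : Matrix (Fin 3) (Fin 3) (ZMod 3)) = !![_, _, _; _, _, _; _, _, _] * !![_, _, _; _, _, _; _, _, _]
    ext s t
    fin_cases s <;> fin_cases t <;> simp [Matrix.mul_apply, Fin.sum_univ_two, Fin.sum_univ_three])

theorem eqns_a2 : True := by
  have := @Pm.eq_1.{0}
  have := @Rts.Mp.eq_1.{0}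
  have := @a2emb.eq_1
  trivial

theorem a2emb_val (g : SL(2, ZMod 3)) :
    (a2emb g).1 = !![g.1 0 0, g.1 0 1, 0; g.1 1 0, g.1 1 1, 0; 0, 0, 1] := rfl

theorem a2emb_inj : Function.Injective a2emb := fun a b h => by
  have e := fun i j => congrFun (congrFun (congrArg Subtype.val h) i) j
  ext i j
  fin_cases i <;> fin_cases j
  exacts [e 0 0, e 0 1, e 1 0, e 1 1]

theorem a2emb_01 (h : (0 : Fin 2) ≠ 1) (t : ZMod 3) :
    a2emb (Matrix.SpecialLinearGroup.transvection h t) = H63.St.SL.tv 0 1 t := by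
  apply Subtype.ext
  rw [a2emb_val, H63.St.SL.coe_tv (by decide)]
  ext i j
  fin_cases i <;> fin_cases j <;> simp [Matrix.SpecialLinearGroup.transvection_coe]

theorem a2emb_10 (h : (1 : Fin 2) ≠ 0) (t : ZMod 3) :
    a2emb (Matrix.SpecialLinearGroup.transvection h t) = H63.St.SL.tv 1 0 t := by
  apply Subtype.ext
  rw [a2emb_val, H63.St.SL.coe_tv (by decide)]
  ext i j
  fin_cases i <;> fin_cases j <;> simp [Matrix.SpecialLinearGroup.transvection_coe]

namespace Pm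

variable {x y z a x' y' : G}

theorem rfl' (x : G) : Pm x x := Or.inl rfl
theorem symm (h : Pm x y) : Pm y x := by rcases h with rfl | rfl <;> simp [Pm]
theorem trans (h : Pm x y) (k : Pm y z) : Pm x z := by
  rcases h with rfl | rfl <;> rcases k with rfl | rfl <;> simp [Pm]
theorem cj (h : Pm x y) (g : G) : Pm (g * x * g⁻¹) (g * y * g⁻¹) := by
  rcases h with rfl | rfl
  · exact Or.inl rfl
  · exact Or.inr (by group)
theorem cm (h : Pm x y) (k : Commute a y) : Commute a x := by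
  rcases h with rfl | rfl
  exacts [k, k.inv_right]
theorem cm2 (h : Pm x y) (h' : Pm x' y') (k : Commute y y') : Commute x x' := h'.cm (h.cm k.symm).symm
theorem cube (h : Pm x y) (k : y ^ 3 = 1) : x ^ 3 = 1 := by
  rcases h with rfl | rfl
  exacts [k, by rw [inv_pow, k, inv_one]]
theorem mem (h : Pm x y) {H : Subgroup G} (k : y ∈ H) : x ∈ H := by
  rcases h with rfl | rfl
  exacts [k, H.inv_mem k]
theorem cl (h : Pm x y) (h' : Pm x' y') : closure {x, x'} = closure {y, y'} := by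
  have f : ∀ {x y x' y' : G}, Pm x y → Pm x' y' → closure {x, x'} ≤ closure {y, y'} := fun h h' => by
    rw [closure_le]
    rintro _ (rfl | rfl)
    exacts [h.mem (subset_closure (by simp)), h'.mem (subset_closure (by simp))]
  exact le_antisymm (f h h') (f h.symm h'.symm)

theorem inv_l (h : Commute ⁅x, y⁆ x) : ⁅x⁻¹, y⁆ = ⁅x, y⁆⁻¹ := by
  have : ⁅x⁻¹, y⁆ = x⁻¹ * (⁅x, y⁆⁻¹ * x) := by simp only [commutatorElement_def]; group
  rw [this, h.inv_left.eq]; group
theorem inv_r (h : Commute ⁅x, y⁆ y) : ⁅x, y⁻¹⁆ = ⁅x, y⁆⁻¹ := by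
  have : ⁅x, y⁻¹⁆ = y⁻¹ * (⁅x, y⁆⁻¹ * y) := by simp only [commutatorElement_def]; group
  rw [this, h.inv_left.eq]; group

theorem br (h : Pm x' x) (h' : Pm y' y) (k : Pm ⁅x, y⁆ z) (zx : Commute z x) (zy : Commute z y) :
    Pm ⁅x', y'⁆ z := by
  have cx : Commute ⁅x, y⁆ x := (k.cm zx.symm).symm
  have cy : Commute ⁅x, y⁆ y := (k.cm zy.symm).symm
  refine Pm.trans ?_ k
  rcases h with rfl | rfl <;> rcases h' with rfl | rfl
  · exact rfl' _
  · exact Or.inr (inv_r cy)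
  · exact Or.inr (inv_l cx)
  · exact Or.inl (H52.commutator_inv_inv rfl cx cy)
theorem fixr (k : Pm ⁅x, y⁆ z) (zy : Commute z y) : ∃ y', Pm y' y ∧ ⁅x, y'⁆ = z := by
  rcases k with k | k
  · exact ⟨y, rfl' y, k⟩
  · exact ⟨y⁻¹, Or.inr rfl, by rw [inv_r (k ▸ zy.inv_left), k, inv_inv]⟩
theorem fixl (k : Pm ⁅x, y⁆ z) (zx : Commute z x) : ∃ x', Pm x' x ∧ ⁅x', y⁆ = z := by
  rcases k with k | k
  · exact ⟨x, rfl' x, k⟩
  · exact ⟨x⁻¹, Or.inr rfl, by rw [inv_l (k ▸ zx.inv_left), k, inv_inv]⟩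
theorem of_zpowers (h : x ∈ zpowers y) (y3 : y ^ 3 = 1) (x1 : x ≠ 1) : Pm x y := by
  obtain ⟨k, rfl⟩ := mem_zpowers_iff.1 h
  have e : y ^ k = y ^ (k % 3) := zpow_eq_zpow_emod k (by exact_mod_cast y3)
  have h0 := Int.emod_nonneg k (show (3 : ℤ) ≠ 0 by norm_num)
  have h3 := Int.emod_lt_of_pos k (show (0 : ℤ) < 3 by norm_num)
  rw [e] at x1 ⊢
  generalize k % 3 = m at *
  interval_cases m
  · simp at x1
  · exact Or.inl (zpow_one y)
  · exact Or.inr (eq_inv_of_mul_eq_one_left (by rw [← y3, zpow_two, pow_three, mul_assoc]))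

end Pm

theorem a2_six {x y p q : G} (pq : Commute p q) (xp : Commute x p) (yq : Commute y q) (h1 : ⁅x, q⁆ = p)
    (h2 : ⁅y, p⁆ = q⁻¹) (h4 : (x * y) ^ 4 = 1) : p = q := by
  have a1 : x * q * x⁻¹ = p * q := by rw [← h1, commutatorElement_def]; group
  have a2 : y * p * y⁻¹ = q⁻¹ * p := by rw [← h2, commutatorElement_def]; group
  have a3 : x * p * x⁻¹ = p := by rw [xp.eq]; group
  have a4 : y * q * y⁻¹ = q := by rw [yq.eq]; group
  have b1 : x * y * p * (x * y)⁻¹ = q⁻¹ := by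
    calc _ = x * (y * p * y⁻¹) * x⁻¹ := by group
      _ = (x * q * x⁻¹)⁻¹ * (x * p * x⁻¹) := by rw [a2]; group
      _ = _ := by rw [a1, a3]; group
  have b2 : x * y * q * (x * y)⁻¹ = p * q := by
    calc _ = x * (y * q * y⁻¹) * x⁻¹ := by group
      _ = _ := by rw [a4, a1]
  generalize x * y = u at *
  have c1 : u * u * p * (u * u)⁻¹ = (p * q)⁻¹ := by
    calc _ = u * (u * p * u⁻¹) * u⁻¹ := by group
      _ = (u * q * u⁻¹)⁻¹ := by rw [b1]; group
      _ = _ := by rw [b2]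
  have c2 : u * u * q * (u * u)⁻¹ = p := by
    calc _ = u * (u * q * u⁻¹) * u⁻¹ := by group
      _ = u * (p * q) * u⁻¹ := by rw [b2]
      _ = (u * p * u⁻¹) * (u * q * u⁻¹) := by group
      _ = _ := by rw [b1, b2, pq.eq]; group
  rw [show u ^ 4 = u * u * (u * u) by simp only [pow_succ, pow_zero, one_mul, mul_assoc]] at h4
  generalize u * u = v at *
  calc p = v * v * p * (v * v)⁻¹ := by rw [h4]; group
    _ = v * (v * p * v⁻¹) * v⁻¹ := by group
    _ = v * (p * q)⁻¹ * v⁻¹ := by rw [c1]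
    _ = ((v * p * v⁻¹) * (v * q * v⁻¹))⁻¹ := by group
    _ = q := by rw [c1, c2]; group

theorem a2_sw4 {x y : G} (h : (x * y) ^ 4 = 1) : (y * x) ^ 4 = 1 := by
  rw [show y * x = y * (x * y) * y⁻¹ by group, conj_pow, h]; group

/-- six Steinberg elements -/
theorem a2_stein {x01 x02 x10 x12 x20 x21 : G} (hne : x01 ≠ 1)
    (p01 : x01 ^ 3 = 1) (p02 : x02 ^ 3 = 1) (p10 : x10 ^ 3 = 1) (p12 : x12 ^ 3 = 1)
    (p20 : x20 ^ 3 = 1) (p21 : x21 ^ 3 = 1)
    (r0 : Commute x01 x02) (r1 : Commute x10 x12) (r2 : Commute x20 x21)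
    (s0 : Commute x10 x20) (s1 : Commute x01 x21) (s2 : Commute x02 x12)
    (c012 : ⁅x01, x12⁆ = x02) (c120 : ⁅x12, x20⁆ = x10) (c201 : ⁅x20, x01⁆ = x21)
    (c021 : ⁅x02, x21⁆ = x01) (c102 : ⁅x10, x02⁆ = x12) (c210 : ⁅x21, x10⁆ = x20) :
    Nonempty (↥(closure {x01, x10} ⊔ closure {x02, x20} : Subgroup G) ≃* SL(3, ZMod 3)) ∧
      Nonempty (SL(2, ZMod 3) ≃* (closure {x01, x10} : Subgroup G)) := by
  let a : Fin 3 → Fin 3 → G := ![![1, x01, x02], ![x10, 1, x12], ![x20, x21, 1]]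
  have p : ∀ i j, a i j ^ 3 = 1 := by
    intro i j; fin_cases i <;> fin_cases j <;> simp [a, *]
  have c0 : ∀ i j k l, i ≠ j → k ≠ l → i ≠ l → j ≠ k → Commute (a i j) (a k l) := by
    have : ∀ i j k l : Fin 3, i ≠ j → k ≠ l → i ≠ l → j ≠ k → i = k ∨ j = l := by decide
    intro i j k l h1 h2 h3 h4
    rcases this i j k l h1 h2 h3 h4 with rfl | rfl
    · fin_cases i <;> fin_cases j <;> fin_cases l <;>
        first | contradiction | exact Commute.refl _ | assumption | (apply Commute.symm; assumption)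
    · fin_cases i <;> fin_cases j <;> fin_cases k <;>
        first | contradiction | exact Commute.refl _ | assumption | (apply Commute.symm; assumption)
  have c1 : ∀ i j l, i ≠ j → j ≠ l → i ≠ l → ⁅a i j, a j l⁆ = a i l := by
    intro i j l h1 h2 h3
    fin_cases i <;> fin_cases j <;> fin_cases l <;> first | contradiction | assumption
  let S : H63.St.PreStA (Fin 3) (ZMod 3) G :=
    { x := fun i j t => a i j ^ t.val
      add := fun {i j} _ s t => by rw [← pow_add, ZMod.val_add, ← pow_eq_pow_mod _ (p i j)]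
      c0 := fun {i j k l} h1 h2 h3 h4 s t => (c0 i j k l h1 h2 h3 h4).pow_pow _ _
      c1 := fun {i j l} h1 h2 h3 s t => by
        rw [H52.commutator_pow_pow (c1 i j l h1 h2 h3) (c0 i l i j h3 h1 h1 h3.symm)
          (c0 i l j l h3 h2 h3 h2.symm), ZMod.val_mul, ← pow_eq_pow_mod _ (p i l)] }
  obtain ⟨ψ, hψ⟩ := H63.St.SL.exists_hom (le_refl 3) S
  replace hψ : ∀ i j, i ≠ j → ∀ t : ZMod 3, ψ (H63.St.SL.tv i j t) = a i j ^ t.val := hψ
  have hψ1 : ∀ i j, i ≠ j → ψ (H63.St.SL.tv i j 1) = a i j := fun i j h => (hψ i j h 1).trans (pow_one _)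
  have hc : Subgroup.center SL(3, ZMod 3) = ⊥ := by
    rw [← Subgroup.card_eq_one, H10.card_center_SL, Nat.card_zmod]; decide
  let e : SL(3, ZMod 3) ≃* Matrix.ProjectiveSpecialLinearGroup (Fin 3) (ZMod 3) :=
    MulEquiv.ofBijective (QuotientGroup.mk' _) ⟨(MonoidHom.ker_eq_bot_iff _).1
      (by rw [QuotientGroup.ker_mk', hc]), QuotientGroup.mk'_surjective _⟩
  have hs : IsSimpleGroup (Matrix.ProjectiveSpecialLinearGroup (Fin 3) (ZMod 3)) :=
    H10.isSimpleGroup_PSL_fin 3 (by norm_num) (by norm_num)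
  have hs' : IsSimpleGroup SL(3, ZMod 3) := e.isSimpleGroup
  have hinj : Function.Injective ψ := by
    rw [← MonoidHom.ker_eq_bot_iff]
    rcases hs'.eq_bot_or_eq_top_of_normal ψ.ker inferInstance with h | h
    · exact h
    · exact absurd ((hψ1 0 1 (by decide)).symm.trans (show _ ∈ ψ.ker from h ▸ mem_top _)) hne
  have m01 : x01 ∈ closure {x01, x10} := subset_closure (by simp)
  have m10 : x10 ∈ closure {x01, x10} := subset_closure (by simp)
  have m02 : x02 ∈ closure {x02, x20} := subset_closure (by simp)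
  have m20 : x20 ∈ closure {x02, x20} := subset_closure (by simp)
  have e3 : ψ.range = closure {x01, x10} ⊔ closure {x02, x20} := by
    refine le_antisymm ?_ (sup_le ?_ ?_)
    · rw [MonoidHom.range_eq_map, map_le_iff_le_comap, top_le_iff]
      refine H10.SL_eq_top_of_transvection_mem _ fun i j h t => ?_
      rw [mem_comap, ← H63.St.SL.tv_eq h, hψ i j h]
      refine pow_mem ?_ _
      have n01 := mem_sup_left (T := closure {x02, x20}) m01
      have n10 := mem_sup_left (T := closure {x02, x20}) m10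
      have n02 := mem_sup_right (S := closure {x01, x10}) m02
      have n20 := mem_sup_right (S := closure {x01, x10}) m20
      have n12 := c102 ▸ commutatorElement_def x10 x02 ▸
        mul_mem (mul_mem (mul_mem n10 n02) (inv_mem n10)) (inv_mem n02)
      have n21 := c201 ▸ commutatorElement_def x20 x01 ▸
        mul_mem (mul_mem (mul_mem n20 n01) (inv_mem n20)) (inv_mem n01)
      fin_cases i <;> fin_cases j <;> first | contradiction | assumption
    · rw [closure_le]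
      rintro _ (rfl | rfl)
      exacts [⟨_, hψ1 0 1 (by decide)⟩, ⟨_, hψ1 1 0 (by decide)⟩]
    · rw [closure_le]
      rintro _ (rfl | rfl)
      exacts [⟨_, hψ1 0 2 (by decide)⟩, ⟨_, hψ1 2 0 (by decide)⟩]
  have e2 : (ψ.comp a2emb).range = closure {x01, x10} := by
    refine le_antisymm ?_ ?_
    · rintro _ ⟨g, rfl⟩
      refine Matrix.SL2.transvection_induction (fun g => ψ.comp a2emb g ∈ closure {x01, x10})
        (fun i j h t => ?_) (fun a b ha hb => by rw [map_mul]; exact mul_mem ha hb) g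
      fin_cases i <;> fin_cases j
      · exact absurd rfl h
      · exact (congrArg ψ (a2emb_01 h t)).trans (hψ 0 1 (by decide) t) ▸ pow_mem m01 _
      · exact (congrArg ψ (a2emb_10 h t)).trans (hψ 1 0 (by decide) t) ▸ pow_mem m10 _
      · exact absurd rfl h
    · rw [closure_le]
      rintro _ (rfl | rfl)
      exacts [⟨_, (congrArg ψ (a2emb_01 (by decide) 1)).trans (hψ1 0 1 (by decide))⟩,
        ⟨_, (congrArg ψ (a2emb_10 (by decide) 1)).trans (hψ1 1 0 (by decide))⟩]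
  exact ⟨⟨(MulEquiv.subgroupCongr e3).symm.trans (MonoidHom.ofInjective hinj).symm⟩,
    ⟨(MonoidHom.ofInjective (f := ψ.comp a2emb) (hinj.comp a2emb_inj)).trans (MulEquiv.subgroupCongr e2)⟩⟩

namespace Rts

variable (A : Rts G) {w w' w'' : Fin 3} {i i' j k l : Fin 4} {e e' f f' g : Bool} {a m m' x y z : G}

theorem kc (h1 : Commute a (A.r w j true)) (h2 : Commute a (A.r w j false)) (hx : x ∈ A.K w j) : Commute a x := by
  have : A.K w j ≤ centralizer {a} := by
    rw [K, closure_le]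
    rintro _ (rfl | rfl)
    exacts [mem_centralizer_singleton_iff.2 h1.symm, mem_centralizer_singleton_iff.2 h2.symm]
  exact (mem_centralizer_singleton_iff.1 (this hx)).symm

theorem r_mem (w : Fin 3) (j : Fin 4) (e : Bool) : A.r w j e ∈ A.K w j := by
  cases e <;> exact subset_closure (by simp)

theorem K_eq (w : Fin 3) (j : Fin 4) (e : Bool) : A.K w j = closure {A.r w j e, A.r w j (!e)} := by
  cases e
  · rw [K, Set.pair_comm]; rfl
  · rfl

theorem ne_inv (w : Fin 3) (j : Fin 4) (e : Bool) : A.r w j e ≠ (A.r w j e)⁻¹ := fun h => A.r1 w j e (by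
  rw [← A.r3 w j e, pow_three]; nth_rw 4 [h]; group)

theorem two (h : w ≠ w') (h1 : Commute (A.r w i e) (A.r w' j f)) (h2 : Commute (A.r w i e) (A.r w' j f')) :
    f = f' := by
  by_contra hf
  have : Commute (A.r w i e) (A.t w') := by
    cases f <;> cases f' <;> first | contradiction | exact A.kc h1 h2 (A.tm w' j) | exact A.kc h2 h1 (A.tm w' j)
  exact A.ne_inv w i e (by rw [← A.ti w' w i e h.symm, ← this.eq]; group)

theorem opp (h : Commute (A.r w i e) (A.r w i e')) : e = e' := by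
  by_contra hf
  have h' : Commute (A.r w i true) (A.r w i false) := by
    cases e <;> cases e' <;> first | contradiction | exact h | exact h.symm
  obtain ⟨k, hk⟩ := H52.isPGroup_closure_three (S := {A.r w i true, A.r w i false})
    (by rintro _ (rfl | rfl) _ (rfl | rfl); exacts [rfl, h', h'.symm, rfl])
    (by rintro _ (rfl | rfl) <;> exact A.r3 _ _ _) ⟨A.t w, A.tm w i⟩
  obtain ⟨n, hn⟩ : Odd (3 ^ k) := Odd.pow (by decide)
  have h3 : A.t w ^ 3 ^ k = 1 := congrArg Subtype.val hk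
  rw [hn, pow_succ, pow_mul, pow_two, A.tt, one_pow, one_mul] at h3
  exact A.t1 w h3

theorem uniq (h : Pm (A.r w i e) (A.r w' i' e')) : w = w' ∧ i = i' ∧ e = e' := by
  obtain rfl : w = w' := by
    by_contra hw
    have : Commute (A.t w) (A.r w' i' e') := h.symm.cm (A.tr w i e)
    exact A.ne_inv w' i' e' (by rw [← A.ti w w' i' e' hw, this.eq]; group)
  obtain rfl : i = i' := by
    by_contra hi
    have := A.opp (h.cm (A.cm w i i' (!e) e' hi))
    simp at this
  exact ⟨rfl, rfl, A.opp (h.symm.cm (Commute.refl _))⟩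

theorem nc (h : i ≠ l) (e : Bool) : Commute (A.r w l e) (A.n w i) :=
  A.kc (A.cm w l i e true h.symm) (A.cm w l i e false h.symm) (A.nm w i)

theorem cj_cm (m : G) (h : Commute x y) : Commute (m * x * m⁻¹) (m * y * m⁻¹) := h.map (MulAut.conj m)

theorem cm_cj (m : G) (h : Commute (m * x * m⁻¹) (m * y * m⁻¹)) : Commute x y := by
  have := cj_cm m⁻¹ h
  simpa [mul_assoc] using this

variable {A} in
theorem Mp.inv (h : A.Mp m w j w' k) : A.Mp m⁻¹ w' k w j := by
  choose φ hφ using h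
  have : Function.Injective φ := fun e e' q =>
    A.opp (cm_cj m ((hφ e).cm2 (hφ e') (q ▸ Commute.refl _)))
  intro f
  obtain ⟨e, rfl⟩ := Finite.injective_iff_surjective.1 this f
  exact ⟨e, by simpa [mul_assoc] using (hφ e).symm.cj m⁻¹⟩

variable {A} in
theorem Mp.mul (h : A.Mp m w j w' k) (h' : A.Mp m' w' k w'' l) : A.Mp (m' * m) w j w'' l := fun e => by
  obtain ⟨f, hf⟩ := h e
  obtain ⟨g, hg⟩ := h' f
  exact ⟨g, Pm.trans (by simpa [mul_assoc] using hf.cj m') hg⟩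

variable {A} in
theorem Mp.map (h : A.Mp m w j w' k) : (A.K w j).map (MulAut.conj m).toMonoidHom = A.K w' k := by
  refine le_antisymm ?_ ?_
  · rw [map_le_iff_le_comap, K, closure_le]
    rintro _ (rfl | rfl) <;> exact (h _).choose_spec.mem (A.r_mem _ _ _)
  · rw [K, closure_le]
    have : ∀ f, A.r w' k f ∈ (A.K w j).map (MulAut.conj m).toMonoidHom := fun f =>
      ⟨_, (h.inv f).choose_spec.mem (A.r_mem _ _ _), by simp [mul_assoc]⟩
    rintro _ (rfl | rfl) <;> exact this _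

theorem K_inj (h : A.K w j = A.K w k) : j = k := by
  by_contra hj
  have := A.opp (A.kc (A.cm w j k true true hj) (A.cm w j k true false hj) (h ▸ A.r_mem w j false))
  simp at this

theorem mp (h1 : w' ≠ w) (h2 : w'' ≠ w) (h3 : w' ≠ w'') (i j : Fin 4) : ∃ k, A.Mp (A.n w i) w' j w'' k := by
  obtain ⟨k, f, hf⟩ := A.np w w' w'' i j true h1 h2 h3
  obtain ⟨k', f', hf'⟩ := A.np w w' w'' i j false h1 h2 h3
  obtain rfl : k = k' := by
    by_contra hk
    have := A.opp (cm_cj _ (Pm.cm2 hf hf' (A.cm w'' k k' f f' hk)))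
    simp at this
  exact ⟨k, fun e => by cases e; exacts [⟨f', hf'⟩, ⟨f, hf⟩]⟩

theorem mp' (h1 : w' ≠ w) (h2 : w'' ≠ w) (h3 : w' ≠ w'') (i k : Fin 4) : ∃ j, A.Mp (A.n w i) w' j w'' k := by
  choose φ hφ using A.mp h1 h2 h3 i
  have : Function.Injective φ := fun j j' q => by
    obtain ⟨f, hf⟩ := (hφ j).mul (q ▸ (hφ j').inv) true
    exact (A.uniq (by simpa using hf)).2.1
  obtain ⟨j, rfl⟩ := Finite.injective_iff_surjective.1 this k
  exact ⟨j, hφ j⟩

theorem third (h : w ≠ w') : ∃ w'', w'' ≠ w ∧ w' ≠ w'' := by revert w w'; decide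

theorem key (h : w ≠ w') (ml : Commute (A.r w l true) m) (ms : ∀ g, m * A.r w i g * m⁻¹ = (A.r w i (!g))⁻¹)
    (hm : A.Mp m w' j w' j) : False := by
  obtain ⟨f, hf⟩ := A.one w w' l j true h
  obtain ⟨f', hf'⟩ := hm f
  obtain rfl : f = f' := A.two h hf (hf'.symm.cm ((ml.mul_right hf).mul_right ml.inv_right))
  obtain ⟨g, hg⟩ := A.one w' w j i f h.symm
  have h1 := cj_cm m hg
  rw [ms] at h1
  have := A.two h.symm hg (hf'.symm.cm (Commute.inv_right_iff.mp h1).symm).symm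
  simp at this

theorem nn (k : i ≠ i') (g : Bool) :
    A.n w i * A.n w i' * A.r w i g * (A.n w i * A.n w i')⁻¹ = (A.r w i (!g))⁻¹ := by
  rw [← A.ns, mul_assoc (A.n w i), ← (A.nc k.symm g).eq]; group

theorem mv0 (h : w ≠ w') (k : i ≠ i') (j : Fin 4) : ∃ j', j' ≠ j ∧ A.Mp (A.n w i * A.n w i') w' j w' j' := by
  obtain ⟨w'', h1, h2⟩ := third h
  obtain ⟨l, l1, l2⟩ : ∃ l, i ≠ l ∧ i' ≠ l := by revert i i'; decide
  obtain ⟨j1, m1⟩ := A.mp h.symm h1 h2 i' j
  obtain ⟨j2, m2⟩ := A.mp h1 h.symm h2.symm i j1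
  refine ⟨j2, ?_, m1.mul m2⟩
  rintro rfl
  exact A.key h ((A.nc l1 _).mul_right (A.nc l2 _)) (A.nn k) (m1.mul m2)

end Rts

theorem Rts.mv (A : Rts G) {w w' : Fin 3} (h : w ≠ w') {i i' : Fin 4} (k : i ≠ i') (j : Fin 4) :
    ∃ j', j' ≠ j ∧ (A.K w' j).map (MulAut.conj (A.n w i * A.n w i')).toMonoidHom = A.K w' j' :=
  let ⟨j', h1, h2⟩ := A.mv0 h k j
  ⟨j', h1, h2.map⟩

theorem Rts.mv' (A : Rts G) {w w' : Fin 3} (h : w ≠ w') {i i' : Fin 4} (k : i ≠ i') (j : Fin 4) :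
    (A.K w' j).map (MulAut.conj ((A.n w i)⁻¹ * A.n w i')).toMonoidHom ≠ A.K w' j := fun q => by
  obtain ⟨w'', h1, h2⟩ := third h
  obtain ⟨l, l1, l2⟩ : ∃ l, i ≠ l ∧ i' ≠ l := by clear * -; revert i i'; decide
  obtain ⟨j1, m1⟩ := A.mp h.symm h1 h2 i' j
  obtain ⟨j2, m2⟩ := A.mp' h.symm h1 h2 i j1
  obtain rfl : j2 = j := A.K_inj ((m1.mul m2.inv).map.symm.trans q)
  refine A.key (i := i) h ((A.nc l1 _).inv_right.mul_right (A.nc l2 _)) (fun g => ?_) (m1.mul m2.inv)
  have := A.ns w i (!g)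
  rw [Bool.not_not] at this
  rw [mul_assoc _ (A.n w i'), ← (A.nc k.symm g).eq, ← inv_inv (A.r w i g), ← this]; group

namespace Rts

variable (A : Rts G) {w w' w'' : Fin 3} {i j k : Fin 4} {e f g : Bool} {x y z : G}

theorem exc (h : w ≠ w') (h1 : w'' ≠ w) (h2 : w' ≠ w'') (i j : Fin 4) (f : Bool) :
    ∃ k g, Commute (A.r w i true) (A.r w'' k g) ∧ ¬Commute (A.r w' j f) (A.r w'' k g) := by
  by_contra! H
  obtain ⟨l, l', q1, q2, q3⟩ : ∃ l l', l ≠ l' ∧ l ≠ i ∧ l' ≠ i := by clear * -; revert i; decide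
  obtain ⟨j', n1, m1⟩ := A.mv0 h q1 j
  obtain ⟨f', hf'⟩ := m1 f
  have am : Commute (A.r w i true) (A.n w l * A.n w l') := (A.nc q2 _).mul_right (A.nc q3 _)
  have H' : ∀ k g, Commute (A.r w i true) (A.r w'' k g) → Commute (A.r w' j' f') (A.r w'' k g) := fun k g c => by
    obtain ⟨k1, m2⟩ := A.mp' h.symm h1 h2 l k
    obtain ⟨k2, m3⟩ := A.mp' h1 h.symm h2.symm l' k1
    obtain ⟨g', hg'⟩ := (m3.mul m2).inv g
    have c1 := hg'.cm (H k2 g' (hg'.symm.cm ((am.inv_right.mul_right c).mul_right am.inv_right.inv_right)))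
    have c2 := cj_cm (A.n w l * A.n w l') c1
    refine (hf'.symm.cm (Commute.symm ?_)).symm
    convert c2 using 1
    group
  obtain ⟨j'', q4, q5⟩ : ∃ j'', j ≠ j'' ∧ j'' ≠ j' := by clear * -; revert j j'; decide
  obtain ⟨g, c⟩ := A.one w w'' i 0 true h1.symm
  obtain ⟨k1, m2⟩ := A.mp h2.symm h h1 j'' 0
  obtain ⟨k2, m3⟩ := A.mp h h2.symm h1.symm j k1
  obtain ⟨g', hg'⟩ := m2.mul m3 g
  have bm : Commute (A.r w' j' f') (A.n w' j * A.n w' j'') := (A.nc n1.symm _).mul_right (A.nc q5 _)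
  have c1 := hg'.symm.cm ((bm.mul_right (H' 0 g c)).mul_right bm.inv_right)
  obtain ⟨g0, c0⟩ := A.one w w'' i k2 true h1.symm
  obtain rfl : g0 = g' := A.two h2 (H' k2 g0 c0) c1
  have c2 := cj_cm (A.n w' j * A.n w' j'') (H 0 g c)
  rw [A.nn q4] at c2
  have := A.two h2.symm (H k2 g0 c0).symm (hg'.symm.cm (Commute.inv_left_iff.mp c2)).symm
  simp at this

theorem tri' (h1 : w' ≠ w) (h2 : w'' ≠ w) (hx : Pm x (A.r w i e)) (hy : Pm y (A.r w' j f)) (hz : Pm z (A.r w'' k g))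
    (xy : Commute (A.r w i e) (A.r w' j f)) (xz : Commute (A.r w i e) (A.r w'' k g))
    (yz : ¬Commute (A.r w' j f) (A.r w'' k g)) : Pm ⁅y, z⁆ x :=
  (hy.br hz (Pm.of_zpowers (A.tri w w' w'' i j k e f g h1 h2 xy xz) (A.r3 _ _ _)
    fun q => yz (commutatorElement_eq_one_iff_commute.1 q)) xy xz).trans hx.symm

theorem nop (h : w ≠ w') (c : Commute (A.r w i e) (A.r w' j f)) : ¬Commute (A.r w i e) (A.r w' j (!f)) := fun q => by
  simpa using A.two h c q

theorem yop (h : w ≠ w') (c : ¬Commute (A.r w i e) (A.r w' j f)) : Commute (A.r w i e) (A.r w' j (!f)) := by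
  obtain ⟨f', q⟩ := A.one w w' i j e h
  cases f <;> cases f' <;> first | contradiction | exact q

theorem four' (hy : Pm y (A.r w j (!e))) : (A.r w j e * y) ^ 4 = 1 ∨ (A.r w j e * y⁻¹) ^ 4 = 1 := by
  have : (A.r w j e * A.r w j (!e)) ^ 4 = 1 := by
    cases e
    exacts [a2_sw4 (A.four w j), A.four w j]
  rcases hy with rfl | rfl
  exacts [Or.inl this, Or.inr (by rwa [inv_inv])]

end Rts

theorem Rts.sl3 (A : Rts G) {w w' : Fin 3} (h : w ≠ w') (i j : Fin 4) :
    Nonempty (↥(A.K w i ⊔ A.K w' j) ≃* SL(3, ZMod 3)) ∧ Nonempty (SL(2, ZMod 3) ≃* A.K w i) := by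
  obtain ⟨w'', h1, h2⟩ := third h
  obtain ⟨f, ab⟩ := A.one w w' i j true h
  obtain ⟨k, g, ac, bc⟩ := A.exc h h1 h2 i j f
  have sw : ∀ {x y : G}, ¬Commute x y → ¬Commute y x := fun h q => h q.symm
  have ab' := A.nop h ab
  have ac' := A.nop h1.symm ac
  have ba' := A.nop h.symm ab.symm
  have ca' := A.nop h1 ac.symm
  have b'a' := A.yop h.symm (sw ab')
  have c'a' := A.yop h1 (sw ac')
  have bc' := A.yop h2 bc
  have cb' := A.yop h2.symm (sw bc)
  have b'c' := A.nop h2 cb'.symm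
  have P := fun w i e => Pm.rfl' (A.r w i e)
  have p13 := A.tri' h.symm h1 (P _ _ _) (P _ _ _) (P _ _ _) ab ac bc
  generalize e13 : ⁅A.r w' j f, A.r w'' k g⁆ = x13 at p13
  obtain ⟨x32, p32, e12⟩ := (A.tri' h h2.symm (P _ _ _) p13 (P _ _ _) ab.symm bc' ac').fixr bc'
  obtain ⟨x21, p21, e23⟩ := (A.tri' h2 h1.symm (P _ _ _) (P _ _ _) p13 cb' ac.symm (sw ab')).fixl cb'
  have p31 := A.tri' h1 h.symm (P _ _ _) p32 p21 c'a'.symm b'a'.symm (sw b'c')
  generalize e31 : ⁅x32, x21⁆ = x31 at p31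
  have ne : ∀ {x y : G} {w w' i j e f}, Pm x (A.r w i e) → Pm y (A.r w' j f) → w ≠ w' → x ≠ y :=
    fun hx hy hw q => hw (A.uniq (hx.symm.trans (q ▸ hy))).1
  have r0 := p13.cm2 (P _ _ _) ab
  have r1 := p31.cm2 p32 c'a'.symm
  have r2 := p21.cm2 (P _ _ _) cb'.symm
  have s0 := p31.cm2 p21 b'a'.symm
  have s1 := p13.cm2 (P _ _ _) ac
  have s2 := (P _ _ _).cm2 p32 bc'
  have rev : ∀ {x y z : G}, ⁅x, y⁆ = z → ⁅y, x⁆ = z⁻¹ := fun q => by rw [← q, commutatorElement_inv]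
  have f1 : (A.r w' j f * x21) ^ 4 = 1 := (A.four' p21).resolve_right fun q =>
    ne p13 (P _ _ _) h1.symm (a2_six s1 r0.symm r2.inv_left e13
      (by rw [Pm.inv_l (e23 ▸ r2.symm), e23]) q)
  have f2 : (A.r w'' k g * x32) ^ 4 = 1 := (A.four' p32).resolve_right fun q =>
    ne (P _ _ _) p13 h.symm (a2_six r0.symm s2.symm.inv_left s1.symm
      (by rw [Pm.inv_l (rev e12 ▸ s2.inv_left), rev e12, inv_inv]) (rev e13) (a2_sw4 q))
  have e32 : ⁅x31, A.r w' j f⁆ = x32 :=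
    (A.tri' h1.symm h2 p32 p31 (P _ _ _) c'a' bc'.symm (sw ba')).resolve_right fun q =>
      ne p32 p31 h1 (a2_six r1.symm s2 s0.symm (by rw [rev q, inv_inv]) (rev e31) f1)
  have e21 : ⁅A.r w'' k g, x31⁆ = x21 :=
    (A.tri' h2.symm h p21 (P _ _ _) p31 cb'.symm b'a' ca').resolve_right fun q =>
      ne p31 p21 h (a2_six s0 r1.symm r2.symm e31 q (a2_sw4 f2))
  rw [A.K_eq w i true, A.K_eq w' j f, ← p13.cl p31, ← (P _ _ _).cl p21]
  exact a2_stein (fun q => bc (commutatorElement_eq_one_iff_commute.1 (e13.trans q))) (p13.cube (A.r3 _ _ _))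
    (A.r3 _ _ _) (p31.cube (A.r3 _ _ _)) (p32.cube (A.r3 _ _ _)) (p21.cube (A.r3 _ _ _)) (A.r3 _ _ _)
    r0 r1 r2 s0 s1 s2 e12 e31 e23 e13 e32 e21

end H9.X9
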