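import Cfsg.Agent.Lib.X9.GeD

set_option autoImplicit false
set_option linter.unusedSectionVars false
set_option maxHeartbeats 400000

namespace H9.X9

open Subgroup H68 Cfsg
open H80.O8 (comm_of_sq mem_cj_of_comm)

universe u

variable {G : Type u} [Group G] {n : ℕ} {D : Set G} {Qd : G → Subgroup G} {P : Set (Subgroup G)}
  {T : G → Subgroup G → Subgroup G → Prop} {m p q a b c x : Subgroup G} {d e f g : G}

/-- A non-abelian simple group has no proper subgroup of index at most three. -/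
theorem GeA.top_of_index [Finite G] [IsSimpleGroup G] (nab : center G ≠ ⊤) {H : Subgroup G}
    (h : H.index ≤ 3) : H = ⊤ := by
  have key : ∀ p : ℕ, p.Prime → ¬ IsPGroup p G := fun p hp k => by
    haveI := Fact.mk hp
    exact nab ((IsSimpleGroup.eq_bot_or_eq_top_of_normal _ inferInstance).resolve_left k.bot_lt_center.ne')
  rcases IsSimpleGroup.eq_bot_or_eq_top_of_normal H.normalCore inferInstance with k | k
  · exfalso
    have h1 : H.normalCore.index ∣ 6 := by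
      rw [normalCore_eq_ker, index_ker]
      have := card_subgroup_dvd_card (MulAction.toPermHom G (G ⧸ H)).range
      rw [Nat.card_perm, ← index_eq_card] at this
      exact this.trans (Nat.factorial_dvd_factorial h)
    rw [k, index_bot] at h1
    haveI := Fact.mk Nat.prime_three
    haveI := Fact.mk Nat.prime_two
    obtain ⟨S⟩ : Nonempty (Sylow 3 G) := inferInstance
    have h2 : (S : Subgroup G).index ∣ 2 :=
      ((Nat.Prime.coprime_iff_not_dvd Nat.prime_three).2 S.not_dvd_index).symm.dvd_of_dvd_mul_left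
        ((index_dvd_card _).trans h1)
    rcases (Nat.dvd_prime Nat.prime_two).1 h2 with t | t
    · have := S.isPGroup'
      rw [index_eq_one.1 t] at this
      exact key 3 Nat.prime_three (this.of_equiv topEquiv)
    · rcases IsSimpleGroup.eq_bot_or_eq_top_of_normal _ (normal_of_index_eq_two t) with s | s
      · rw [s, index_bot] at t
        exact key 2 Nat.prime_two (IsPGroup.of_card (n := 1) t)
      · rw [s, index_top] at t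
        omega
  · exact eq_top_iff.2 (k ▸ H.normalCore_le)

namespace Ge

variable (Γ : Ge n D Qd P T)
include Γ

theorem comm (hp : p ∈ P) (hd : d ∈ p) (he : e ∈ p) : d * e = e * d := comm_of_sq (Γ.sq p hp) hd he

theorem ne (h : d ∈ D) : d ≠ 1 := fun e => Γ.ne1 (e ▸ h)

theorem Dc' : g * d * g⁻¹ ∈ D ↔ d ∈ D :=
  ⟨fun h => by simpa [mul_assoc] using Γ.Dc _ h g⁻¹, fun h => Γ.Dc _ h g⟩

theorem Tc' : T (g * d * g⁻¹) (cj g p) (cj g q) ↔ T d p q :=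
  ⟨fun h => by simpa [mul_assoc, cj_inv_cj] using Γ.Tc g⁻¹ _ _ _ h, Γ.Tc g d p q⟩

theorem exD (hp : p ∈ P) : ∃ d ∈ D, d ∈ p :=
  Set.nonempty_of_ncard_ne_zero (s := D ∩ p) (by rw [Γ.cD p hp]; exact Γ.pos.ne')

theorem col_self (hp : p ∈ P) : col D T p p := (Γ.exD hp).imp fun d h => ⟨h.1, Γ.Tr d p h.2⟩

theorem col_symm (h : col D T p q) : col D T q p := h.imp fun d h => ⟨h.1, Γ.Ts d p q h.2⟩

theorem col_cj (g : G) : col D T (cj g p) (cj g q) ↔ col D T p q :=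
  ⟨fun ⟨d, h, a⟩ => ⟨_, Γ.Dc d h g⁻¹, by simpa [cj_inv_cj] using Γ.Tc g⁻¹ _ _ _ a⟩,
    fun ⟨d, h, a⟩ => ⟨_, Γ.Dc d h g, Γ.Tc g _ _ _ a⟩⟩

theorem meet_eq (hp : p ∈ P) (hq : q ∈ P) (k : p ≠ q) (hd : d ∈ D) (he : e ∈ D) (h1 : T d p q)
    (ep : e ∈ p) (eq : e ∈ q) : e = d :=
  ((Γ.loc d hd p hp (Γ.Tm _ _ _ h1).1).meet q hq h1 k e ep eq).resolve_left (Γ.ne he)

theorem line_eq (hp : p ∈ P) (hq : q ∈ P) (k : p ≠ q) (hd : d ∈ D) (he : e ∈ D) (h1 : T d p q) (h2 : T e p q) :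
    e = d := Γ.meet_eq hp hq k hd he h1 (Γ.Tm _ _ _ h2).1 (Γ.Tm _ _ _ h2).2

/-- An element of a point moves a line through the point to itself. -/
theorem T_cj (hm : m ∈ P) (h : T d m p) (he : e ∈ m) : T d m (cj e p) := by
  have := Γ.Tc e _ _ _ h
  rwa [Γ.comm hm he (Γ.Tm _ _ _ h).1, mul_inv_cancel_right, cj_eq_of_mem he] at this

theorem L4 (hm : m ∈ P) (hp : p ∈ P) (hq : q ∈ P) (hd : d ∈ D) (he : e ∈ D) (h1 : T d m p) (h2 : T e m q)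
    (n1 : m ≠ p) (n2 : m ≠ q) (k : col D T p q) : e ∈ Qd d := by
  by_contra h
  obtain ⟨f, hf, t⟩ := k
  obtain ⟨fp, fq⟩ := Γ.Tm _ _ _ t
  obtain ⟨dm, dp⟩ := Γ.Tm _ _ _ h1
  obtain ⟨em, eq⟩ := Γ.Tm _ _ _ h2
  have n : p ≠ cj e p := fun k => h ((Γ.loc d hd m hm dm).swap p hp h1 n1 e em k.symm)
  obtain rfl := Γ.meet_eq hp (Γ.Pc p hp e) n hd hf
    (Γ.Tt d hd p hp m hm _ (Γ.Pc p hp e) (Γ.Ts _ _ _ h1) (Γ.T_cj hm h1 em)) fp
    (mem_cj_of_comm (Γ.comm hq eq fq) fp)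
  obtain rfl := Γ.meet_eq hm hq n2 he hd h2 dm fq
  exact h (Γ.self _ hd)

theorem mul_ne (hq : q ∈ P) (hd : d ∈ q) (he : e ∈ q) (k : e ≠ d) : d * e ≠ 1 := fun h => k (by
  rw [← mul_one e, ← Γ.sq q hq d hd, ← mul_assoc, Γ.comm hq he hd, h, one_mul])

theorem L3 (hm : m ∈ P) (hp : p ∈ P) (hq : q ∈ P) (hd : d ∈ D) (he : e ∈ D) (h1 : T d m p) (h2 : T e m q)
    (h : e ∈ Qd d) : col D T p q := by
  by_cases n : e = d
  · exact ⟨d, hd, Γ.Tt d hd p hp m hm q hq (Γ.Ts _ _ _ h1) (n ▸ h2)⟩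
  obtain ⟨dm, dp⟩ := Γ.Tm _ _ _ h1
  obtain ⟨em, eq⟩ := Γ.Tm _ _ _ h2
  obtain ⟨E, A, dE, eE, mA, hE⟩ := (Γ.loc d hd m hm dm).plane e he em h n
  have pA := ((hE.ty d dE (Γ.ne hd) m mA dm p hp).1 h1).1
  have qA := ((hE.ty e eE (Γ.ne he) m mA em q hq).1 h2).1
  have fin : ∀ x ∈ E, x ≠ 1 → x ∈ p → x ∈ q → col D T p q := fun x xE x1 xp xq =>
    ⟨x, hE.mem x xE x1, (hE.ty x xE x1 p pA xp q hq).2 ⟨qA, xq⟩⟩
  obtain ⟨y, yE, yq, y1, ye⟩ := (hE.pf e eE (Γ.ne he) q qA eq).1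
  rcases (hE.pf d dE (Γ.ne hd) p pA dp).2 e eE y yE with k | k | k
  · exact fin e eE (Γ.ne he) k eq
  · exact fin y yE y1 k yq
  · exact fin _ (mul_mem eE yE) (Γ.mul_ne hq eq yq ye) k (mul_mem eq yq)

theorem gamma (hp : p ∈ P) (ha : a ∈ P) (hb : b ∈ P) (hc : c ∈ P) (hd : d ∈ D) (ab : T d a b) (ac : T d a c)
    (k : a ≠ b) (h1 : col D T p a) (h2 : col D T p b) : col D T p c := by
  by_cases e : a = p
  · exact ⟨d, hd, e ▸ ac⟩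
  obtain ⟨f, hf, t⟩ := h1
  exact Γ.L3 ha hp hc hf hd (Γ.Ts _ _ _ t) ac (Γ.L4 ha hp hb hf hd (Γ.Ts _ _ _ t) ab e k h2)

theorem step (hp : p ∈ P) (hq : q ∈ P) (hm : m ∈ P) (hd : d ∈ D) (he : e ∈ D) (t : T d q m) (eq : e ∈ q)
    (h : e ∈ Qd d) (c : col D T p m) : ∃ r ∈ P, T e q r ∧ col D T p r := by
  by_cases n : e = d
  · exact ⟨m, hm, n ▸ t, c⟩
  obtain ⟨dq, dm⟩ := Γ.Tm _ _ _ t
  obtain ⟨E, A, dE, eE, qA, hE⟩ := (Γ.loc d hd q hq dq).plane e he eq h n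
  have mA := ((hE.ty d dE (Γ.ne hd) q qA dq m hm).1 t).1
  obtain ⟨k, hk, s⟩ := c
  obtain ⟨y, yE, ym, y1, yd⟩ := (hE.pf d dE (Γ.ne hd) m mA dm).1
  obtain ⟨l, lE, lm, l1, lk⟩ : ∃ l ∈ E, l ∈ m ∧ l ≠ 1 ∧ l ∈ Qd k := by
    rcases (Γ.loc k hk m hm (Γ.Tm _ _ _ s).2).half d dm y ym with t | t | t
    · exact ⟨d, dE, dm, Γ.ne hd, t⟩
    · exact ⟨y, yE, ym, y1, t⟩
    · exact ⟨_, mul_mem dE yE, mul_mem dm ym, Γ.mul_ne hm dm ym yd, t⟩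
  obtain ⟨r, rA, er, lr⟩ := hE.join e eE (Γ.ne he) l lE
  have hr := hE.sub rA
  exact ⟨r, hr, (hE.ty e eE (Γ.ne he) q qA eq r hr).2 ⟨rA, er⟩, Γ.L3 hm hp hr hk (hE.mem l lE l1)
    (Γ.Ts _ _ _ s) ((hE.ty l lE l1 m mA lm r hr).2 ⟨rA, lr⟩) lk⟩

theorem link (hp : p ∈ P) (hd : d ∈ D) (he : e ∈ D) (dp : d ∈ p) (ep : e ∈ p) :
    ∃ f ∈ D, f ∈ p ∧ f ∈ Qd d ∧ e ∈ Qd f := by
  obtain ⟨s, hs, sp, sq, n⟩ := (Γ.loc d hd p hp dp).perp
  have h' := (Γ.loc d hd p hp dp).inQ s hs sq n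
  rcases (Γ.loc e he p hp ep).half s sp d dp with t | t | t
  · exact ⟨s, hs, sp, sq, Γ.symm e he s hs t⟩
  · exact ⟨d, hd, dp, Γ.self d hd, Γ.symm e he d hd t⟩
  · exact ⟨_, h', mul_mem sp dp, mul_mem sq (Γ.self d hd), Γ.symm e he _ h' t⟩

theorem ex_col (hp : p ∈ P) (h : Reach D P T p q) :
    q ∈ P ∧ ∀ e ∈ D, e ∈ q → ∃ r ∈ P, T e q r ∧ col D T p r := by
  induction h with
  | refl => exact ⟨hp, fun e he ep => ⟨p, hp, Γ.Tr e p ep, Γ.col_self hp⟩⟩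
  | tail _ h ih =>
    obtain ⟨hq, d, hd, t⟩ := h
    refine ⟨hq, fun e he eq => ?_⟩
    obtain ⟨m, hm, dm, c⟩ := ih.2 d hd (Γ.Tm _ _ _ t).1
    obtain ⟨f, hf, fq, f1, f2⟩ := Γ.link hq hd he (Γ.Tm _ _ _ t).2 eq
    obtain ⟨m', hm', fm, c'⟩ := Γ.step hp hq hm hd hf
      (Γ.Tt d hd _ hq _ ih.1 m hm (Γ.Ts _ _ _ t) dm) fq f1 c
    exact Γ.step hp hq hm' hf he fm eq f2 c'

theorem reach_symm (hp : p ∈ P) (h : Reach D P T p q) : Reach D P T q p := by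
  induction h with
  | refl => exact .refl
  | tail h1 h ih => exact .head ⟨(Γ.ex_col hp h1).1, Γ.col_symm h.2⟩ ih

theorem reach_cj (g : G) (h : Reach D P T p q) : Reach D P T (cj g p) (cj g q) := by
  induction h with
  | refl => exact .refl
  | tail _ h ih => exact .tail ih ⟨Γ.Pc _ h.1 g, (Γ.col_cj g).2 h.2⟩

theorem nondeg (hp : p ∈ P) (hf : f ∈ p) (h : ∀ d ∈ D, d ∈ p → f ∈ Qd d) : f = 1 := by
  by_contra n
  by_cases hD : f ∈ D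
  · obtain ⟨y, hy, yp, yq⟩ := (Γ.loc f hD p hp hf).out
    exact yq (Γ.symm y hy f hD (h y hy yp))
  obtain ⟨d, hd, dp⟩ := Γ.exD hp
  obtain ⟨s, hs, sp, hb⟩ := (Γ.loc d hd p hp dp).six f hf (h d hd dp) hD n
  have := (Γ.loc s hs p hp sp).inQ _ hb (mul_mem (Γ.self s hs) (h s hs sp)) (by simpa using n)
  rw [Γ.comm hp sp hf, mul_assoc, Γ.sq p hp s sp, mul_one] at this
  exact hD this

theorem regular (hp : p ∈ P) (h : Reach D P T x p) (hx : x ∈ P) (k : ¬col D T x p) (hf : f ∈ p)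
    (e : cj f x = x) : f = 1 :=
  Γ.nondeg hp hf fun d hd dp => by
    obtain ⟨m, hm, t, c⟩ := (Γ.ex_col hx h).2 d hd dp
    refine (Γ.loc d hd p hp dp).swap m hm t (fun s => k (s ▸ c)) f hf (by_contra fun s => k ?_)
    have t' := Γ.Ts _ _ _ (Γ.T_cj hp t hf)
    exact Γ.gamma hx (Γ.Pc m hm f) hm hp hd (Γ.Tt d hd _ (Γ.Pc m hm f) p hp m hm t' t) t' s
      (e ▸ (Γ.col_cj f).2 c) c

theorem same (hp : p ∈ P) (h : Reach D P T p q) (hd : d ∈ D) (dp : d ∈ p) (dq : d ∈ q) : T d p q := by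
  obtain ⟨hq, k⟩ := Γ.ex_col hp h
  obtain ⟨r, hr, t, e, he, s⟩ := k d hd dq
  by_cases n : p = r
  · exact Γ.Ts _ _ _ (n ▸ t)
  · obtain rfl := Γ.meet_eq hp hr n he hd s dp (Γ.Tm _ _ _ t).2
    exact Γ.Tt d hd p hp r hr q hq s (Γ.Ts _ _ _ t)

/-- Every point is connected to a point on `z`. -/
theorem cover {z : G} (hz : z ∈ D) (hD : ∀ d ∈ D, ∃ g, d = g * z * g⁻¹)
    (hM : closure {g | g * z * g⁻¹ ∈ Qd z} = ⊤) (hp : p ∈ P) : ∃ r, Reach D P T p r ∧ z ∈ r := by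
  have gen : ∀ g : G, g * z * g⁻¹ ∈ Qd z → ∀ p ∈ P, (∃ r, Reach D P T p r ∧ z ∈ r) →
      ∃ r, Reach D P T p r ∧ g * z * g⁻¹ ∈ r := fun g hg p hp ⟨r, h, zr⟩ => by
    obtain ⟨r', hr', t, e⟩ := (Γ.loc z hz r (Γ.ex_col hp h).1 zr).cov _ (Γ.Dc z hz g) hg
    exact ⟨r', h.tail ⟨hr', z, hz, t⟩, e⟩
  have all : ∀ g : G, ∀ p ∈ P, (∃ r, Reach D P T p r ∧ z ∈ r) →
      ∃ r, Reach D P T p r ∧ g * z * g⁻¹ ∈ r := fun g => by
    induction (hM ▸ mem_top g : g ∈ closure {g | g * z * g⁻¹ ∈ Qd z}) using closure_induction'' with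
    | mem g hg => exact gen g hg
    | inv_mem g hg =>
      have := Γ.symm z hz _ (Γ.Dc z hz g) hg
      rw [Γ.Qc g z hz, mem_cj] at this
      exact gen g⁻¹ (by rwa [inv_inv])
    | one => simp
    | mul g h _ _ hg hh =>
      intro p hp k
      obtain ⟨r, h1, h2⟩ := hg p hp k
      obtain ⟨r', h3, h4⟩ := hh _ (Γ.Pc p hp g⁻¹) ⟨_, Γ.reach_cj g⁻¹ h1, mem_cj.2 (by rwa [inv_inv])⟩
      refine ⟨cj g r', cj_cj_inv g p ▸ Γ.reach_cj g h3, mem_cj.2 ?_⟩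
      simpa [mul_assoc] using h4
  obtain ⟨d, hd, dp⟩ := Γ.exD hp
  obtain ⟨g, rfl⟩ := hD d hd
  obtain ⟨r, h1, h2⟩ := all g⁻¹ _ (Γ.Pc p hp g⁻¹) ⟨_, .refl, mem_cj.2 (by rwa [inv_inv])⟩
  exact ⟨cj g r, cj_cj_inv g p ▸ Γ.reach_cj g h1, mem_cj.2 (by rwa [inv_inv] at h2)⟩

theorem conn [Finite G] [IsSimpleGroup G] (nab : center G ≠ ⊤) {z : G} (hz : z ∈ D)
    (hD : ∀ d ∈ D, ∃ g, d = g * z * g⁻¹) (hM : closure {g | g * z * g⁻¹ ∈ Qd z} = ⊤)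
    (hP : ∀ p ∈ P, ∀ q ∈ P, ∃ g, q = cj g p)
    (h3 : ∃ a ∈ P, ∃ b ∈ P, ∃ c ∈ P, ∀ p ∈ P, z ∈ p → T z a p ∨ T z b p ∨ T z c p) :
    ∀ p ∈ P, ∀ q ∈ P, Reach D P T p q := by
  obtain ⟨a, ha, b, hb, c, hc, h3⟩ := h3
  have tri : ∀ p ∈ P, ∃ i : Fin 3, Reach D P T p (![a, b, c] i) := fun p hp => by
    obtain ⟨r, h, zr⟩ := Γ.cover hz hD hM hp
    rcases h3 r (Γ.ex_col hp h).1 zr with t | t | t
    exacts [⟨0, h.tail ⟨ha, z, hz, Γ.Ts _ _ _ t⟩⟩, ⟨1, h.tail ⟨hb, z, hz, Γ.Ts _ _ _ t⟩⟩,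
      ⟨2, h.tail ⟨hc, z, hz, Γ.Ts _ _ _ t⟩⟩]
  let H : Subgroup G :=
    { carrier := {g | Reach D P T a (cj g a)}
      one_mem' := by show Reach D P T a (cj 1 a); rw [cj_one]; exact .refl
      mul_mem' := fun {g h} hg hh => by
        show Reach D P T a (cj (g * h) a)
        rw [cj_mul]; exact Relation.ReflTransGen.trans hg (Γ.reach_cj g hh)
      inv_mem' := fun {g} hg => by
        have := Γ.reach_cj g⁻¹ (Γ.reach_symm ha hg)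
        rwa [cj_inv_cj] at this }
  choose φ hφ using fun g : G => tri _ (Γ.Pc a ha g)
  have hi : H.index ≤ 3 := by
    refine (Nat.card_le_card_of_injective (fun q : G ⧸ H => φ q.out) fun s t e => ?_).trans (by simp)
    rw [← s.out_eq', ← t.out_eq', QuotientGroup.eq]
    have e' : φ s.out = φ t.out := e
    have := Γ.reach_cj s.out⁻¹ (Relation.ReflTransGen.trans (hφ s.out)
      (e' ▸ Γ.reach_symm (Γ.Pc a ha _) (hφ t.out)))
    rwa [cj_inv_cj, ← cj_mul] at this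
  have top : ∀ p ∈ P, Reach D P T a p := fun p hp => by
    obtain ⟨g, rfl⟩ := hP a ha p hp
    exact (GeA.top_of_index nab hi).ge (mem_top g)
  exact fun p hp q hq => Relation.ReflTransGen.trans (Γ.reach_symm ha (top p hp)) (top q hq)

end Ge

end H9.X9
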