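import Cfsg.Agent.Lib.O8C.Emb

/-! The embedding of a connected point-line geometry in a quadric of dimension eight. -/

set_option autoImplicit false
set_option linter.unusedSectionVars false
set_option maxHeartbeats 400000

namespace H39.GB

open Subgroup H68 H95 QuadraticMap H80.O8

universe u

theorem nd_of_card {M : Type*} [AddCommGroup M] [Module (ZMod 2) M] [Finite M] (q : QuadraticForm (ZMod 2) M)
    (h1 : Nat.card M ≤ 256) (h2 : 120 ≤ Nat.card {v // q v = 0})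
    (h3 : ∀ m, q m = 0 → (∀ v, polar q m v = 0) → m = 0) :
    (polarBilin q).Nondegenerate ∧ Module.finrank (ZMod 2) M = 2 * 4 := by
  have hc := Module.natCard_eq_pow_finrank (K := ZMod 2) (V := M)
  have h4 := Nat.card_le_card_of_injective (Subtype.val : {v // q v = 0} → M) Subtype.val_injective
  rw [Nat.card_zmod] at hc
  have b : 2 ^ Module.finrank (ZMod 2) M ≤ 2 ^ 8 := by omega
  rw [Nat.pow_le_pow_iff_right (by norm_num)] at b
  have nd : (polarBilin q).Nondegenerate := H12.nondeg_iff.1 fun r hr => by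
    refine h3 r ((zmod2_cases _).resolve_right fun e => ?_) hr
    have := Nat.card_le_card_of_injective
      (Sum.elim (fun v => v.1) fun v => v.1 + r : {v // q v = 0} ⊕ {v // q v = 0} → M) (by
        have k : ∀ v w : {v // q v = 0}, v.1 ≠ w.1 + r := fun v w h => by
          have := v.2
          rw [h, H12.Q_add, w.2, e, polar_comm, hr] at this
          exact absurd this (by decide)
        rintro (v | v) (w | w) h
        · exact congrArg _ (Subtype.ext h)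
        · exact absurd h (k v w)
        · exact absurd h.symm (k w v)
        · exact congrArg _ (Subtype.ext (add_right_cancel h)))
    rw [Nat.card_sum] at this
    have a : 2 ^ 7 < 2 ^ Module.finrank (ZMod 2) M := by omega
    rw [Nat.pow_lt_pow_iff_right (by norm_num)] at a
    have r0 : r ≠ 0 := fun f => by rw [f, map_zero] at e; exact absurd e (by decide)
    obtain ⟨W, hW⟩ := Submodule.exists_isCompl (Submodule.span (ZMod 2) {r})
    have f := Submodule.finrank_add_eq_of_isCompl hW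
    rw [finrank_span_singleton r0] at f
    obtain ⟨m, hm⟩ := even_finrank (q := q.comp W.subtype) (H12.nondeg_iff.1 fun w hw => by
      have k : ∀ v, polar q w.1 v = 0 := fun v => by
        obtain ⟨_, hs, t, ht, rfl⟩ := Submodule.mem_sup.1 (hW.sup_eq_top.ge (Submodule.mem_top (x := v)))
        obtain ⟨c, rfl⟩ := Submodule.mem_span_singleton.1 hs
        rw [polar_add_right, polar_smul_right, polar_comm, hr, smul_zero, zero_add]
        exact hw ⟨t, ht⟩
      rcases zmod2_cases (q w.1) with g | g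
      · exact Subtype.ext (h3 _ g k)
      · have := h3 (w.1 + r) (by rw [H12.Q_add, g, e, k]; rfl) fun v => by rw [polar_add_left, k, hr, add_zero]
        rw [add_eq_zero_iff_eq_neg, vec2_neg] at this
        exact absurd ((Submodule.disjoint_def.1 hW.disjoint) r (Submodule.mem_span_singleton_self r)
          (this ▸ w.2)) r0)
    omega
  obtain ⟨m, hm⟩ := even_finrank nd
  have a : 2 ^ 6 < 2 ^ Module.finrank (ZMod 2) M := by omega
  rw [Nat.pow_lt_pow_iff_right (by norm_num)] at a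
  exact ⟨nd, by omega⟩

theorem to_iso {G M : Type*} [Group G] [AddCommGroup M] [Module (ZMod 2) M] {q : QuadraticForm (ZMod 2) M}
    {ι : Type} [Fintype ι] [DecidableEq ι] {f : (ι → ZMod 2) → ZMod 2} (Φ : (ι → ZMod 2) ≃ₗ[ZMod 2] M)
    (hΦ : ∀ x, q (Φ x) = f x) (ψ : G →* H12.O q) :
    ∃ φ : G →* Cfsg.isometryGroup (ZMod 2) f, ∀ g, φ g = 1 → ψ g = 1 :=
  let e := (H12.isoEquiv (q.comp Φ.toLinearMap) hΦ).trans (H12.congrO Φ fun _ => rfl)
  ⟨e.symm.toMonoidHom.comp ψ, fun _ hg => (MulEquiv.map_eq_one_iff e.symm).1 hg⟩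

/-- the facts on the geometry used for the embedding -/
structure Gu {G : Type u} [Group G] (ν : ℕ) (D : Set G) (Qd : G → Subgroup G) (P : Set (Subgroup G)) : Prop where
  Pc : ∀ p ∈ P, ∀ g, cj g p ∈ P
  cD : ∀ p ∈ P, (D ∩ p).ncard = ν
  cP : ∀ p ∈ P, Nat.card p = 64
  on : ∀ d ∈ D, ∃ p ∈ P, d ∈ p
  exD : ∀ {p}, p ∈ P → ∃ d ∈ D, d ∈ p
  comm : ∀ {p}, p ∈ P → ∀ {a b}, a ∈ p → b ∈ p → a * b = b * a
  three : ∀ d ∈ D, ∀ p ∈ P, d ∈ p → ∃ b ∈ P, ∃ c ∈ P, p ≠ b ∧ p ≠ c ∧ b ≠ c ∧ d ∈ b ∧ d ∈ c ∧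
    ∀ r ∈ P, d ∈ r → r = p ∨ r = b ∨ r = c
  out : ∀ d ∈ D, ∀ p ∈ P, d ∈ p → ∃ y ∈ D, y ∈ p ∧ y ∉ Qd d
  swap : ∀ d ∈ D, ∀ p ∈ P, d ∈ p → ∀ q ∈ P, d ∈ q → p ≠ q → ∀ x ∈ p, cj x q = q → x ∈ Qd d
  col_self : ∀ {p}, p ∈ P → col D p p
  col_cj : ∀ {p q} (g : G), col D (cj g p) (cj g q) ↔ col D p q
  line_eq : ∀ {p q}, p ∈ P → q ∈ P → p ≠ q → ∀ {d e}, d ∈ D → e ∈ D → d ∈ p → d ∈ q → e ∈ p → e ∈ q → e = d
  L4 : ∀ {m p q}, m ∈ P → p ∈ P → q ∈ P → ∀ {d e}, d ∈ D → e ∈ D → d ∈ m → d ∈ p → e ∈ m → e ∈ q → m ≠ p →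
    m ≠ q → col D p q → e ∈ Qd d
  L3 : ∀ {m p q}, m ∈ P → p ∈ P → q ∈ P → ∀ {d e}, d ∈ D → e ∈ D → d ∈ m → d ∈ p → e ∈ m → e ∈ q →
    e ∈ Qd d → col D p q
  gamma : ∀ {p a b c}, p ∈ P → a ∈ P → b ∈ P → c ∈ P → ∀ {d}, d ∈ D → d ∈ a → d ∈ b → d ∈ c → a ≠ b →
    col D p a → col D p b → col D p c
  on_line : ∀ {p}, p ∈ P → ∀ {d}, d ∈ D → ∃ r ∈ P, d ∈ r ∧ col D p r
  regular : ∀ {p x}, p ∈ P → x ∈ P → ¬col D x p → ∀ {v}, v ∈ p → cj v x = x → v = 1

namespace Gu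

variable {G : Type u} [Group G] {ν : ℕ} {D : Set G} {Qd : G → Subgroup G} {P : Set (Subgroup G)}
  (Γ : Gu ν D Qd P)
include Γ

theorem pts {a b c r : Subgroup G} (ha : a ∈ P) (hb : b ∈ P) (hc : c ∈ P) (hr : r ∈ P) {d : G} (hd : d ∈ D)
    (da : d ∈ a) (db : d ∈ b) (dc : d ∈ c) (dr : d ∈ r) (n1 : a ≠ b) (n2 : a ≠ c) (n3 : b ≠ c) :
    r = a ∨ r = b ∨ r = c := by
  obtain ⟨x, -, y, -, -, -, -, -, -, h⟩ := (Γ.three d hd a ha da)
  have h1 := (h b hb db).resolve_left n1.symm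
  have h2 := (h c hc dc).resolve_left n2.symm
  have h3 := h r hr dr
  grind

theorem third {a b : Subgroup G} (ha : a ∈ P) (hb : b ∈ P) {d : G} (hd : d ∈ D) (da : d ∈ a) (db : d ∈ b) :
    ∃ c ∈ P, d ∈ c ∧ a ≠ c ∧ b ≠ c := by
  obtain ⟨x, hx, y, hy, n1, n2, n3, dx, dy, -⟩ := (Γ.three d hd a ha da)
  by_cases e : b = x
  · exact ⟨y, hy, dy, n2, e ▸ n3⟩
  · exact ⟨x, hx, dx, n1, e⟩

theorem exists_sep {p m : Subgroup G} (hp : p ∈ P) (hm : m ∈ P) (n : m ≠ p) (c : col D m p) :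
    ∃ x ∈ P, col D m x ∧ ¬col D p x := by
  obtain ⟨d, hd, dm, dp⟩ := c
  obtain ⟨e, he, em, ed⟩ := (Γ.out d hd m hm dm)
  obtain ⟨x, hx, ex, mx, -⟩ := Γ.third hm hm he em em
  exact ⟨x, hx, ⟨e, he, em, ex⟩, fun c => ed (Γ.L4 hm hp hx hd he dm dp em ex n mx c)⟩

theorem exists_far {p : Subgroup G} (hp : p ∈ P) : ∃ x ∈ P, ¬col D p x := by
  obtain ⟨d, hd, dp⟩ := Γ.exD hp
  obtain ⟨m, hm, dm, n, -⟩ := Γ.third hp hp hd dp dp
  obtain ⟨x, hx, -, h⟩ := Γ.exists_sep hp hm n.symm ⟨d, hd, dm, dp⟩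
  exact ⟨x, hx, h⟩

variable [Finite G]

theorem card_lines : P.ncard * ν ≤ D.ncard * 3 := by
  classical
  rw [Set.ncard_eq_toFinset_card P, Set.ncard_eq_toFinset_card D]
  refine Finset.card_mul_le_card_mul (fun p d => d ∈ p) (fun p hp => ?_) fun d hd => ?_
  · rw [← Γ.cD p (by simpa using hp), Set.ncard_eq_toFinset_card (D ∩ p)]
    exact Finset.card_le_card fun d => by simp
  · obtain ⟨p, hp, dp⟩ := Γ.on d (by simpa using hd)
    obtain ⟨b, -, c, -, -, -, -, -, -, h⟩ := (Γ.three d (by simpa using hd) p hp dp)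
    refine (Finset.card_le_card (t := {p, b, c}) fun r hr => ?_).trans Finset.card_le_three
    simp only [Finset.mem_bipartiteBelow, Set.Finite.mem_toFinset] at hr
    simpa using h r hr.1 hr.2

theorem card_pts {p : Subgroup G} (hp : p ∈ P) : 65 + 2 * ν ≤ P.ncard := by
  classical
  obtain ⟨x, hx, far⟩ := Γ.exists_far hp
  have h1 : 64 ≤ {q ∈ P | ¬col D p q}.ncard := by
    rw [← Γ.cP p hp, ← Nat.card_coe_set_eq]
    refine Nat.card_le_card_of_injective (fun v : p => ⟨cj v x, Γ.Pc x hx v, fun c => far ?_⟩) fun v w h => ?_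
    · exact (Γ.col_cj v).1 ((cj_eq_of_mem v.2).symm ▸ c)
    · have : cj (v : G) x = cj (w : G) x := congrArg Subtype.val h
      have := Γ.regular hp hx (fun c => far c.symm) (w⁻¹ * v).2 (by
        rw [coe_mul, cj_mul, this, coe_inv, cj_inv_cj])
      exact (inv_mul_eq_one.1 (Subtype.ext this : w⁻¹ * v = 1)).symm
  have h2 : (D ∩ p).ncard * 2 ≤ {q ∈ P | col D p q ∧ q ≠ p}.ncard * 1 := by
    rw [Set.ncard_eq_toFinset_card, Set.ncard_eq_toFinset_card]
    refine Finset.card_mul_le_card_mul (fun d q => d ∈ q) (fun d hd => ?_) fun q hq => ?_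
    · simp only [Set.Finite.mem_toFinset] at hd
      obtain ⟨b, hb, c, hc, n1, n2, n3, db, dc, -⟩ := Γ.three d hd.1 p hp hd.2
      rw [← Finset.card_pair n3]
      refine Finset.card_le_card fun r hr => ?_
      simp only [Finset.mem_bipartiteAbove, Set.Finite.mem_toFinset]
      rcases Finset.mem_insert.1 hr with rfl | hr
      · exact ⟨⟨hb, ⟨d, hd.1, hd.2, db⟩, n1.symm⟩, db⟩
      · obtain rfl := Finset.mem_singleton.1 hr
        exact ⟨⟨hc, ⟨d, hd.1, hd.2, dc⟩, n2.symm⟩, dc⟩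
    · simp only [Set.Finite.mem_toFinset] at hq
      refine Finset.card_le_one.2 fun d hd e he => ?_
      simp only [Finset.mem_bipartiteBelow, Set.Finite.mem_toFinset] at hd he
      exact Γ.line_eq hq.1 hp hq.2.2 he.1.1 hd.1.1 he.2 he.1.2 hd.2 hd.1.2
  have h3 := Set.ncard_le_ncard (s := insert p ({q ∈ P | col D p q ∧ q ≠ p} ∪ {q ∈ P | ¬col D p q})) (t := P) (by
    rintro q (rfl | h | h)
    exacts [hp, h.1, h.1])
  rw [Set.ncard_insert_of_notMem (by
    rintro (h | h)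
    exacts [h.2.2 rfl, h.2 (Γ.col_self hp)]), Set.ncard_union_eq (Set.disjoint_left.2 fun q h h' => h'.2 h.2.1)] at h3
  rw [Γ.cD p hp] at h2
  omega

theorem card_le {M : Type*} [AddCommGroup M] [Module (ZMod 2) M] {ι : Subgroup G → M} {ρ : G → M →ₗ[ZMod 2] M}
    (hs : Submodule.span (ZMod 2) (ι '' P) = ⊤) (hρ : ∀ g r, ρ g (ι r) = ι (cj g r))
    (hl : ∀ d ∈ D, ∀ a ∈ P, ∀ b ∈ P, ∀ c ∈ P, d ∈ a → d ∈ b → d ∈ c → a ≠ b → a ≠ c → b ≠ c → ι a + ι b = ι c)
    {p : Subgroup G} (hp : p ∈ P) : Finite M ∧ Nat.card M ≤ 256 := by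
  obtain ⟨x, hx, far⟩ := Γ.exists_far hp
  let N := Submodule.span (ZMod 2) (ι '' {r ∈ P | col D p r})
  have mN : ∀ r ∈ P, col D p r → ι r ∈ N := fun r h c => Submodule.subset_span ⟨r, ⟨h, c⟩, rfl⟩
  have adj : ∀ a ∈ P, ∀ b ∈ P, ¬col D p a → ¬col D p b → col D a b → ι a + ι b ∈ N := by
    rintro a ha b hb n1 n2 ⟨d, hd, da, db⟩
    by_cases e : a = b
    · rw [e, vec2_add_self]; exact zero_mem _
    obtain ⟨c, h, dc, k⟩ := Γ.on_line hp hd
    rw [hl d hd a ha b hb c h da db dc e (fun e => n1 (e ▸ k)) fun e => n2 (e ▸ k)]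
    exact mN c h k
  have tr : ∀ a b c : M, a + b ∈ N → b + c ∈ N → a + c ∈ N := fun a b c h1 h2 => by
    have := add_mem h1 h2
    rwa [add_assoc, ← add_assoc b, vec2_add_self, zero_add] at this
  have S1 : ∀ y ∈ P, ¬col D p y → ι x + ι y ∈ N := fun y hy ny => by
    by_contra n
    have pick : ∀ a ∈ P, ¬col D p a → ι x + ι a ∈ N → ∀ m ∈ P, col D a m → col D p m → col D y m := by
      rintro a ha na hN m hm ⟨k, hk, ka, km⟩ c
      obtain ⟨r, hr, kr, c'⟩ := Γ.on_line hy hk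
      have : col D p r := by_contra fun nr =>
        n (tr _ _ _ hN (tr _ _ _ (adj a ha r hr na nr ⟨k, hk, ka, kr⟩) (adj r hr y hy nr ny c'.symm)))
      rwa [← show r = m from by_contra fun e => na (Γ.gamma hp hr hm ha hk kr km ka e this c)]
    obtain ⟨d, hd, dp⟩ := Γ.exD hp
    obtain ⟨e, he, ep, ed⟩ := (Γ.out d hd p hp dp)
    obtain ⟨m, hm, dm, k, hk, kx, km⟩ := Γ.on_line hx hd
    obtain ⟨x', hx', kx', n1, n2⟩ := Γ.third hx hm hk kx km
    have far' : ¬col D p x' := fun c => far (Γ.gamma hp hm hx' hx hk km kx' kx n2 ⟨d, hd, dp, dm⟩ c)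
    obtain ⟨m1, hm1, e1, c1⟩ := Γ.on_line hx he
    obtain ⟨m2, hm2, e2, c2⟩ := Γ.on_line hx' he
    refine ny (Γ.gamma hy hm1 hm2 hp he e1 e2 ep (fun h => ed ?_)
      (pick x hx far (by rw [vec2_add_self]; exact zero_mem _) m1 hm1 c1 ⟨e, he, ep, e1⟩)
      (pick x' hx' far' (adj x hx x' hx' far far' ⟨k, hk, kx, kx'⟩) m2 hm2 c2 ⟨e, he, ep, e2⟩)).symm
    exact Γ.L4 hp hm hm1 hd he dp dm ep e1 (fun h => far (h ▸ ⟨k, hk, km, kx⟩)) (fun h => far (h ▸ c1.symm))
      (Γ.gamma hm1 hx hx' hm hk kx kx' km n1 c1.symm (h ▸ c2.symm)).symm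
  have S2 : ∀ v ∈ p, ∀ n ∈ N, ρ v n + n ∈ Submodule.span (ZMod 2) {ι p} := fun v hv n hn => by
    induction hn using Submodule.span_induction with
    | mem _ h =>
      obtain ⟨r, ⟨hr, d, hd, dp, dr⟩, rfl⟩ := h
      rw [hρ]
      by_cases e : cj v r = r
      · rw [e, vec2_add_self]; exact zero_mem _
      have n : r ≠ p := fun h => e (h ▸ cj_eq_of_mem (h ▸ hv))
      rw [hl d hd _ (Γ.Pc r hr v) r hr p hp (mem_cj_of_comm (Γ.comm hp hv dp) dr) dr dp e
        (fun h => n (cj_injective v (h.trans (cj_eq_of_mem hv).symm))) n]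
      exact Submodule.mem_span_singleton_self _
    | zero => simp
    | add a b _ _ h1 h2 => rw [map_add, add_add_add_comm]; exact add_mem h1 h2
    | smul c a _ h => rw [map_smul, ← smul_add]; exact Submodule.smul_mem _ c h
  have S3 : ∀ v ∈ p, ι x + ι (cj v x) ∈ N := fun v hv => S1 _ (Γ.Pc x hx v) fun c => far (by
    rwa [← cj_eq_of_mem hv, Γ.col_cj] at c)
  have z0 : ι x + ι (cj 1 x) = 0 := by rw [cj_one, vec2_add_self]
  have S4 : ∀ n ∈ N, ∃ v ∈ p, n + (ι x + ι (cj v x)) ∈ Submodule.span (ZMod 2) {ι p} := fun n hn => by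
    induction hn using Submodule.span_induction with
    | mem _ h =>
      obtain ⟨r, ⟨hr, d, hd, dp, dr⟩, rfl⟩ := h
      by_cases e : r = p
      · exact ⟨1, one_mem _, by rw [z0, add_zero, e]; exact Submodule.mem_span_singleton_self _⟩
      obtain ⟨m, hm, dm, k, hk, kx, km⟩ := Γ.on_line hx hd
      have xm : x ≠ m := fun h => far ⟨d, hd, dp, h ▸ dm⟩
      refine ⟨d, dp, ?_⟩
      rw [hl k hk x hx _ (Γ.Pc x hx d) m hm kx (mem_cj_of_comm (Γ.comm hm dm km) kx) km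
        (fun h => far (Γ.L3 hm hx hp hk hd km kx dm dp ((Γ.swap k hk m hm km) x hx kx xm.symm d dm h.symm)).symm)
        xm fun h => xm (cj_injective d (h.trans (cj_eq_of_mem dm).symm))]
      by_cases e' : r = m
      · rw [e', vec2_add_self]; exact zero_mem _
      · rw [hl d hd r hr m hm p hp dr dm dp e' e fun h => far ⟨k, hk, h ▸ km, kx⟩]
        exact Submodule.mem_span_singleton_self _
    | zero => exact ⟨1, one_mem _, by rw [z0, add_zero]; exact zero_mem _⟩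
    | add a b _ _ h1 h2 =>
      obtain ⟨v, hv, h1⟩ := h1
      obtain ⟨w, hw, h2⟩ := h2
      refine ⟨_, mul_mem hv hw, ?_⟩
      have := add_mem (add_mem h1 h2) (S2 v hv _ (S3 w hw))
      rw [map_add, hρ, hρ, ← cj_mul] at this
      rwa [show ∀ a b x y z w : M, a + (x + y) + (b + (x + z)) + (y + w + (x + z)) =
        a + b + (x + w) + ((x + z) + (x + z)) + (y + y) from fun _ _ _ _ _ _ => by abel,
        vec2_add_self, vec2_add_self, add_zero, add_zero] at this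
    | smul c a _ h =>
      rcases zmod2_cases c with rfl | rfl
      · exact ⟨1, one_mem _, by rw [z0, add_zero, zero_smul]; exact zero_mem _⟩
      · rwa [one_smul]
  have sj : Function.Surjective fun t : p × ZMod 2 × ZMod 2 =>
      t.2.1 • ι p + (ι x + ι (cj t.1 x)) + t.2.2 • ι x := fun m => by
    have : m ∈ N ⊔ Submodule.span (ZMod 2) {ι x} := by
      refine (Submodule.span_le (s := ι '' P)).2 ?_ (hs.ge trivial)
      rintro _ ⟨y, hy, rfl⟩
      by_cases c : col D p y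
      · exact Submodule.mem_sup_left (mN y hy c)
      · have := add_mem (Submodule.mem_sup_right (S := N) (Submodule.mem_span_singleton_self (ι x)))
          (Submodule.mem_sup_left (S1 y hy c))
        rwa [← add_assoc, vec2_add_self, zero_add] at this
    obtain ⟨n, hn, _, h, rfl⟩ := Submodule.mem_sup.1 this
    obtain ⟨b, rfl⟩ := Submodule.mem_span_singleton.1 h
    obtain ⟨v, hv, h⟩ := S4 n hn
    obtain ⟨a, e⟩ := Submodule.mem_span_singleton.1 h
    exact ⟨⟨⟨v, hv⟩, a, b⟩, by simp only [e]; rw [add_assoc n, vec2_add_self, add_zero]⟩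
  refine ⟨.of_surjective _ sj, (Nat.card_le_card_of_surjective _ sj).trans ?_⟩
  rw [Nat.card_prod, Nat.card_prod, Γ.cP p hp, Nat.card_zmod]

theorem exists_mod {p : Subgroup G} (hp : p ∈ P) :
    ∃ (M : Type u) (_ : AddCommGroup M) (_ : Module (ZMod 2) M) (_ : Finite M) (q : QuadraticForm (ZMod 2) M),
      Nat.card M ≤ 256 ∧ 66 + 2 * ν ≤ Nat.card {v // q v = 0} ∧
      (∀ m, q m = 0 → (∀ v, polar q m v = 0) → m = 0) ∧
      ∃ ψ : G →* H12.O q, ∀ g, ψ g = 1 → ∀ r ∈ P, cj g r = r := by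
  classical
  let B : Subgroup G → Subgroup G → ZMod 2 := fun a b => if a ∈ P ∧ b ∈ P ∧ ¬col D a b then 1 else 0
  have B0 : ∀ a b, col D a b → B a b = 0 := fun a b h => if_neg fun k => k.2.2 h
  have B1 : ∀ a ∈ P, ∀ b ∈ P, ¬col D a b → B a b = 1 := fun a ha b hb h => if_pos ⟨ha, hb, h⟩
  obtain ⟨M, _, _, q, ι, h1, h2, h3, h4, h5⟩ := exists_univ B
    (fun a b => if_congr ⟨fun h => ⟨h.2.1, h.1, fun c => h.2.2 c.symm⟩, fun h => ⟨h.2.1, h.1, fun c => h.2.2 c.symm⟩⟩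
      rfl rfl) fun a => if_neg fun h => h.2.2 (Γ.col_self h.1)
  have Pc : ∀ g r, cj g r ∈ P ↔ r ∈ P := fun g r => ⟨fun h => cj_inv_cj g r ▸ Γ.Pc _ h g⁻¹, fun h => Γ.Pc r h g⟩
  choose ρ hρ qρ using fun g : G => h5 (cj g) (fun r => ⟨_, cj_cj_inv g r⟩) fun a b => by
    simp only [B, Pc, Γ.col_cj]
  have ext : ∀ f g : M →ₗ[ZMod 2] M, (∀ r, f (ι r) = g (ι r)) → ∀ m, f m = g m := fun f g h =>
    LinearMap.congr_fun (LinearMap.ext_on_range h1 h)
  have ρm : ∀ g h m, ρ (g * h) m = ρ g (ρ h m) := fun g h =>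
    ext _ (ρ g ∘ₗ ρ h) fun r => by simp only [LinearMap.comp_apply, hρ, cj_mul]
  have ρ1 : ∀ m, ρ 1 m = m := ext _ .id fun r => by rw [hρ, cj_one]; rfl
  have hs : Submodule.span (ZMod 2) (ι '' P) = ⊤ := top_unique (h1 ▸ Submodule.span_le.2 (by
    rintro _ ⟨r, rfl⟩
    by_cases h : r ∈ P
    · exact Submodule.subset_span ⟨r, h, rfl⟩
    · rw [h4 _ (h2 r) fun a => (h3 r a).trans (if_neg fun k => h k.1)]
      exact zero_mem _))
  obtain ⟨_, hM⟩ := Γ.card_le hs hρ (fun d hd a ha b hb c hc' da db dc n1 n2 n3 => by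
    rw [← vec2_neg (ι c), ← add_eq_zero_iff_eq_neg]
    refine h4 _ ?_ fun r => ?_
    · rw [H12.Q_add, H12.Q_add, polar_add_left, h2, h2, h2, h3, h3, h3, B0 a b ⟨d, hd, da, db⟩,
        B0 a c ⟨d, hd, da, dc⟩, B0 b c ⟨d, hd, db, dc⟩]
      rfl
    rw [polar_add_left, polar_add_left, h3, h3, h3]
    by_cases hr : r ∈ P
    swap
    · simp [B, hr]
    obtain ⟨m, hm, dm, k⟩ := Γ.on_line hr hd
    have g : ∀ a ∈ P, ∀ b ∈ P, ∀ c ∈ P, d ∈ a → d ∈ b → d ∈ c → a ≠ b → a ≠ c → col D r a →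
        B a r + B b r + B c r = 0 := fun a ha b hb c hc da db dc n1 n2 k => by
      by_cases t : col D r b
      · rw [B0 _ _ k.symm, B0 _ _ t.symm, B0 _ _ (Γ.gamma hr ha hb hc hd da db dc n1 k t).symm]; rfl
      · rw [B0 _ _ k.symm, B1 _ hb _ hr fun c => t c.symm,
          B1 _ hc _ hr fun c' => t (Γ.gamma hr ha hc hb hd da dc db n2 k c'.symm)]
        rfl
    rcases Γ.pts ha hb hc' hm hd da db dc dm n1 n2 n3 with rfl | rfl | rfl
    · exact g _ ha _ hb _ hc' da db dc n1 n2 k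
    · rw [add_comm (B a r)]; exact g _ hb _ ha _ hc' db da dc n1.symm n3 k
    · rw [add_comm, ← add_assoc]; exact g _ hc' _ ha _ hb dc da db n2.symm n3.symm k) hp
  have inj : Set.InjOn ι P := fun a ha b hb e => by_contra fun n => by
    have c : col D a b := by_contra fun c => by
      have := h3 a b
      rw [← e, h3, B0 _ _ (Γ.col_self ha), B1 a ha b hb c] at this
      exact absurd this (by decide)
    obtain ⟨x, hx, c1, c2⟩ := Γ.exists_sep hb ha n c
    have := h3 a x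
    rw [e, h3, B0 _ _ c1, B1 b hb x hx c2] at this
    exact absurd this (by decide)
  refine ⟨M, inferInstance, inferInstance, inferInstance, q, hM, (by
    have := Set.ncard_le_ncard (s := insert 0 (ι '' P)) (t := {v | q v = 0}) (by
      rintro _ (rfl | ⟨r, -, rfl⟩)
      exacts [map_zero q, h2 r])
    rw [Set.ncard_insert_of_notMem (by
      rintro ⟨r, hr, e⟩
      obtain ⟨x, hx, c⟩ := Γ.exists_far hr
      have := h3 r x
      rw [e, polar_zero_left, B1 r hr x hx c] at this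
      exact absurd this (by decide)), inj.ncard_image] at this
    have := Γ.card_pts hp
    change 66 + 2 * ν ≤ Set.ncard {v | q v = 0}
    omega), fun m a b => h4 m a fun r => b _, ?_⟩
  let ψ : G →* H12.O q := MonoidHom.mk' (fun g => H12.mkO q (ρ g) (ρ g⁻¹) (qρ g)
    (fun m => by rw [← ρm, mul_inv_cancel, ρ1]) fun m => by rw [← ρm, inv_mul_cancel, ρ1])
    fun g h => H12.O.ext (ρm g h)
  refine ⟨ψ, fun g hg r hr => inj (Γ.Pc r hr g) hr ?_⟩
  rw [← hρ]
  exact congrArg (fun k : H12.O q => k.1 (ι r)) hg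

end Gu

end H39.GB
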