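import Cfsg.Agent.Lib.X9.GeA
import Cfsg.Agent.Lib.X9.GeB1

/-! The connected geometry embeds in a quadric of dimension eight. -/

set_option autoImplicit false
set_option linter.unusedSectionVars false
set_option maxHeartbeats 400000

namespace H9.X9

open Subgroup H68 Cfsg

universe u

variable {G : Type u} [Group G] {n : ℕ} {D : Set G} {Qd : G → Subgroup G} {P : Set (Subgroup G)}
  {T : G → Subgroup G → Subgroup G → Prop} {m p q a b c x : Subgroup G} {d e f g : G}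

theorem Ge.gu (Γ : Ge n D Qd P T) (hc : ∀ p ∈ P, ∀ q ∈ P, Reach D P T p q) : H39.GB.Gu n D Qd P := by
  have s : ∀ {p q d}, p ∈ P → q ∈ P → d ∈ D → d ∈ p → d ∈ q → T d p q := fun hp hq hd dp dq =>
    Γ.same hp (hc _ hp _ hq) hd dp dq
  have c1 : ∀ {p q}, col D T p q → H80.O8.col D p q := fun ⟨d, hd, h⟩ => ⟨d, hd, Γ.Tm d _ _ h⟩
  have c2 : ∀ {p q}, p ∈ P → q ∈ P → H80.O8.col D p q → col D T p q := fun hp hq ⟨d, hd, dp, dq⟩ =>
    ⟨d, hd, s hp hq hd dp dq⟩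
  exact
    { Pc := Γ.Pc
      cD := Γ.cD
      cP := Γ.cP
      on := Γ.on
      exD := Γ.exD
      comm := fun hp _ _ => Γ.comm hp
      three := fun d hd p hp dp => by
        obtain ⟨b, hb, c, hc, n1, n2, n3, t1, t2, h⟩ := (Γ.loc d hd p hp dp).three
        exact ⟨b, hb, c, hc, n1, n2, n3, (Γ.Tm _ _ _ t1).2, (Γ.Tm _ _ _ t2).2,
          fun r hr dr => h r hr (s hp hr hd dp dr)⟩
      out := fun d hd p hp dp => (Γ.loc d hd p hp dp).out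
      swap := fun d hd p hp dp q hq dq => (Γ.loc d hd p hp dp).swap q hq (s hp hq hd dp dq)
      col_self := fun hp => c1 (Γ.col_self hp)
      col_cj := fun g => ⟨fun ⟨d, h, a, b⟩ => ⟨_, by simpa using Γ.Dc d h g⁻¹, mem_cj.1 a, mem_cj.1 b⟩,
        fun ⟨d, h, a, b⟩ => ⟨_, Γ.Dc d h g, conj_mem_cj.2 a, conj_mem_cj.2 b⟩⟩
      line_eq := fun hp hq k _ _ hd he dp dq ep eq =>
        Γ.line_eq hp hq k hd he (s hp hq hd dp dq) (s hp hq he ep eq)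
      L4 := fun hm hp hq _ _ hd he dm dp em eq n1 n2 k =>
        Γ.L4 hm hp hq hd he (s hm hp hd dm dp) (s hm hq he em eq) n1 n2 (c2 hp hq k)
      L3 := fun hm hp hq _ _ hd he dm dp em eq h =>
        c1 (Γ.L3 hm hp hq hd he (s hm hp hd dm dp) (s hm hq he em eq) h)
      gamma := fun hp ha hb hc _ hd da db dc k h1 h2 =>
        c1 (Γ.gamma hp ha hb hc hd (s ha hb hd da db) (s ha hc hd da dc) k (c2 hp ha h1) (c2 hp hb h2))
      on_line := fun hp d hd => by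
        obtain ⟨q, hq, dq⟩ := Γ.on d hd
        obtain ⟨r, hr, t, k⟩ := (Γ.ex_col hp (hc _ hp q hq)).2 d hd dq
        exact ⟨r, hr, (Γ.Tm _ _ _ t).2, c1 k⟩
      regular := fun hp hx k _ hv e => Γ.regular hp (hc _ hx _ hp) hx (fun h => k (c1 h)) hv e }

variable [Finite G]

theorem Ge.card_lines (Γ : Ge n D Qd P T) (hc : ∀ p ∈ P, ∀ q ∈ P, Reach D P T p q) :
    P.ncard * n ≤ D.ncard * 3 := (Γ.gu hc).card_lines

theorem Ge.card_pts (Γ : Ge n D Qd P T) (hc : ∀ p ∈ P, ∀ q ∈ P, Reach D P T p q) (hp : p ∈ P) :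
    65 + 2 * n ≤ P.ncard := (Γ.gu hc).card_pts hp

theorem Ge.hom35 (Γ : Ge 35 D Qd P T) (hc : ∀ p ∈ P, ∀ q ∈ P, Reach D P T p q) (hp : p ∈ P) :
    ∃ φ : G →* isometryGroup (ZMod 2) (quadFormPlus 4 (ZMod 2)), ∀ g, φ g = 1 → ∀ r ∈ P, cj g r = r := by
  obtain ⟨M, _, _, _, q, h1, h2, h3, ψ, h⟩ := (Γ.gu hc).exists_mod hp
  obtain ⟨Φ, hΦ⟩ := H80.O8.plus_of_card q h1 h2 h3
  obtain ⟨φ, k⟩ := H39.GB.to_iso Φ hΦ ψ
  exact ⟨φ, fun g hg => h g (k g hg)⟩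

theorem Ge.hom27 (Γ : Ge 27 D Qd P T) (hc : ∀ p ∈ P, ∀ q ∈ P, Reach D P T p q) (hp : p ∈ P) :
    (∃ φ : G →* isometryGroup (ZMod 2) (quadFormPlus 4 (ZMod 2)), ∀ g, φ g = 1 → ∀ r ∈ P, cj g r = r) ∨
      ∃ φ : G →* isometryGroup (ZMod 2) (quadFormMinus 3 (ZMod 2) 1 1), ∀ g, φ g = 1 → ∀ r ∈ P, cj g r = r := by
  obtain ⟨M, _, _, _, q, h1, h2, h3, ψ, h⟩ := (Γ.gu hc).exists_mod hp
  obtain ⟨nd, hf⟩ := H39.GB.nd_of_card q h1 h2 h3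
  rcases H66.exists_equiv_plus_or_minus nd hf H95.aniso_one_one with ⟨Φ, hΦ⟩ | ⟨-, Φ, hΦ⟩
  · obtain ⟨φ, k⟩ := H39.GB.to_iso Φ hΦ ψ
    exact .inl ⟨φ, fun g hg => h g (k g hg)⟩
  · obtain ⟨φ, k⟩ := H39.GB.to_iso Φ hΦ ψ
    exact .inr ⟨φ, fun g hg => h g (k g hg)⟩

end H9.X9
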