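import Cfsg.Agent.Lib.O8C.Geo

/-!
A point-line geometry on elementary abelian subgroups of order `64` with typed lines: `T d p q` says that the
points `p`, `q` lie on a common line through the involution `d`.
-/

set_option autoImplicit false

namespace H9.X9

open Subgroup H68
open H80.O8 (Pf)

variable {G : Type*} [Group G]

/-- a plane `E` with its set `A` of points -/
structure Pn (D : Set G) (P : Set (Subgroup G)) (T : G → Subgroup G → Subgroup G → Prop) (E : Subgroup G)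
    (A : Set (Subgroup G)) : Prop where
  sub : A ⊆ P
  mem : ∀ x ∈ E, x ≠ 1 → x ∈ D
  ty : ∀ x ∈ E, x ≠ 1 → ∀ r ∈ A, x ∈ r → ∀ r' ∈ P, (T x r r' ↔ r' ∈ A ∧ x ∈ r')
  pf : ∀ x ∈ E, x ≠ 1 → ∀ r ∈ A, x ∈ r → Pf E x r
  join : ∀ x ∈ E, x ≠ 1 → ∀ y ∈ E, ∃ r ∈ A, x ∈ r ∧ y ∈ r

/-- the local axioms at a flag -/
structure Lc (D : Set G) (Qd : G → Subgroup G) (P : Set (Subgroup G)) (T : G → Subgroup G → Subgroup G → Prop)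
    (d : G) (p : Subgroup G) : Prop where
  three : ∃ b ∈ P, ∃ c ∈ P, p ≠ b ∧ p ≠ c ∧ b ≠ c ∧ T d p b ∧ T d p c ∧ ∀ r ∈ P, T d p r → r = p ∨ r = b ∨ r = c
  meet : ∀ q ∈ P, T d p q → p ≠ q → ∀ x ∈ p, x ∈ q → x = 1 ∨ x = d
  fix : ∀ x ∈ Qd d, cj x p = p
  swap : ∀ q ∈ P, T d p q → p ≠ q → ∀ x ∈ p, cj x q = q → x ∈ Qd d
  half : ∀ a ∈ p, ∀ b ∈ p, a ∈ Qd d ∨ b ∈ Qd d ∨ a * b ∈ Qd d
  inQ : ∀ f ∈ D, f ∈ Qd d → f ≠ d → f * d ∈ D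
  outQ : ∀ f ∈ p, f ∉ Qd d → (f ∈ D ↔ f * d ∉ D)
  perp : ∃ s ∈ D, s ∈ p ∧ s ∈ Qd d ∧ s ≠ d
  out : ∃ y ∈ D, y ∈ p ∧ y ∉ Qd d
  six : ∀ b ∈ p, b ∈ Qd d → b ∉ D → b ≠ 1 → ∃ s ∈ D, s ∈ p ∧ s * b ∈ D
  plane : ∀ e ∈ D, e ∈ p → e ∈ Qd d → e ≠ d → ∃ E A, d ∈ E ∧ e ∈ E ∧ p ∈ A ∧ Pn D P T E A
  cov : ∀ e ∈ D, e ∈ Qd d → ∃ r ∈ P, T d p r ∧ e ∈ r

/-- the geometry; `n` is the number of lines on a point -/
structure Ge (n : ℕ) (D : Set G) (Qd : G → Subgroup G) (P : Set (Subgroup G))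
    (T : G → Subgroup G → Subgroup G → Prop) : Prop where
  Dc : ∀ d ∈ D, ∀ g, g * d * g⁻¹ ∈ D
  Pc : ∀ p ∈ P, ∀ g, cj g p ∈ P
  Qc : ∀ g d, d ∈ D → Qd (g * d * g⁻¹) = cj g (Qd d)
  Tc : ∀ g d p q, T d p q → T (g * d * g⁻¹) (cj g p) (cj g q)
  Tm : ∀ d p q, T d p q → d ∈ p ∧ d ∈ q
  Tr : ∀ d p, d ∈ p → T d p p
  Ts : ∀ d p q, T d p q → T d q p
  Tt : ∀ d ∈ D, ∀ p ∈ P, ∀ q ∈ P, ∀ r ∈ P, T d p q → T d q r → T d p r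
  ne1 : 1 ∉ D
  sq : ∀ p ∈ P, ∀ x ∈ p, x * x = 1
  self : ∀ d ∈ D, d ∈ Qd d
  symm : ∀ d ∈ D, ∀ e ∈ D, e ∈ Qd d → d ∈ Qd e
  on : ∀ d ∈ D, ∃ p ∈ P, d ∈ p
  loc : ∀ d ∈ D, ∀ p ∈ P, d ∈ p → Lc D Qd P T d p
  pos : 0 < n
  cD : ∀ p ∈ P, (D ∩ p).ncard = n
  cP : ∀ p ∈ P, Nat.card p = 64

/-- collinearity -/
def col (D : Set G) (T : G → Subgroup G → Subgroup G → Prop) (p q : Subgroup G) : Prop := ∃ d ∈ D, T d p q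

/-- connectedness -/
def Reach (D : Set G) (P : Set (Subgroup G)) (T : G → Subgroup G → Subgroup G → Prop) :
    Subgroup G → Subgroup G → Prop :=
  Relation.ReflTransGen fun p q => q ∈ P ∧ col D T p q

theorem eqns_ged : True := by
  have := @col.eq_1.{0}
  have := @Reach.eq_1.{0}
  trivial

end H9.X9
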