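import Cfsg.Agent.Lib.X9.GeD

/-! Transport of the local axioms of the typed geometry along conjugation. -/

set_option autoImplicit false

namespace H9.X9.GeO

open Subgroup H68
open H80.O8 (Pf)

variable {G : Type*} [Group G]

/-- same type at `d` -/
def TT (d : G) (p q : Subgroup G) : Prop := d ∈ p ∧ d ∈ q ∧ (p = q ∨ ∀ x ∈ p, x ∈ q → x = 1 ∨ x = d)

/-- the points that meet `E` in a proper subgroup with more than two elements -/
def AA (P : Set (Subgroup G)) (E : Subgroup G) : Set (Subgroup G) :=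
  {r | r ∈ P ∧ (∃ x ∈ E, x ∉ r) ∧ ∃ x ∈ E, ∃ y ∈ E, x ∈ r ∧ y ∈ r ∧ x ≠ 1 ∧ y ≠ 1 ∧ x ≠ y}

/-- the plane axioms at one element -/
def PlX (D : Set G) (P : Set (Subgroup G)) (E : Subgroup G) (A : Set (Subgroup G)) (x : G) : Prop :=
  x ∈ D ∧ (∀ r ∈ A, x ∈ r → ∀ r' ∈ P, (TT x r r' ↔ r' ∈ A ∧ x ∈ r')) ∧ (∀ r ∈ A, x ∈ r → Pf E x r) ∧
    ∀ y ∈ E, ∃ r ∈ A, x ∈ r ∧ y ∈ r

theorem eqns_geo1 : True := by
  have := @TT.eq_1.{0}
  have := @AA.eq_1.{0}
  have := @PlX.eq_1.{0}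
  trivial

variable {D : Set G} {P A : Set (Subgroup G)} {Qd : G → Subgroup G} {d x y g : G} {p q r E : Subgroup G}

theorem s1 (g : G) : Function.Surjective fun x : G => g * x * g⁻¹ := fun x => ⟨g⁻¹ * x * g, by group⟩
theorem s2 (g : G) : Function.Surjective (cj g : Subgroup G → Subgroup G) := fun p => ⟨_, cj_cj_inv g p⟩
theorem e1 : g * x * g⁻¹ = g * y * g⁻¹ ↔ x = y := by simp
theorem e2 : cj g p = cj g q ↔ p = q := (cj_injective g).eq_iff
theorem e3 : g * x * g⁻¹ = 1 ↔ x = 1 := by simp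
theorem e4 : g * x * g⁻¹ * (g * y * g⁻¹) = g * (x * y) * g⁻¹ := by group
theorem e5 : cj (g * x * g⁻¹) (cj g p) = cj g (cj x p) := by rw [← cj_mul, ← cj_mul, inv_mul_cancel_right]
theorem e6 : cj g r ∈ cj g '' A ↔ r ∈ A := (cj_injective g).mem_set_image

theorem TT_cj : TT (g * d * g⁻¹) (cj g p) (cj g q) ↔ TT d p q := by
  simp only [TT, (s1 g).forall (p := fun x => x ∈ cj g p → _), conj_mem_cj, e1, e2, e3]

theorem Pf_cj : Pf (cj g E) (g * x * g⁻¹) (cj g r) ↔ Pf E x r := by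
  simp only [Pf, (s1 g).forall (p := fun x => x ∈ cj g E → _), (s1 g).exists (p := fun x => x ∈ cj g E ∧ _),
    e4, conj_mem_cj, Ne, e1, e3]

theorem pn_of (hA : A ⊆ P) (h : ∀ x ∈ E, x ≠ 1 → PlX D P E A x) : Pn D P TT E A :=
  ⟨hA, fun x a b => (h x a b).1, fun x a b => (h x a b).2.1, fun x a b => (h x a b).2.2.1,
    fun x a b => (h x a b).2.2.2⟩

theorem iffP (Pc : ∀ p ∈ P, ∀ g, cj g p ∈ P) (g : G) (p : Subgroup G) : cj g p ∈ P ↔ p ∈ P :=
  ⟨fun h => cj_inv_cj g p ▸ Pc _ h g⁻¹, fun h => Pc p h g⟩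

theorem iffD (Dc : ∀ d ∈ D, ∀ g, g * d * g⁻¹ ∈ D) (g d : G) : g * d * g⁻¹ ∈ D ↔ d ∈ D :=
  ⟨fun h => by simpa [mul_assoc] using Dc _ h g⁻¹, fun h => Dc d h g⟩

section
variable {D' : Set G} {P' : Set (Subgroup G)} (hP : ∀ p, cj g p ∈ P' ↔ p ∈ P)
include hP

theorem AA_cj : cj g '' AA P E = AA P' (cj g E) := by
  refine Set.ext ((s2 g).forall.2 fun r => ?_)
  rw [e6]
  simp only [AA, Set.mem_ofPred_eq, (s1 g).exists (p := fun x => x ∈ cj g E ∧ _), conj_mem_cj, Ne, e1, e3, hP]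

variable (hD : ∀ d, g * d * g⁻¹ ∈ D' ↔ d ∈ D)
include hD

theorem PlX.cj (h : PlX D P E A x) : PlX D' P' (cj g E) (cj g '' A) (g * x * g⁻¹) := by
  simpa only [PlX, (s1 g).forall (p := fun x => x ∈ H68.cj g E → _), (s2 g).forall (p := fun r => r ∈ P' → _),
    (s2 g).forall (p := fun r => r ∈ H68.cj g '' A → _), (s2 g).exists (p := fun r => r ∈ H68.cj g '' A ∧ _),
    e6, conj_mem_cj, TT_cj, Pf_cj, hP, hD] using h

theorem pn_cj (h : Pn D P TT E A) : Pn D' P' TT (cj g E) (cj g '' A) :=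
  pn_of (by rintro _ ⟨r, hr, rfl⟩; exact (hP r).2 (h.sub hr)) ((s1 g).forall.2 fun x hx h1 =>
    have a := conj_mem_cj.1 hx
    have b := e3.not.1 h1
    PlX.cj hP hD ⟨h.mem x a b, h.ty x a b, h.pf x a b, h.join x a b⟩)

theorem lc_cj (h : Lc D Qd P TT d p) (Qc : Qd (g * d * g⁻¹) = cj g (Qd d)) :
    Lc D' Qd P' TT (g * d * g⁻¹) (cj g p) := by
  refine ⟨?_, ?_, ?_, ?_, ?_, ?_, ?_, ?_, ?_, ?_, ?_, ?_⟩
  · simpa only [(s2 g).forall (p := fun r => r ∈ P' → _), (s2 g).exists (p := fun r => r ∈ P' ∧ _), hP, TT_cj,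
      Ne, e2] using h.three
  · simpa only [(s2 g).forall (p := fun r => r ∈ P' → _), (s1 g).forall (p := fun x => x ∈ cj g p → _), hP,
      TT_cj, Ne, e1, e2, e3, conj_mem_cj] using h.meet
  · simpa only [Qc, (s1 g).forall (p := fun x => x ∈ cj g (Qd d) → _), conj_mem_cj, e5, e2] using h.fix
  · simpa only [Qc, (s2 g).forall (p := fun r => r ∈ P' → _), (s1 g).forall (p := fun x => x ∈ cj g p → _), hP,
      TT_cj, Ne, e5, e2, conj_mem_cj] using h.swap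
  · simpa only [Qc, (s1 g).forall (p := fun x => x ∈ cj g p → _), e4, conj_mem_cj] using h.half
  · simpa only [Qc, (s1 g).forall (p := fun x => x ∈ D' → _), e4, conj_mem_cj, hD, Ne, e1] using h.inQ
  · simpa only [Qc, (s1 g).forall (p := fun x => x ∈ cj g p → _), e4, conj_mem_cj, hD] using h.outQ
  · simpa only [Qc, (s1 g).exists (p := fun x => x ∈ D' ∧ _), conj_mem_cj, hD, Ne, e1] using h.perp
  · simpa only [Qc, (s1 g).exists (p := fun x => x ∈ D' ∧ _), conj_mem_cj, hD] using h.out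
  · simpa only [Qc, (s1 g).forall (p := fun x => x ∈ cj g p → _), (s1 g).exists (p := fun x => x ∈ D' ∧ _), e4,
      conj_mem_cj, hD, Ne, e3] using h.six
  · refine (s1 g).forall.2 fun e a b c n => ?_
    rw [Qc] at c
    obtain ⟨E, A, h1, h2, h3, h4⟩ := h.plane e ((hD e).1 a) (conj_mem_cj.1 b) (conj_mem_cj.1 c) (e1.not.1 n)
    exact ⟨_, _, conj_mem_cj.2 h1, conj_mem_cj.2 h2, e6.2 h3, pn_cj hP hD h4⟩
  · simpa only [Qc, (s1 g).forall (p := fun x => x ∈ D' → _), (s2 g).exists (p := fun r => r ∈ P' ∧ _),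
      conj_mem_cj, hD, hP, TT_cj] using h.cov

omit hP in
theorem ncard_cj : (D' ∩ cj g p).ncard = (D ∩ p).ncard := by
  rw [← Set.ncard_image_of_injective (D ∩ p) (f := fun x => g * x * g⁻¹) fun _ _ => e1.1]
  congr 1
  refine Set.ext ((s1 g).forall.2 fun x => ?_)
  rw [Function.Injective.mem_set_image (f := fun x => g * x * g⁻¹) fun _ _ => e1.1]
  exact and_congr (hD x) conj_mem_cj

end

end H9.X9.GeO
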