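import Cfsg.Agent.Lib.X9.Stab
import Cfsg.Agent.Lib.X9.GeO1
import Cfsg.Agent.Lib.X9.GeO2

/-! The points of the geometry in the systems `0` and `6`. -/

set_option autoImplicit false
set_option linter.unusedSectionVars false
set_option maxHeartbeats 400000

namespace H9.X9.GeO

open H95 H4.LX Subgroup H9.WC H75.DW Cfsg
open H39.MS (lm)
open H68 (mem_cj conj_mem_cj cj_one cj_mul cj_inv_cj cj_cj_inv cj_eq_of_mem_normalizer)

universe u

variable {G : Type u} [Group G]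

/-- the preimage of a solid -/
def UU (Q : Subgroup G) (c : G → ℕ) (i j : ℕ) : Set G := {u | u ∈ Q ∧ Nv i j (c u)}
/-- the points through `z` -/
def YY (Q : Subgroup G) (c : G → ℕ) (i j : ℕ) : Subgroup G := centralizer (UU Q c i j)
/-- the points -/
def PP (Q : Subgroup G) (c : G → ℕ) (i : ℕ) : Set (Subgroup G) := {p | ∃ g, p = H68.cj g (YY Q c i 0)}
/-- the numbers of the points through `z` -/
def Pz (z : G) (Q : Subgroup G) (c : G → ℕ) (i j : ℕ) : Prop := j < ns i ∧ ∃ g M, Act z Q c g M ∧ It i M 0 j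

theorem eqns_geo3 : True := by
  have := @UU.eq_1.{0}
  have := @YY.eq_1.{0}
  have := @PP.eq_1.{0}
  have := @Pz.eq_1.{0}
  trivial

/-- the systems `0` and `6` -/
structure Fm (i : ℕ) (z : G) (Q : Subgroup G) (c : G → ℕ) : Prop extends Std i z Q c where
  hi : i ∈ [0, 6]

/-- the swap element -/
structure Fx (i : ℕ) (z : G) (Q : Subgroup G) (c : G → ℕ) (s m f y : G) : Prop extends Fm i z Q c where
  N : Nr Q z s
  cs : c s = 1
  mz : m * z * m⁻¹ = s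
  ms : m * s * m⁻¹ = z
  mX : m ∈ Q ⊔ Qof Q z s
  fQ : f ∈ Q
  cf : c f = ef i
  mf : m * f * m⁻¹ = y
  my : m * y * m⁻¹ = f
  Ly : Act z Q c y (sp i 0)

variable {z s g m f y a v e u d : G} {Q p : Subgroup G} {c : G → ℕ} {i j l M w t : ℕ}

theorem conj_conj (a b c : G) : a * (b * c * b⁻¹) * a⁻¹ = a * b * c * (a * b)⁻¹ := by group

theorem Nv.xor (h : Nv i j w) (k : Nv i j t) : Nv i j (w ^^^ t) := by
  rw [Nv, lm_xor, h, k]

theorem nv_zero : Nv i j 0 := lm_zero _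

theorem It.nv (k : It i M j l) (h : Iso M) (hw : w < 256) : Nv i l (lm M w) ↔ Nv i j w := by
  rw [Nv, ← lm_mm _ _ hw, ← k, lm_mm _ _ hw]
  exact ⟨h.inj (lm_lt _ _) hw, fun e => congrArg _ e⟩

theorem It.cj (k : It i M j l) (h : Iso M) (hl : sp i l < 2 ^ 64) : X9.cj M (sp i j) = sp i l := by
  rw [X9.cj, ← mm_assoc, k, mm_assoc, h.mm_iv, mm_I8 hl]

theorem It.mul {N n : ℕ} (h : It i M l n) (k : It i N j l) : It i (mm M N) j n := by
  rw [It, mm_assoc, k, ← mm_assoc, h, mm_assoc]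

theorem PP_cj (p : Subgroup G) (h : p ∈ PP Q c i) (g : G) : H68.cj g p ∈ PP Q c i :=
  let ⟨k, e⟩ := h; ⟨g * k, by rw [e, cj_mul]⟩

theorem Y0_mem : YY Q c i 0 ∈ PP Q c i := ⟨1, (cj_one _).symm⟩

theorem DD_cj (d : G) (h : d ∈ {d | IsConj z d}) (g : G) : g * d * g⁻¹ ∈ {d | IsConj z d} :=
  IsConj.trans h (isConj_iff.2 ⟨g, rfl⟩)

theorem DD_iff : IsConj z (g * d * g⁻¹) ↔ IsConj z d := iffD (D := {d | IsConj z d}) DD_cj g d

theorem mem_YY : v ∈ YY Q c i j ↔ ∀ u ∈ Q, Nv i j (c u) → u * v = v * u :=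
  ⟨fun h u a b => h u ⟨a, b⟩, fun h u k => h u k.1 k.2⟩

variable [Finite G]

namespace Fm

variable (F : Fm i z Q c)
include F

theorem h8 : i ∈ [0, 1, 2, 5, 6, 7, 8, 9] := by have := F.hi; revert this; simp; omega
theorem h4 : i ∈ [0, 1, 6, 8] := by have := F.hi; revert this; simp; omega
theorem h10 : i < 10 := by have := F.hi; revert this; simp; omega
theorem n4 : i ≠ 4 := by have := F.hi; revert this; simp; omega
theorem ns3 (h : j < 3) : j < ns i := h.trans_le (t_ns i F.hi).1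
theorem ns0 : 0 < ns i := F.ns3 (by norm_num)

theorem perm (h : HM z Q c M) : ∀ j < ns i, ∃ l < ns i, It i M j l :=
  F.toStd.ind F.h8 (fun M => ∀ j < ns i, ∃ l < ns i, It i M j l)
    (fun v hv k hk _ _ h j hj =>
      let ⟨l, hl, a⟩ := h j hj
      let ⟨n, hn, b⟩ := t_p1 i F.hi v hv.1 hv k hk l hl
      ⟨n, hn, b.mul a⟩)
    (fun t ht _ => t_p2 i F.hi t ht) h

theorem act_re {v k : ℕ} (hv : InX i v) (hk : k < 8) : ∃ g, Act z Q c g (re i v k) :=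
  (F.toStd.sub.rm hv hk).hm

theorem VQ (hj : j < ns i) (hv : v ∈ Q) : v ∈ YY Q c i j ↔ Nv i j (c v) := by
  rw [mem_YY]
  refine ⟨fun k => t_perp i F.hi j hj _ (F.lt _) fun t ht n => ?_, fun k u hu n => (F.comm hu hv).2 ?_⟩
  · obtain ⟨u, hu, rfl⟩ := F.surj t ht
    exact (F.comm hu hv).1 (k u hu n)
  · rw [b0_def, t_q i F.hi j hj _ (xor_lt (F.lt _) (F.lt _)) (n.xor k), t_q i F.hi j hj _ (F.lt _) n,
      t_q i F.hi j hj _ (F.lt _) k]
    rfl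

theorem zQ : z ∈ Q := F.toCo.h.mem

theorem zV (hj : j < ns i) : z ∈ YY Q c i j := (F.VQ hj F.zQ).2 (by rw [F.c_z]; exact nv_zero)

theorem Vz (h : v ∈ YY Q c i j) : v * z = z * v := (mem_YY.1 h z F.zQ (by rw [F.c_z]; exact nv_zero)).symm

theorem cj_Y (h : Act z Q c g M) (k : It i M j l) : H68.cj g (YY Q c i j) = YY Q c i l := by
  refine SetLike.ext ((s1 g).forall.2 fun v => ?_)
  rw [conj_mem_cj, mem_YY, mem_YY]
  refine ⟨fun a => (s1 g).forall.2 fun u hu n => ?_, fun a u hu n => ?_⟩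
  · have hu' : u ∈ Q := by simpa [mul_assoc] using F.nrm (F.act_inv h).cz hu
    rw [h.app hu', k.nv (F.iso h) (F.lt _)] at n
    rw [e4, e4, a u hu' n]
  · have := a _ (F.nrm h.cz hu) (by rwa [h.app hu, k.nv (F.iso h) (F.lt _)])
    rwa [e4, e4, e1] at this

theorem fixQ (h : u ∈ Q) : H68.cj u (YY Q c i 0) = YY Q c i 0 :=
  F.cj_Y (F.act_Q h) (t_ef i F.hi).2.2.2.2.2.2.2.2.2

theorem Y_inj (hj : j < ns i) (hl : l < ns i) (e : YY Q c i j = YY Q c i l) : j = l := by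
  by_contra n
  obtain ⟨w, hw, a, b⟩ := (t_ty i F.hi j hj l hl).1 n
  obtain ⟨u, hu, rfl⟩ := F.surj w hw
  exact b ((F.VQ hl hu).1 (e ▸ (F.VQ hj hu).2 a))

theorem VL0 (h : v ∈ YY Q c i 0) : v ∈ Q ∨ Act z Q c v (sp i 0) := by
  obtain ⟨M, k⟩ := F.exists_act (F.Vz h)
  have key : ∀ w < 256, Nv i 0 w → lm M w = w := fun w hw n => by
    obtain ⟨u, hu, rfl⟩ := F.surj w hw
    rw [← k.app hu, ← mem_YY.1 h u hu n, mul_inv_cancel_right]
  obtain ⟨n, hn, t, ht, -, e⟩ := F.toStd.fix1 F.h8 F.h4 ⟨v, k⟩ (key 1 (by norm_num) (t_ef i F.hi).2.1)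
  rw [e] at key k
  rcases t_triv i F.hi n hn t ht key with e | e <;> rw [e] at k
  exacts [.inl (F.mem_Q k), .inr k]

theorem Pz_mem (h : Pz z Q c i j) : YY Q c i j ∈ PP Q c i :=
  let ⟨_, g, _, a, b⟩ := h; ⟨g, (F.cj_Y a b).symm⟩

theorem Pz3 (h : j < 3) : Pz z Q c i j := by
  refine ⟨F.ns3 h, ?_⟩
  obtain ⟨-, -, -, -, -, -, -, h2, h3, h0⟩ := t_ef i F.hi
  obtain ⟨a, ha⟩ := F.act_re h2 (show 1 < 8 by norm_num)
  obtain ⟨b, hb⟩ := F.act_re h3 (show 1 < 8 by norm_num)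
  interval_cases j
  exacts [⟨1, _, F.act_Q (one_mem _), h0⟩, ⟨a, _, ha, (t_12 i F.hi).1⟩, ⟨b, _, hb, (t_12 i F.hi).2.1⟩]

theorem VL (hj : Pz z Q c i j) (h : v ∈ YY Q c i j) : v ∈ Q ∨ Act z Q c v (sp i j) := by
  obtain ⟨hj, g, M, a, b⟩ := hj
  obtain ⟨v, rfl⟩ := s1 g v
  rw [← F.cj_Y a b, conj_mem_cj] at h
  refine (F.VL0 h).imp (F.nrm a.cz) fun k => ?_
  rw [← b.cj (F.iso a) (t_sq i F.hi j hj).1]
  exact F.act_cj a k

theorem notQ (hj : j < ns i) (h : Act z Q c v (sp i j)) : v ∉ Q := fun k =>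
  (t_sq i F.hi j hj).2.2.1 (F.uniq h (F.act_Q k))

theorem meet (hj : Pz z Q c i j) (hl : Pz z Q c i l) (e : j / 3 = l / 3) (n : j ≠ l) (h : v ∈ YY Q c i j)
    (k : v ∈ YY Q c i l) : v = 1 ∨ v = z := by
  have hv : v ∈ Q := (F.VL hj h).elim id fun a => (F.VL hl k).elim id fun b =>
    absurd ((t_sq i F.hi j hj.1).2.2.2 l hl.1 (F.uniq a b)) n
  exact (F.zero hv).1 ((t_ty i F.hi j hj.1 l hl.1).2.1 e n _ (F.lt _) ((F.VQ hj.1 hv).1 h) ((F.VQ hl.1 hv).1 k))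

theorem tt (hj : Pz z Q c i j) (hl : Pz z Q c i l) : TT z (YY Q c i j) (YY Q c i l) ↔ j / 3 = l / 3 := by
  refine ⟨fun ⟨_, _, h⟩ => ?_, fun e => ⟨F.zV hj.1, F.zV hl.1, ?_⟩⟩
  · rcases h with h | h
    · rw [F.Y_inj hj.1 hl.1 h]
    by_contra n
    obtain ⟨w, hw, w0, a, b⟩ := (t_ty i F.hi j hj.1 l hl.1).2.2 n
    obtain ⟨u, hu, rfl⟩ := F.surj w hw
    exact w0 ((F.zero hu).2 (h u ((F.VQ hj.1 hu).2 a) ((F.VQ hl.1 hu).2 b)))
  · by_cases n : j = l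
    · exact .inl (by rw [n])
    · exact .inr fun _ => F.meet hj hl e n

theorem L1 (h : a ∈ Q) : IsConj z a ↔ a = z ∨ InX i (c a) := by
  refine ⟨fun k => or_iff_not_imp_left.2 fun n => F.X' F.n4 _ ⟨a, F.nr k h n, rfl⟩, ?_⟩
  rintro (rfl | k)
  exacts [IsConj.refl _, ((F.xs_iff h).1 (F.X _ k)).cj]

theorem L2 (N : Nr Q z s) (cs : c s = 1) (h : e ∈ Q) : e ∈ Qof Q z s ↔ c e < 16 := by
  rw [← F.es_iff N h, cs, F.E 1 (inX_one i F.h10).1, inE_one i F.h10 _ (F.lt _)]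

theorem X0 (h : InX i w) : w ≠ 0 := F.xs_ne (F.X _ h)

theorem exists_fx : ∃ s m f y, Fx i z Q c s m f y := by
  obtain ⟨s, N, cs⟩ := F.X 1 (inX_one i F.h10).1
  obtain ⟨m, -, mX, mz, ms, mm, h⟩ := F.swap2 N (a := 16) (by norm_num) (by rw [cs]; decide +kernel)
  obtain ⟨f, fQ, cf⟩ := F.surj _ (t_ef i F.hi).1
  have fs : f * s = s * f := (F.comm fQ N.sQ).2 (by rw [cf, cs]; exact (t_ef i F.hi).2.2.2.2.2.2.1)
  obtain ⟨h1, M, h2, h3⟩ := h f fQ fs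
  obtain ⟨k, hk, rfl⟩ := (F.R 1 (inX_one i F.h10).1 M).1 ⟨s, N, cs, _, h1, h2⟩
  rw [cs, cf, F.E 1 (inX_one i F.h10).1] at h3
  rw [t_a0 i F.hi k hk ((inE_one i F.h10 _ h3.1).1 h3)] at h2
  refine ⟨s, m, f, _, F, N, cs, mz, ms, mX, fQ, cf, rfl, ?_, h2⟩
  rw [conj_conj, mul_inv_eq_iff_eq_mul]
  rcases mm with e | e <;> rw [e]
  · rw [one_mul, mul_one]
  · rw [mul_assoc, ← F.toCo.h.central f fQ, ← mul_assoc, ← fs, mul_assoc]

theorem ncard_pre (p : ℕ → Prop) [DecidablePred p] :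
    {a | a ∈ Q ∧ p (c a)}.ncard = 2 * ((Finset.range 256).filter p).card := by
  classical
  have hA := Set.toFinite {a | a ∈ Q ∧ p (c a)}
  rw [Set.ncard_eq_toFinset_card _ hA, Finset.card_eq_sum_card_fiberwise (f := c)
    (t := (Finset.range 256).filter p) (fun x hx => by
      simpa using ⟨F.lt x, (show x ∈ Q ∧ p (c x) by simpa using hx).2⟩), mul_comm, ← smul_eq_mul, ← Finset.sum_const]
  refine Finset.sum_congr rfl fun b hb => ?_
  obtain ⟨hb1, hb2⟩ := Finset.mem_filter.1 hb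
  obtain ⟨x, hx, rfl⟩ := F.surj b (Finset.mem_range.1 hb1)
  rw [← Finset.card_pair (a := x) (b := x * z) fun e => F.toCo.h.ne_one (left_eq_mul.1 e)]
  congr 1
  ext y
  simp only [Finset.mem_filter, Set.Finite.mem_toFinset, Set.mem_ofPred_eq, Finset.mem_insert, Finset.mem_singleton]
  refine ⟨fun h => (F.c_eq hx h.1.1).1 h.2.symm, ?_⟩
  rintro (rfl | rfl)
  · exact ⟨⟨hx, hb2⟩, rfl⟩
  · exact ⟨⟨mul_mem hx F.zQ, by rwa [F.c_mulz hx]⟩, F.c_mulz hx⟩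

end Fm

end H9.X9.GeO
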