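import Cfsg.Agent.Lib.X9.Stab
import Cfsg.Agent.Lib.X9.GeD
import Cfsg.Agent.Lib.X9.GeO3

/-! The typed geometry of the systems `0` and `6`. -/

set_option autoImplicit false
set_option linter.unusedSectionVars false
set_option maxHeartbeats 400000

namespace H9.X9

open H95 H4.LX Subgroup H9.WC H75.DW Cfsg
open H39.MS (lm)

universe u

namespace GeO

open H68 (mem_cj conj_mem_cj cj_one cj_mul cj_inv_cj cj_cj_inv cj_eq_of_mem_normalizer card_cj)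
open H80.O8 (mem_cj_of_comm)

namespace Fx

variable {G : Type u} [Group G] [Finite G] {z s g m f y a v e u d : G} {Q p : Subgroup G} {c : G → ℕ}
  {i j l M w t : ℕ} (F : Fx i z Q c s m f y)
include F

theorem L : L3 Q z := F.toCo.h

theorem fD : IsConj z f := (F.L1 F.fQ).2 (.inr (F.cf ▸ (t_ef i F.hi).2.2.2.1))

theorem yD : IsConj z y := F.mf ▸ DD_iff.2 F.fD

theorem yy : y * y = 1 := (L3_Qof F.L F.yD).sq

theorem fN : Nv i 0 (c f) := F.cf ▸ (t_ef i F.hi).2.2.1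

theorem sN : Nv i 0 (c s) := F.cs ▸ (t_ef i F.hi).2.1

theorem fV : f ∈ YY Q c i 0 := (F.VQ F.ns0 F.fQ).2 F.fN

theorem sV : s ∈ YY Q c i 0 := (F.VQ F.ns0 F.N.sQ).2 F.sN

theorem yQ : y ∉ Q := F.notQ F.ns0 F.Ly

theorem cnjX (hg : g ∈ Q ⊔ Qof Q z s) (h : e ∈ Q) (k : c e < 16) :
    g * e * g⁻¹ ∈ Q ∧ (c (g * e * g⁻¹) = c e ∨ c (g * e * g⁻¹) = 1 ^^^ c e) := by
  have p := F.N.p
  rw [← inv_mul_cancel_right (g * e * g⁻¹) e]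
  rcases p.mem_V.1 (p.commutator_X_E hg ⟨h, (F.L2 F.N F.cs h).2 k⟩) with t | t | t | t <;> rw [t]
  · exact ⟨by rwa [one_mul], .inl (by rw [one_mul])⟩
  · exact ⟨mul_mem F.zQ h, .inl (by rw [F.mul F.zQ h, F.c_z, Nat.zero_xor])⟩
  · exact ⟨mul_mem F.N.sQ h, .inr (by rw [F.mul F.N.sQ h, F.cs])⟩
  · exact ⟨mul_mem (mul_mem F.zQ F.N.sQ) h, .inr (by
      rw [F.mul (mul_mem F.zQ F.N.sQ) h, F.mul F.zQ F.N.sQ, F.c_z, Nat.zero_xor, F.cs])⟩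

theorem cnjV (hg : g ∈ Q ⊔ Qof Q z s) (h : e ∈ Q) (k : c e < 16) (n : Nv i 0 (c e)) :
    g * e * g⁻¹ ∈ Q ∧ Nv i 0 (c (g * e * g⁻¹)) := by
  obtain ⟨a, b | b⟩ := F.cnjX hg h k <;> refine ⟨a, ?_⟩ <;> rw [b]
  exacts [n, (t_ef i F.hi).2.1.xor n]

theorem yf : f * y = y * f := by
  rcases (F.fix_iff F.Ly F.fQ).1 F.fN with t | t
  · exact (mul_inv_eq_iff_eq_mul.1 t).symm
  have t' : m * (y * f * y⁻¹) * m⁻¹ = m * (f * z) * m⁻¹ := by rw [t]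
  rw [← e4, ← e4, ← e4, ← conj_inv, F.mf, F.my, F.mz] at t'
  rw [mul_inv_eq_iff_eq_mul] at t t'
  rw [mul_assoc, ← F.Ly.cz, ← mul_assoc, t', mul_assoc, mul_assoc, mul_right_inj, F.L.central f F.fQ,
    ← mul_assoc, right_eq_mul, ← eq_inv_iff_mul_eq_one, F.L.inv_eq] at t
  exact absurd t F.N.ne

theorem yV : y ∈ YY Q c i 0 := by
  have h : ∀ u ∈ Q, Nv i 0 (c u) → c u < 16 → u * y = y * u := fun u h e k => by
    obtain ⟨a, b⟩ := F.cnjV (inv_mem F.mX) h k e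
    have := mem_YY.1 F.fV _ a b
    rw [← F.mf, ← e1 (g := m⁻¹)]
    simpa [mul_assoc] using this
  refine mem_YY.2 fun u k e => (t_E i F.hi _ (F.lt u) e).elim (h u k e) fun t => ?_
  have := h _ (mul_mem k F.fQ) (by rw [F.mul k F.fQ]; exact e.xor F.fN) (by rwa [F.mul k F.fQ, F.cf])
  rwa [mul_assoc, F.yf, ← mul_assoc, ← mul_assoc, mul_left_inj] at this

theorem QQ (h : Act z Q c a (sp i 0)) (k : Act z Q c v (sp i 0)) : a * v ∈ Q := by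
  have := F.act_mul h k
  rw [(t_sq i F.hi 0 F.ns0).2.1] at this
  exact F.mem_Q this

theorem Vy (h : v ∈ YY Q c i 0) (n : v ∉ Q) : v * y ∈ Q ∧ Nv i 0 (c (v * y)) :=
  have k := F.QQ ((F.VL0 h).resolve_left n) F.Ly
  ⟨k, (F.VQ F.ns0 k).1 (mul_mem h F.yV)⟩

theorem Vsq (h : v ∈ YY Q c i 0) : v * v = 1 := by
  by_cases n : v ∈ Q
  · exact (F.sq n).2 (t_q i F.hi 0 F.ns0 _ (F.lt _) ((F.VQ F.ns0 n).1 h))
  obtain ⟨k, e⟩ := F.Vy h n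
  have := (F.sq k).2 (t_q i F.hi 0 F.ns0 _ (F.lt _) e)
  have t := mem_YY.1 F.yV _ k e
  rw [mul_assoc, F.yy, mul_one] at t
  rwa [mul_assoc, ← t] at this

theorem mV : H68.cj m (YY Q c i 0) = YY Q c i 0 := by
  have h : ∀ u ∈ Q, Nv i 0 (c u) → c u < 16 → m * u * m⁻¹ ∈ YY Q c i 0 := fun u h e k =>
    let ⟨a, b⟩ := F.cnjV F.mX h k e; (F.VQ F.ns0 a).2 b
  have h' : ∀ u ∈ Q, Nv i 0 (c u) → m * u * m⁻¹ ∈ YY Q c i 0 := fun u k e =>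
    (t_E i F.hi _ (F.lt u) e).elim (h u k e) fun t => by
      have := h _ (mul_mem k F.fQ) (by rw [F.mul k F.fQ]; exact e.xor F.fN) (by rwa [F.mul k F.fQ, F.cf])
      rwa [← e4, F.mf, mul_mem_cancel_right F.yV] at this
  refine cj_eq_of_mem_normalizer (mem_normalizer_of_finite fun v hv => ?_)
  by_cases n : v ∈ Q
  · exact h' v n ((F.VQ F.ns0 n).1 hv)
  obtain ⟨k, e⟩ := F.Vy hv n
  have := h' _ k e
  rwa [← e4, F.my, mul_mem_cancel_right F.fV] at this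

theorem fsD : ¬IsConj z (f * s) := fun h => by
  have k := F.mul F.fQ F.N.sQ
  rw [F.cf, F.cs] at k
  rcases (F.L1 (mul_mem F.fQ F.N.sQ)).1 h with e | e
  · exact (t_ef i F.hi).2.2.2.2.2.1 (by rw [← k, e, F.c_z])
  · exact (t_ef i F.hi).2.2.2.2.1 (k ▸ e)

theorem yzD : ¬IsConj z (y * z) := by
  have : y * z = m * (f * s) * m⁻¹ := by rw [← e4, F.mf, F.ms]
  rw [this, DD_iff]
  exact F.fsD

theorem Vout (h : v ∈ YY Q c i 0) (n : v ∉ Q) : ∃ u ∈ Q, v = u * y * u⁻¹ ∨ v = u * (y * z) * u⁻¹ :=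
  F.inv_conj F.Ly ((F.VL0 h).resolve_left n) F.yy (F.Vsq h) (t_img i F.hi)

theorem mov (h : IsConj z d) (k : d ∈ YY Q c i 0) (n : d ∈ Q) (ne : d ≠ z) :
    ∃ a, a * z = z * a ∧ H68.cj a (YY Q c i 0) = YY Q c i 0 ∧ a * s * a⁻¹ = d := by
  have x := ((F.L1 n).1 h).resolve_left ne
  obtain ⟨v, -, hv, k, hk, e, t⟩ := t_flag i F.hi _ (F.lt d) x ((F.VQ F.ns0 n).1 k)
  obtain ⟨g, hg⟩ := F.act_re hv hk
  obtain ⟨a, h1, h2⟩ := F.lift hg F.N.sQ n (F.X0 x) (by rw [F.cs, e])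
  exact ⟨a, h1.cz, F.cj_Y h1 t, h2⟩

theorem flag (h : IsConj z d) (k : d ∈ YY Q c i 0) :
    ∃ n, H68.cj n (YY Q c i 0) = YY Q c i 0 ∧ d = n * z * n⁻¹ := by
  have t : ∀ d, IsConj z d → d ∈ YY Q c i 0 → d ∈ Q →
      ∃ n, H68.cj n (YY Q c i 0) = YY Q c i 0 ∧ d = n * z * n⁻¹ := fun d h k n => by
    by_cases ne : d = z
    · exact ⟨1, cj_one _, by rw [ne]; group⟩
    obtain ⟨a, -, e, rfl⟩ := F.mov h k n ne
    exact ⟨a * m, by rw [cj_mul, F.mV, e], by rw [← F.mz, conj_conj]⟩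
  by_cases n : d ∈ Q
  · exact t d h k n
  obtain ⟨u, hu, rfl | rfl⟩ := F.Vout k n
  · obtain ⟨n, e, e'⟩ := t f F.fD F.fV F.fQ
    exact ⟨u * m * n, by rw [cj_mul, cj_mul, e, F.mV, F.fixQ hu], by rw [← F.mf, e', conj_conj, conj_conj]⟩
  · exact absurd (DD_iff.1 h) F.yzD

theorem flag' (h : IsConj z d) (hp : p ∈ PP Q c i) (k : d ∈ p) :
    ∃ g, p = H68.cj g (YY Q c i 0) ∧ d = g * z * g⁻¹ := by
  obtain ⟨g, rfl⟩ := hp
  obtain ⟨d, rfl⟩ := s1 g d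
  obtain ⟨n, e, e'⟩ := F.flag (DD_iff.1 h) (conj_mem_cj.1 k)
  exact ⟨g * n, by rw [cj_mul, e], by rw [← conj_conj, ← e']⟩

theorem pt (hp : p ∈ PP Q c i) (k : z ∈ p) : ∃ j, Pz z Q c i j ∧ p = YY Q c i j := by
  obtain ⟨g, rfl, e⟩ := F.flag' (IsConj.refl z) hp k
  obtain ⟨M, l⟩ := F.exists_act (eq_mul_inv_iff_mul_eq.1 e).symm
  obtain ⟨j, hj, t⟩ := F.perm ⟨g, l⟩ 0 F.ns0
  exact ⟨j, ⟨hj, g, M, l, t⟩, F.cj_Y l t⟩

theorem pt0 (hp : p ∈ PP Q c i) (k : TT z (YY Q c i 0) p) : ∃ j < 3, p = YY Q c i j := by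
  obtain ⟨j, hj, rfl⟩ := F.pt hp k.2.1
  have := (F.tt (F.Pz3 (by norm_num)) hj).1 k
  exact ⟨j, by omega, rfl⟩

theorem tt0 (h : j < 3) : TT z (YY Q c i 0) (YY Q c i j) :=
  (F.tt (F.Pz3 (by norm_num)) (F.Pz3 h)).2 (by omega)

theorem plane : ∃ E A, z ∈ E ∧ s ∈ E ∧ YY Q c i 0 ∈ A ∧ Pn {d | IsConj z d} (PP Q c i) TT E A := by
  let E : Subgroup G :=
    { carrier := {a | a ∈ Q ∧ c a < 4}
      mul_mem' := fun {a b} h k => ⟨mul_mem h.1 k.1, by rw [F.mul h.1 k.1]; exact xor4 _ h.2 _ k.2⟩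
      one_mem' := ⟨one_mem _, by rw [F.c_one]; norm_num⟩
      inv_mem' := fun {a} h => ⟨inv_mem h.1, by rw [F.c_inv h.1]; exact h.2⟩ }
  have zE : z ∈ E := ⟨F.zQ, by rw [F.c_z]; norm_num⟩
  have sj : ∀ w < 4, ∃ x ∈ E, c x = w := fun w hw =>
    let ⟨x, a, b⟩ := F.surj w (by omega); ⟨x, ⟨a, b ▸ hw⟩, b⟩
  have mA : ∀ j, Pz z Q c i j → (YY Q c i j ∈ AA (PP Q c i) E ↔ j < 3) := fun j hj => by
    rw [(t_L i F.hi).1 j hj.1]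
    refine ⟨fun ⟨_, ⟨x, a, b⟩, v, h1, w, h2, h3, h4, h5, h6, h7⟩ => ⟨?_, _, a.2, mt (F.VQ hj.1 a.1).2 b⟩,
      fun ⟨⟨v, h1, h2, h3⟩, w, h4, h5⟩ => ?_⟩
    · by_cases e : v = z
      · exact ⟨_, h2.2, fun n => ((F.zero h2.1).1 n).elim h6 fun k => h7 (e.trans k.symm), (F.VQ hj.1 h2.1).1 h4⟩
      · exact ⟨_, h1.2, fun n => ((F.zero h1.1).1 n).elim h5 e, (F.VQ hj.1 h1.1).1 h3⟩
    · obtain ⟨v, a, rfl⟩ := sj v h1
      obtain ⟨w, b, rfl⟩ := sj w h4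
      exact ⟨F.Pz_mem hj, ⟨w, b, mt (F.VQ hj.1 b.1).1 h5⟩, z, zE, v, a, F.zV hj.1, (F.VQ hj.1 a.1).2 h3,
        F.L.ne_one, fun e => h2 (by rw [e, F.c_one]), fun e => h2 (by rw [← e, F.c_z])⟩
  have h0 : PlX {d | IsConj z d} (PP Q c i) E (AA (PP Q c i) E) z := by
    refine ⟨IsConj.refl z, fun r hr k r' hr' => ?_, fun r hr k => ?_, fun v h => ?_⟩
    · obtain ⟨j, hj, rfl⟩ := F.pt hr.1 k
      have j3 := (mA j hj).1 hr
      refine ⟨fun t => ?_, fun t => ?_⟩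
      · obtain ⟨l, hl, rfl⟩ := F.pt hr' t.2.1
        have := (F.tt hj hl).1 t
        exact ⟨(mA l hl).2 (by omega), t.2.1⟩
      · obtain ⟨l, hl, rfl⟩ := F.pt hr' t.2
        have := (mA l hl).1 t.1
        exact (F.tt hj hl).2 (by omega)
    · obtain ⟨j, hj, rfl⟩ := F.pt hr.1 k
      have j3 := (mA j hj).1 hr
      obtain ⟨w, h1, h2, h3⟩ := (((t_L i F.hi).1 j hj.1).1 j3).1
      obtain ⟨v, a, rfl⟩ := sj w h1
      refine ⟨⟨v, a, (F.VQ hj.1 a.1).2 h3, fun e => h2 (by rw [e, F.c_one]), fun e => h2 (by rw [e, F.c_z])⟩,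
        fun u h u' h' => ?_⟩
      rw [F.VQ hj.1 h.1, F.VQ hj.1 h'.1, F.VQ hj.1 (mul_mem h.1 h'.1), F.mul h.1 h'.1]
      exact (t_L i F.hi).2.1 j j3 _ h.2 _ h'.2
    · obtain ⟨j, j3, e⟩ := (t_L i F.hi).2.2 _ h.2
      exact ⟨_, (mA j (F.Pz3 j3)).2 j3, F.zV (F.ns3 j3), (F.VQ (F.ns3 j3) h.1).2 e⟩
  have tr : ∀ g x, H68.cj g E = E → PlX {d | IsConj z d} (PP Q c i) E (AA (PP Q c i) E) x →
      PlX {d | IsConj z d} (PP Q c i) E (AA (PP Q c i) E) (g * x * g⁻¹) := fun g x e h => by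
    have := h.cj (iffP PP_cj g) (iffD DD_cj g)
    rwa [AA_cj (iffP PP_cj g), e] at this
  have hm : H68.cj m E = E := cj_eq_of_mem_normalizer (mem_normalizer_of_finite fun v h => by
    obtain ⟨a, b | b⟩ := F.cnjX F.mX h.1 (h.2.trans (by norm_num)) <;> refine ⟨a, ?_⟩ <;> rw [b]
    exacts [h.2, xor4 _ (by norm_num) _ h.2])
  have h1 := F.mz ▸ tr m z hm h0
  have h2 : ∀ g M v, v ∈ E → c v ≠ 0 → Act z Q c g M → lm M 1 = c v → (∀ w < 4, lm M w < 4) →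
      PlX {d | IsConj z d} (PP Q c i) E (AA (PP Q c i) E) v := fun g M v h n k e b => by
    obtain ⟨a, l, rfl⟩ := F.lift k F.N.sQ h.1 n (by rw [F.cs, e])
    exact tr a s (cj_eq_of_mem_normalizer (mem_normalizer_of_finite fun x hx =>
      ⟨F.nrm l.cz hx.1, by rw [l.app hx.1]; exact b _ hx.2⟩)) h1
  refine ⟨E, _, zE, ⟨F.N.sQ, by rw [F.cs]; norm_num⟩, (mA 0 (F.Pz3 (by norm_num))).2 (by norm_num),
    pn_of (fun _ h => h.1) fun v h n => ?_⟩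
  obtain ⟨-, -, -, -, -, -, -, x2, x3, -⟩ := t_ef i F.hi
  obtain ⟨a, ha⟩ := F.act_re x2 (show 1 < 8 by norm_num)
  obtain ⟨b, hb⟩ := F.act_re x3 (show 1 < 8 by norm_num)
  obtain ⟨-, -, t1, t2, t3⟩ := t_12 i F.hi
  have h4 : c v < 4 := h.2
  obtain e | e | e | e : c v = 0 ∨ c v = 1 ∨ c v = 2 ∨ c v = 3 := by omega
  · rwa [((F.zero h.1).1 e).resolve_left n]
  · exact h2 1 _ v h (by omega) (F.act_Q (one_mem _)) (by rw [e, lm_I8 1 (by norm_num)])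
      fun w hw => by rwa [lm_I8 w (by omega)]
  · exact h2 b _ v h (by omega) hb (by rw [e, t2]) fun w hw => (t3 w hw).2
  · exact h2 a _ v h (by omega) ha (by rw [e, t1]) fun w hw => (t3 w hw).1

theorem inQ (h : IsConj z a) (k : a ∈ Q) (n : a ≠ z) : IsConj z (a * z) := (F.nr h k n).mul.cj

theorem outQ (h : a ∈ YY Q c i 0) (k : a ∉ Q) : IsConj z a ↔ ¬IsConj z (a * z) := by
  have t : ∀ u ∈ Q, ∀ x, u * x * u⁻¹ * z = u * (x * z) * u⁻¹ := fun u hu x => by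
    rw [mul_assoc _ u⁻¹, F.L.central _ (inv_mem hu)]; group
  obtain ⟨u, hu, rfl | rfl⟩ := F.Vout h k <;> rw [t u hu, DD_iff, DD_iff]
  · exact iff_of_true F.yD F.yzD
  · rw [mul_assoc, F.L.sq, mul_one]
    exact iff_of_false F.yzD (not_not.2 F.yD)

theorem loc : Lc {d | IsConj z d} (Qof Q z) (PP Q c i) TT z (YY Q c i 0) := by
  have q := Qof_self F.L
  refine ⟨?_, fun r _ k n => k.2.2.resolve_left n, fun _ h => F.fixQ (q ▸ h), fun r hr k n v h e => ?_,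
    fun a ha b hb => ?_, fun _ a b => F.inQ a (q ▸ b), fun _ a b => F.outQ a (q ▸ b),
    ⟨s, F.N.cj, F.sV, q.symm ▸ F.N.sQ, F.N.ne⟩, ⟨y, F.yD, F.yV, q.symm ▸ F.yQ⟩,
    fun b h k n n1 => ?_, fun e h hV k n => ?_, fun e h k => ?_⟩
  · refine ⟨_, F.Pz_mem (F.Pz3 (j := 1) (by norm_num)), _, F.Pz_mem (F.Pz3 (j := 2) (by norm_num)),
      fun e => absurd (F.Y_inj F.ns0 (F.ns3 (by norm_num)) e) (by norm_num),
      fun e => absurd (F.Y_inj F.ns0 (F.ns3 (by norm_num)) e) (by norm_num),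
      fun e => absurd (F.Y_inj (F.ns3 (by norm_num)) (F.ns3 (by norm_num)) e) (by norm_num),
      F.tt0 (by norm_num), F.tt0 (by norm_num), fun r hr k => ?_⟩
    obtain ⟨j, hj, rfl⟩ := F.pt0 hr k
    interval_cases j <;> simp
  · obtain ⟨j, hj, rfl⟩ := F.pt0 hr k
    rw [q]
    refine (F.VL0 h).resolve_right fun t => n ?_
    obtain ⟨l, hl, x⟩ := F.perm ⟨v, t⟩ j (F.ns3 hj)
    rw [F.cj_Y t x] at e
    rw [F.Y_inj hl (F.ns3 hj) e] at x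
    rw [t_sw i F.hi j hj x]
  · rw [q]
    exact (F.VL0 ha).imp_right fun t => (F.VL0 hb).imp_right (F.QQ t)
  · rw [q] at k
    have n' := mt (F.L1 k).2 n
    rw [not_or] at n'
    obtain ⟨t, ht, e1, e2, e3⟩ := t_six i F.hi _ (F.lt b) ((F.VQ F.ns0 k).1 h)
      (fun e => ((F.zero k).1 e).elim n1 n'.1) n'.2
    obtain ⟨u, hu, rfl⟩ := F.surj t ht
    exact ⟨u, (F.L1 hu).2 (.inr e1), (F.VQ F.ns0 hu).2 e2,
      (F.L1 (mul_mem hu k)).2 (.inr (by rwa [F.mul hu k]))⟩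
  · obtain ⟨a, h1, h2, rfl⟩ := F.mov h hV (q ▸ k) n
    obtain ⟨E, A, k1, k2, k3, k4⟩ := F.plane
    exact ⟨_, H68.cj a '' A, mem_cj_of_comm h1 k1, conj_mem_cj.2 k2, ⟨_, k3, h2⟩,
      pn_cj (iffP PP_cj a) (iffD DD_cj a) k4⟩
  · rw [q] at k
    rcases (F.L1 k).1 h with t | t
    · exact ⟨_, Y0_mem, F.tt0 (by norm_num), t ▸ F.zV F.ns0⟩
    obtain ⟨j, hj, x⟩ := t_cov i F.hi _ (F.lt e) t
    exact ⟨_, F.Pz_mem (F.Pz3 hj), F.tt0 hj, (F.VQ (F.ns3 hj) k).2 x⟩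

theorem cards : ({d | IsConj z d} ∩ YY Q c i 0).ncard = (if i = 0 then 35 else 27) ∧ Nat.card (YY Q c i 0) = 64 := by
  have c1 : ((YY Q c i 0 : Set G) ∩ Q).ncard = 32 := by
    rw [show (YY Q c i 0 : Set G) ∩ Q = {a | a ∈ Q ∧ Nv i 0 (c a)} from Set.ext fun a =>
      ⟨fun h => ⟨h.2, (F.VQ F.ns0 h.2).1 h.1⟩, fun h => ⟨(F.VQ F.ns0 h.1).2 h.2, h.1⟩⟩,
      F.ncard_pre, (t_card i F.hi).1]
  have c2 : ((YY Q c i 0 : Set G) \ Q).ncard = 32 := by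
    rw [← c1, ← Set.ncard_image_of_injective _ (mul_left_injective y)]
    congr 1
    ext a
    refine ⟨?_, fun h => ⟨a * y, ⟨mul_mem h.1 F.yV, fun k => F.yQ ((mul_mem_cancel_left h.2).1 k)⟩, ?_⟩⟩
    · rintro ⟨a, h, rfl⟩
      exact ⟨mul_mem h.1 F.yV, (F.Vy h.1 h.2).1⟩
    · simp only [mul_assoc, F.yy, mul_one]
  have c3 : ({d | IsConj z d} ∩ YY Q c i 0 ∩ Q).ncard =
      2 * ((Finset.range 256).filter fun w => Nv i 0 w ∧ InX i w).card + 1 := by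
    rw [show {d | IsConj z d} ∩ YY Q c i 0 ∩ Q = insert z {a | a ∈ Q ∧ Nv i 0 (c a) ∧ InX i (c a)} from
      Set.ext fun a => ⟨fun h => ((F.L1 h.2).1 h.1.1).imp_right fun t => ⟨h.2, (F.VQ F.ns0 h.2).1 h.1.2, t⟩,
        fun h => h.elim (fun e => by rw [e]; exact ⟨⟨IsConj.refl z, F.zV F.ns0⟩, F.zQ⟩) fun h =>
          ⟨⟨(F.L1 h.1).2 (.inr h.2.2), (F.VQ F.ns0 h.1).2 h.2.1⟩, h.1⟩⟩,
      Set.ncard_insert_of_notMem (by exact fun h => F.X0 h.2.2 F.c_z),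
      F.ncard_pre fun w => Nv i 0 w ∧ InX i w]
  have c4 : (((YY Q c i 0 : Set G) \ Q) \ {d | IsConj z d}).ncard = (({d | IsConj z d} ∩ YY Q c i 0) \ Q).ncard := by
    rw [← Set.ncard_image_of_injective _ (mul_left_injective z)]
    congr 1
    ext a
    refine ⟨?_, fun h => ⟨a * z, ⟨⟨mul_mem h.1.2 (F.zV F.ns0), fun k => h.2 ((mul_mem_cancel_right F.zQ).1 k)⟩,
      (F.outQ h.1.2 h.2).1 h.1.1⟩, ?_⟩⟩
    · rintro ⟨a, ⟨h, k⟩, rfl⟩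
      exact ⟨⟨not_not.1 (mt (F.outQ h.1 h.2).2 k), mul_mem h.1 (F.zV F.ns0)⟩,
        fun k => h.2 ((mul_mem_cancel_right F.zQ).1 k)⟩
    · simp only [mul_assoc, F.L.sq, mul_one]
  have c5 := Set.ncard_inter_add_ncard_sdiff_eq_ncard ((YY Q c i 0 : Set G) \ Q) {d | IsConj z d}
  rw [c4, c2, Set.inter_comm, ← Set.inter_sdiff_assoc] at c5
  rw [← Set.ncard_inter_add_ncard_sdiff_eq_ncard _ (Q : Set G), c3, ← SetLike.coe_sort_coe, Nat.card_coe_set_eq,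
    ← Set.ncard_inter_add_ncard_sdiff_eq_ncard (YY Q c i 0 : Set G) (Q : Set G), c1, c2, ← (t_card i F.hi).2]
  omega

theorem Qc (g d : G) : Qof Q z (g * d * g⁻¹) = H68.cj g (Qof Q z d) :=
  SetLike.ext ((s1 g).forall.2 fun x => by
    rw [conj_mem_cj]
    exact ⟨fun h => by simpa [mul_assoc] using conj_mem_Qof h g⁻¹, fun h => conj_mem_Qof h g⟩)

theorem geo : Ge (if i = 0 then 35 else 27) {d | IsConj z d} (Qof Q z) (PP Q c i) TT := by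
  refine ⟨DD_cj, PP_cj, fun g d _ => F.Qc g d, fun _ _ _ _ => TT_cj.2, fun _ _ _ h => ⟨h.1, h.2.1⟩,
    fun _ _ h => ⟨h, h, .inl rfl⟩, fun _ _ _ h => ⟨h.2.1, h.1, h.2.2.imp Eq.symm fun k x a b => k x b a⟩,
    fun d hd p hp q hq r hr h k => ?_, fun h => (L3_Qof F.L h).ne_one rfl, ?_, fun _ h => (L3_Qof F.L h).mem,
    fun _ hd _ he => Qof_symm F.L F.N.hc he hd, fun d hd => ?_, fun d hd p hp k => ?_, by split_ifs <;> norm_num,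
    ?_, ?_⟩
  · obtain ⟨g, rfl⟩ := isConj_iff.1 hd
    obtain ⟨p, rfl⟩ := s2 g p
    obtain ⟨q, rfl⟩ := s2 g q
    obtain ⟨r, rfl⟩ := s2 g r
    rw [TT_cj] at h k ⊢
    obtain ⟨j, hj, rfl⟩ := F.pt ((iffP PP_cj g _).1 hp) h.1
    obtain ⟨l, hl, rfl⟩ := F.pt ((iffP PP_cj g _).1 hq) k.1
    obtain ⟨n, hn, rfl⟩ := F.pt ((iffP PP_cj g _).1 hr) k.2.1
    exact (F.tt hj hn).2 (((F.tt hj hl).1 h).trans ((F.tt hl hn).1 k))
  · rintro _ ⟨g, rfl⟩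
    exact (s1 g).forall.2 fun v h => by rw [e4, F.Vsq (conj_mem_cj.1 h), e3]
  · obtain ⟨g, rfl⟩ := isConj_iff.1 hd
    exact ⟨_, ⟨g, rfl⟩, conj_mem_cj.2 (F.zV F.ns0)⟩
  · obtain ⟨g, rfl, rfl⟩ := F.flag' hd hp k
    exact lc_cj (iffP PP_cj g) (iffD DD_cj g) F.loc (F.Qc g z)
  · rintro _ ⟨g, rfl⟩
    rw [ncard_cj (iffD DD_cj g), F.cards.1]
  · rintro _ ⟨g, rfl⟩
    rw [card_cj, F.cards.2]

theorem types (τ : ℕ) : ∃ a ∈ PP Q c i, ∀ j, Pz z Q c i j → j / 3 = τ → TT z a (YY Q c i j) := by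
  by_cases h : ∃ l, Pz z Q c i l ∧ l / 3 = τ
  · obtain ⟨l, hl, e⟩ := h
    exact ⟨_, F.Pz_mem hl, fun j hj k => (F.tt hl hj).2 (e.trans k.symm)⟩
  · exact ⟨_, Y0_mem, fun j hj k => absurd ⟨j, hj, k⟩ h⟩

end Fx

end GeO

variable {G : Type u} [Group G] [Finite G] {z s g r x y d : G} {Q : Subgroup G} {c : G → ℕ} {i n M a e v w : ℕ}

theorem Std.geo (S : Std i z Q c) (hi : i = 0 ∨ i = 6) : ∃ P T,
    Ge (if i = 0 then 35 else 27) {d | IsConj z d} (Qof Q z) P T ∧ (∀ p ∈ P, ∀ q ∈ P, ∃ g, q = H68.cj g p) ∧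
      ∃ a ∈ P, ∃ b ∈ P, ∃ c ∈ P, ∀ p ∈ P, z ∈ p → T z a p ∨ T z b p ∨ T z c p := by
  obtain ⟨s, m, f, y, F⟩ := GeO.Fm.exists_fx ⟨S, by simpa using hi⟩
  obtain ⟨a, ha, k0⟩ := F.types 0
  obtain ⟨b, hb, k1⟩ := F.types 1
  obtain ⟨e, he, k2⟩ := F.types 2
  refine ⟨_, _, F.geo, ?_, a, ha, b, hb, e, he, fun p hp k => ?_⟩
  · rintro _ ⟨g, rfl⟩ _ ⟨k, rfl⟩
    exact ⟨k * g⁻¹, by rw [H68.cj_mul, H68.cj_inv_cj]⟩
  · obtain ⟨j, hj, rfl⟩ := F.pt hp k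
    have := hj.1.trans_le (GeO.t_ns i F.hi).2
    obtain t | t | t : j / 3 = 0 ∨ j / 3 = 1 ∨ j / 3 = 2 := by omega
    exacts [.inl (k0 j hj t), .inr (.inl (k1 j hj t)), .inr (.inr (k2 j hj t))]

end H9.X9
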