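import Cfsg.Agent.Lib.X9.O3A
import Cfsg.Agent.Lib.X9.A2

/-!
The centralizer of a long root element does not centralize `z`.
-/

set_option autoImplicit false
set_option linter.unusedSectionVars false
set_option maxHeartbeats 400000
set_option maxRecDepth 100000
set_option synthInstance.maxSize 4000
set_option synthInstance.maxHeartbeats 200000

namespace H9.X9

open H95 H4.LX Subgroup H9.WC H75.DW Cfsg
open H39.MS (lm)
open scoped commutatorElement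

universe u

variable {G : Type u} [Group G] [Finite G] {z s g r x y d : G} {Q : Subgroup G} {c : G → ℕ} {i n M a e v w : ℕ}

namespace Nt

theorem fix : ∀ j < 4, ∀ l < 8, ∀ t ∈ ev1, ∀ k < 81,
    lm (o3 k) (lm (mm (re 1 1 l) t) ([6, 11, 13, 13].getD j 0)) = [6, 11, 13, 13].getD j 0 →
    lm (o3 k) (lm (mm (re 1 1 l) t) ([10, 7, 7, 11].getD j 0)) = [10, 7, 7, 11].getD j 0 →
    mm (mm (o3 k) (mm (re 1 1 l) t)) (mm (mm (o3 k) (mm (re 1 1 l) t)) (mm (o3 k) (mm (re 1 1 l) t))) = I8 →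
    mm (o3 k) (mm (re 1 1 l) t) = I8 ∨ mm (o3 k) (mm (re 1 1 l) t) = th j ∨
      mm (o3 k) (mm (re 1 1 l) t) = iv (th j) := by
  decide +kernel

theorem sepT : ∀ p < 16, ∀ q < 16, ∀ r < 16, (∃ a < 16, b0 (16 * a) p = 0 ∧ b0 (16 * a) q = 0 ∧
    b0 (16 * a) r = 0 ∧ b0 (16 * a) 1 = 1) ∨ 1 ∈ [p, q, r, p ^^^ q, p ^^^ r, q ^^^ r, p ^^^ q ^^^ r] := by
  decide +kernel

theorem cubeT : ∀ k < 81, mm (o3 k) (mm (o3 k) (o3 k)) = I8 := by decide +kernel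

theorem x2 : InX 1 2 := by decide +kernel

theorem tab : ∀ j < 4, ∀ p ∈ [[6, 11, 13, 13].getD j 0], ∀ q ∈ [[10, 7, 7, 11].getD j 0], p < 16 ∧ q < 16 ∧
    lm (th j) p = p ∧ lm (th j) q = q ∧ lm (iv (th j)) p = p ∧ lm (iv (th j)) q = q ∧ iv (iv (th j)) = th j ∧
    ∀ v ∈ [2, p, q, 2 ^^^ p, 2 ^^^ q, p ^^^ q, 2 ^^^ p ^^^ q], v ≠ 0 ∧ v ≠ 1 := by decide +kernel

/-- an element of order three fixing a code centralizes its lifts -/
theorem fix3 (C : Co z Q c) (h : Act z Q c d M) (d3 : d ^ 3 = 1) (hx : x ∈ Q) (e : lm M (c x) = c x) :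
    d * x = x * d := by
  rcases (C.fix_iff h hx).1 e with k | k
  · exact mul_inv_eq_iff_eq_mul.1 k
  · have k1 : ∀ y, d * y * d⁻¹ = y * z → d * (y * z) * d⁻¹ = y := fun y q => by
      rw [← mul_assoc, mul_assoc (d * y), ← comm_inv h.cz, ← mul_assoc, q, mul_assoc, C.h.sq, mul_one]
    have k2 : d ^ 3 * x * (d ^ 3)⁻¹ = d * (d * (d * x * d⁻¹) * d⁻¹) * d⁻¹ := by rw [pow_three]; group
    rw [d3, k, k1 x k, k] at k2
    exact absurd (by simpa using k2) C.h.ne_one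

theorem one_of (C : Co z Q c) (hx : x ∈ Q) (x3 : x ^ 3 = 1) : x = 1 := by
  have := C.h.pow_four hx
  rwa [pow_succ, x3, one_mul] at this

theorem cube (C : Co z Q c) (h : O3 z Q c x) : x ^ 3 ∈ Q := by
  obtain ⟨k, hk, h⟩ := h
  rw [pow_three]
  exact C.mem_Q (cubeT k hk ▸ C.act_mul h (C.act_mul h h))

/-- elements of order three are conjugate to `d^±` -/
theorem cj3 {Y : Subgroup G} (dY : d ∈ Y) (d3 : d ^ 3 = 1) (H : ∀ u ∈ Y, u ^ 3 = 1 → u * d = d * u → u ∈ zpowers d)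
    (rY : r ∈ Y) (r3 : r ^ 3 = 1) (r1 : r ≠ 1) : ∃ h, Pm (h * r * h⁻¹) d := by
  have : Fact (Nat.Prime 3) := ⟨by norm_num⟩
  have p : ∀ x : Y, (x : G) ^ 3 = 1 → IsPGroup 3 (zpowers x) := fun x h => by
    rintro ⟨_, k, rfl⟩
    refine ⟨1, Subtype.ext (Subtype.ext ?_)⟩
    change ((x : G) ^ k) ^ 3 ^ 1 = 1
    rw [pow_one, ← zpow_natCast, ← zpow_mul, mul_comm, zpow_mul, zpow_natCast, h, one_zpow]
  obtain ⟨P, hP⟩ := (p ⟨d, dY⟩ d3).exists_le_sylow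
  obtain ⟨P', hP'⟩ := (p ⟨r, rY⟩ r3).exists_le_sylow
  obtain ⟨h, rfl⟩ := MulAction.exists_smul_eq Y P' P
  have m : h * ⟨r, rY⟩ * h⁻¹ ∈ (h • P' : Sylow 3 Y) := smul_mem_pointwise_smul _ (MulAut.conj h) _ (hP' (mem_zpowers _))
  generalize h • P' = P at m hP
  have r1' : (h : G) * r * h⁻¹ ≠ 1 := by simpa using r1
  have : Nontrivial P := ⟨⟨⟨_, m⟩, 1, fun q => r1' (congrArg (fun x : P => (x.1 : G)) q)⟩⟩
  have := P.isPGroup'.center_nontrivial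
  obtain ⟨n, hn0, hn⟩ := (P.isPGroup'.to_subgroup (center P)).nontrivial_iff_card.1 this
  obtain ⟨⟨ζ, hζ⟩, ho⟩ := exists_prime_orderOf_dvd_card' (G := center P) 3 (hn ▸ dvd_pow_self 3 hn0.ne')
  rw [← orderOf_coe, ← orderOf_coe, ← orderOf_coe] at ho
  replace ho : orderOf (ζ.1 : G) = 3 := ho
  have cz : ∀ x : P, Commute (x.1 : G) ζ.1 := fun x => congrArg (fun x : P => (x.1 : G)) (mem_center_iff.1 hζ x)
  have pz : Pm (ζ.1 : G) d := Pm.of_zpowers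
    (H _ ζ.1.2 (orderOf_dvd_iff_pow_eq_one.1 ho.dvd) (cz ⟨_, hP (mem_zpowers _)⟩).symm) d3
    fun q => by rw [q, orderOf_one] at ho; omega
  exact ⟨h, Pm.of_zpowers (H _ (h * ⟨r, rY⟩ * h⁻¹).2 (by
    change ((h : G) * r * (h : G)⁻¹) ^ 3 = 1
    rw [conj_pow, r3]; group) (pz.symm.cm (cz ⟨_, m⟩))) d3 r1'⟩

variable (S : Std 1 z Q c) {e b b' : G}
include S

theorem lt16 (N : Nr Q z s) (cs : c s = 1) (hx : x ∈ Q) : x ∈ Qof Q z s ↔ c x < 16 := by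
  rw [← S.toCo.es_iff N hx, cs, S.E 1 (inX_one 1 (by decide)).1, inE_one 1 (by decide) _ (S.lt x)]

theorem sep (N : Nr Q z s) (cs : c s = 1) (h1 : e ∈ Q) (h2 : b ∈ Q) (h3 : b' ∈ Q) (k1 : e ∈ Qof Q z s)
    (k2 : b ∈ Qof Q z s) (k3 : b' ∈ Qof Q z s)
    (h : ∀ w ∈ [e, b, b', e * b, e * b', b * b', e * b * b'], w ≠ s ∧ w ≠ s * z) :
    ∃ x ∈ Q, x * e = e * x ∧ x * b = b * x ∧ x * b' = b' * x ∧ x * s * x⁻¹ = s * z := by
  have C := S.toCo
  rcases sepT _ ((lt16 S N cs h1).1 k1) _ ((lt16 S N cs h2).1 k2) _ ((lt16 S N cs h3).1 k3) with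
    ⟨a, ha, q1, q2, q3, q4⟩ | q
  · obtain ⟨x, hx, cx⟩ := C.surj (16 * a) (by omega)
    rw [← cx] at q1 q2 q3 q4
    exact ⟨x, hx, (C.comm hx h1).2 q1, (C.comm hx h2).2 q2, (C.comm hx h3).2 q3, C.conj_z hx N.sQ (cs ▸ q4)⟩
  · have f : ∀ w ∈ Q, w ∈ [e, b, b', e * b, e * b', b * b', e * b * b'] → 1 ≠ c w := fun w hw m q =>
      ((C.c_eq N.sQ hw).1 (cs.trans q)).elim (h w m).1 (h w m).2
    rw [← C.mul h1 h2, ← C.mul h1 h3, ← C.mul h2 h3, ← C.mul (mul_mem h1 h2) h3] at q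
    simp only [List.mem_cons, List.not_mem_nil, or_false] at q
    rcases q with q | q | q | q | q | q | q
    exacts [absurd q (f _ h1 (by simp)), absurd q (f _ h2 (by simp)), absurd q (f _ h3 (by simp)),
      absurd q (f _ (mul_mem h1 h2) (by simp)), absurd q (f _ (mul_mem h1 h3) (by simp)),
      absurd q (f _ (mul_mem h2 h3) (by simp)), absurd q (f _ (mul_mem (mul_mem h1 h2) h3) (by simp))]

/-- an element of order three rotating `z, s, z s` -/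
theorem rot (N : Nr Q z s) (cs : c s = 1) (h1 : e ∈ Q) (h2 : b ∈ Q) (h3 : b' ∈ Q) (k1 : e ∈ Qof Q z s)
    (k2 : b ∈ Qof Q z s) (k3 : b' ∈ Qof Q z s) (ge : g * z * g⁻¹ = e)
    (h : ∀ v ∈ [c e, c b, c b', c e ^^^ c b, c e ^^^ c b', c b ^^^ c b', c e ^^^ c b ^^^ c b'], v ≠ 0 ∧ v ≠ 1) :
    ∃ ρ, ρ ^ 3 = 1 ∧ ρ * e = e * ρ ∧ ρ * b = b * ρ ∧ ρ * b' = b' * ρ ∧ ρ * z * ρ⁻¹ = s * z ∧
      O3 z Q c (g⁻¹ * ρ * g) := by
  have C := S.toCo
  have sz : s * z = z * s := C.h.central s N.sQ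
  have ss : s * s = 1 := N.p.h'.sq
  have f : ∀ w ∈ [e, b, b', e * b, e * b', b * b', e * b * b'], w ≠ s ∧ w ≠ s * z ∧ w ≠ z := fun w m => by
    have : c w ≠ 0 ∧ c w ≠ 1 := by
      rw [← C.mul h1 h2, ← C.mul h1 h3, ← C.mul h2 h3, ← C.mul (mul_mem h1 h2) h3] at h
      exact h _ (List.mem_map_of_mem (f := c) m)
    refine ⟨?_, ?_, ?_⟩ <;> rintro rfl
    exacts [this.2 cs, this.2 ((C.c_mulz N.sQ).trans cs), this.1 C.c_z]
  obtain ⟨x, hx, x1, x2, x3, x4⟩ := sep S N cs h1 h2 h3 k1 k2 k3 fun w m => ⟨(f w m).1, (f w m).2.1⟩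
  obtain ⟨m, mz, ms⟩ := exists_swap N.p
  have mz' : m⁻¹ * z * m⁻¹⁻¹ = s := by rw [← ms]; group
  have t1 : ∀ {x}, x ∈ Qof Q z s → m⁻¹ * x * m ∈ Q := fun h => (mem_Qof C.h mz).1 h
  have t2 : ∀ {x}, x ∈ Q → m⁻¹ * x * m ∈ Qof Q z s := fun {x} h => by
    have := conj_mem_Qof ((Qof_self C.h).ge h) m⁻¹
    rwa [mz', inv_inv] at this
  obtain ⟨x', hx', y1, y2, y3, y4⟩ := sep S N cs (t1 k1) (t1 k2) (t1 k3) (t2 h1) (t2 h2) (t2 h3) fun w q => by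
    obtain ⟨w', q', rfl⟩ : ∃ w' ∈ [e, b, b', e * b, e * b', b * b', e * b * b'], m⁻¹ * w' * m = w := by
      rw [← List.mem_map]; simpa [mul_assoc] using q
    refine ⟨fun k => (f w' q').2.2 ?_, fun k => (f w' q').2.1 ?_⟩
    · rw [← ms, ← k]; group
    · calc w' = m * (s * z) * m⁻¹ := by rw [← k]; group
        _ = _ := by rw [← conj_mul, ms, mz, sz]
  have back : ∀ {a}, x' * (m⁻¹ * a * m) = m⁻¹ * a * m * x' → m * x' * m⁻¹ * a = a * (m * x' * m⁻¹) := fun {a} q => by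
    calc _ = m * (x' * (m⁻¹ * a * m)) * m⁻¹ := by group
      _ = _ := by rw [q]; group
  have hy : m * x' * m⁻¹ ∈ Qof Q z s := mz ▸ conj_mem_Qof ((Qof_self C.h).ge hx') m
  have y5 : m * x' * m⁻¹ * z * (m * x' * m⁻¹)⁻¹ = z * s := by
    calc _ = m * (x' * (m⁻¹ * z * m⁻¹⁻¹) * x'⁻¹) * m⁻¹ := by group
      _ = _ := by rw [mz', y4, ← conj_mul, ms, mz]
  replace y1 := back y1
  replace y2 := back y2
  replace y3 := back y3
  generalize m * x' * m⁻¹ = y at *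
  have xz := C.h.central x hx
  have ys := N.p.h'.central y hy
  have u1 : x * y * z * (x * y)⁻¹ = s := by
    calc _ = x * (y * z * y⁻¹) * x⁻¹ := by group
      _ = z * (x * s * x⁻¹) := by rw [y5, ← mul_assoc, xz]; group
      _ = s := by rw [x4, sz, ← mul_assoc, C.h.sq, one_mul]
  have u2 : x * y * s * (x * y)⁻¹ = s * z := by rw [← x4, mul_assoc x, ys]; group
  have ue : x * y * e = e * (x * y) := comm_mul x1 y1
  have ub : x * y * b = b * (x * y) := comm_mul x2 y2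
  have ub' : x * y * b' = b' * (x * y) := comm_mul x3 y3
  have ce : IsConj z e := isConj_iff.2 ⟨g, ge⟩
  have nr : ∀ {t}, IsConj z t → e ∈ Qof Q z t → e ≠ t → Nr Q z (g⁻¹ * t * g⁻¹⁻¹) := fun {t} c1 c2 c3 =>
    C.nr (c1.trans (isConj_iff.2 ⟨_, rfl⟩))
      (by rw [inv_inv]; exact (mem_Qof C.h ge).1 (Qof_symm C.h C.T.h8 ce c1 c2))
      fun q => c3 (by rw [← ge, ← q]; group)
  have pz : ∀ {a}, a * e = e * a → g⁻¹ * a * g⁻¹⁻¹ * z = z * (g⁻¹ * a * g⁻¹⁻¹) := fun {a} q => by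
    calc _ = g⁻¹ * (a * (g * z * g⁻¹)) * g := by group
      _ = g⁻¹ * ((g * z * g⁻¹) * a) * g := by rw [ge, q]
      _ = _ := by group
  have o := S.o3_sq (nr (.refl z) ((Qof_self C.h).ge h1) (f e (by simp)).2.2) (nr N.cj k1 (f e (by simp)).1)
    (conj_mem_Qof ((Qof_self C.h).ge hx) g⁻¹) (pz x1) (conj_mem_Qof hy g⁻¹) (pz y1)
  rw [conj_mul, conj_pow] at o
  generalize x * y = u at *
  have u24 : (u ^ 8) ^ 3 = 1 := by
    have := C.h.pow_four (cube C o)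
    rw [conj_pow, conj_pow, conj_eq_one_iff, ← pow_mul, ← pow_mul] at this
    rwa [← pow_mul]
  have u3 : u ^ 2 * z * (u ^ 2)⁻¹ = s * z := by rw [← u2, ← u1, pow_two]; group
  have u4 : u ^ 3 * z = z * u ^ 3 := by
    rw [← mul_inv_eq_iff_eq_mul]
    calc _ = u * (u ^ 2 * z * (u ^ 2)⁻¹) * u⁻¹ := by rw [pow_succ']; group
      _ = z := by rw [u3, ← conj_mul, u1, u2, sz, mul_assoc, ss, mul_one]
  refine ⟨u ^ 8, u24, (Commute.pow_left ue 8).eq, (Commute.pow_left ub 8).eq, (Commute.pow_left ub' 8).eq, ?_, ?_⟩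
  · rw [show u ^ 8 = u ^ 2 * (u ^ 3) ^ 2 by group, ← u3, mul_assoc (u ^ 2), (Commute.pow_left u4 2).eq]; group
  · have := S.o3_pow o 4
    rwa [conj_pow, ← pow_mul, inv_inv] at this

end Nt

open Nt

theorem Std.nt (S : Std 1 z Q c) (hd : Th z Q c d) : ∃ h, h * d = d * h ∧ h * z ≠ z * h := by
  by_contra! H
  have C := S.toCo
  obtain ⟨d3, j, hj, hM⟩ := id hd
  obtain ⟨p1, p2, p3, p4, p5, p6, p7, p8⟩ := tab j hj _ (List.mem_singleton_self _) _ (List.mem_singleton_self _)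
  obtain ⟨s, N, cs⟩ := S.X 1 (inX_one 1 (by decide)).1
  obtain ⟨e, Ne, ce⟩ := S.X 2 x2
  obtain ⟨b, hb, cb⟩ := C.surj _ (p1.trans (by decide : 16 < 256))
  obtain ⟨b', hb', cb'⟩ := C.surj _ (p2.trans (by decide : 16 < 256))
  obtain ⟨g, ge⟩ := isConj_iff.1 Ne.cj
  have ke := (lt16 S N cs Ne.sQ).2 (by omega)
  obtain ⟨ρ, r3, re, rb, rb', rz, ro⟩ := rot S N cs Ne.sQ hb hb' ke
    ((lt16 S N cs hb).2 (cb ▸ p1)) ((lt16 S N cs hb').2 (cb' ▸ p2)) ge (by rwa [ce, cb, cb'])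
  have r1 : ρ ≠ 1 := by
    rintro rfl
    exact N.p.h'.ne_one (by simpa using rz)
  have db : d * b = b * d ∧ d * b' = b' * d :=
    hM.elim (fun h => ⟨fix3 C h d3 hb (cb ▸ p3), fix3 C h d3 hb' (cb' ▸ p4)⟩)
      fun h => ⟨fix3 C h d3 hb (cb ▸ p5), fix3 C h d3 hb' (cb' ▸ p6)⟩
  obtain ⟨h, hh⟩ := cj3 (Y := centralizer {b} ⊓ centralizer {b'}) ⟨mem_cent_iff.2 db.1, mem_cent_iff.2 db.2⟩ d3
    (fun u hu u3 ud => by
      obtain ⟨M, hu'⟩ := C.exists_act (H u ud)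
      obtain ⟨k, hk, l, hl, t, ht, rfl⟩ := S.dec1 ⟨u, hu'⟩
      have f : ∀ {b}, b ∈ Q → u * b = b * u → lm (o3 k) (lm (mm (X9.re 1 1 l) t) (c b)) = c b := fun hb q => by
        rw [← lm_mm _ _ (C.lt _), ← hu'.app hb, q, mul_inv_cancel_right]
      have q3 := C.uniq (C.act_mul hu' (C.act_mul hu' hu')) (by rw [← pow_three, u3]; exact C.act_Q (one_mem _))
      have fin : ∀ {d' M}, d' ∈ zpowers d → d' ^ 3 = 1 → Act z Q c d' M → Act z Q c u M → u ∈ zpowers d :=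
        fun {d' M} m q a1 a2 => by
          have cm : Commute d'⁻¹ u := by
            obtain ⟨k, rfl⟩ := mem_zpowers_iff.1 m
            exact ((Commute.symm ud).zpow_left k).inv_left
          have := one_of C (C.div_mem a1 a2) (by rw [cm.mul_pow, inv_pow, q, u3]; group)
          exact inv_mul_eq_one.1 this ▸ m
      have i3 : d⁻¹ ^ 3 = 1 := by rw [inv_pow, d3, inv_one]
      have mi := inv_mem (mem_zpowers d)
      rcases fix j hj l hl t ht k hk (cb ▸ f hb (mem_cent_iff.1 hu.1)) (cb' ▸ f hb' (mem_cent_iff.1 hu.2)) q3 with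
        q | q | q <;> rw [q] at hu'
      · exact fin (one_mem _) (one_pow 3) (C.act_Q (one_mem _)) hu'
      · exact hM.elim (fun a => fin (mem_zpowers d) d3 a hu') fun a => fin mi i3 (p7 ▸ C.act_inv a) hu'
      · exact hM.elim (fun a => fin mi i3 (C.act_inv a) hu') fun a => fin (mem_zpowers d) d3 a hu')
    ⟨mem_cent_iff.2 rb, mem_cent_iff.2 rb'⟩ r3 r1
  have hd' : Th z Q c (h * ρ * h⁻¹) := hh.elim (fun q => q ▸ hd) fun q => q ▸ S.th_inv hd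
  have ed : h * e * h⁻¹ * (h * ρ * h⁻¹) = h * ρ * h⁻¹ * (h * e * h⁻¹) := by rw [conj_mul, conj_mul, re]
  have ez : h * e * h⁻¹ * z = z * (h * e * h⁻¹) := H _ (hh.symm.cm ed)
  have ce' : IsConj z (h * e * h⁻¹) := Ne.cj.trans (isConj_iff.2 ⟨_, rfl⟩)
  have zQ : z ∈ Qof Q z e := Ne.p.zQ
  by_cases q1 : h * e * h⁻¹ = z
  · have N1 : Nr Q z (h * z * h⁻¹) := C.nr (isConj_iff.2 ⟨_, rfl⟩)
      (by have := conj_mem_Qof zQ h; rwa [q1, Qof_self C.h] at this)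
      fun q => Ne.ne (conj_injective (q1.trans q.symm))
    refine (S.th_nr hd' N1).2 (N.cj.trans (isConj_iff.2 ⟨h, ?_⟩))
    calc _ = h * (z * (s * z)) * h⁻¹ := by rw [C.h.central s N.sQ, ← mul_assoc z, C.h.sq, one_mul]
      _ = _ := by rw [← rz]; group
  by_cases q2 : h * e * h⁻¹ ∈ Q
  · exact (S.th_nr hd' (C.nr ce' q2 q1)).1 ed.symm
  obtain ⟨k, hk, k1, k2⟩ := S.th_root hd' (by rw [conj_mul, Ne.p.h'.sq]; group) ez ed
  have ge' : h * g * z * (h * g)⁻¹ = h * e * h⁻¹ := by rw [← ge]; group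
  have ro' : O3 z Q c ((h * g)⁻¹ * (h * ρ * h⁻¹) * (h * g)) := by convert ro using 1; group
  have dz : h * ρ * h⁻¹ * z = z * (h * ρ * h⁻¹) := let ⟨_, _, a⟩ := (S.th_o3 hd').1; a.cz
  have d1 : h * ρ * h⁻¹ ≠ 1 := by simpa using r1
  have d3' := hd'.1
  generalize h * g = g' at *
  generalize h * ρ * h⁻¹ = d' at *
  have e2 : g'⁻¹ * k * g' * (g'⁻¹ * k * g') = g'⁻¹ * z * g' := by rw [← k2]; group
  have io := S.sq_io (k := g'⁻¹ * k * g') (by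
    calc _ = g'⁻¹ * (k * (g' * z * g'⁻¹)) * g' := by group
      _ = _ := by rw [ge', k1, ← ge']; group) (by
    rw [show 4 = 2 * 2 from rfl, pow_mul, pow_two, pow_two, e2]
    calc _ = g'⁻¹ * (z * z) * g' := by group
      _ = 1 := by rw [C.h.sq]; group) (by
    rw [e2]
    exact fun f => q2 ((Qof_self C.h).le (Qof_symm C.h C.T.h8 (.refl z) ce' ((mem_Qof C.h ge').2 f))))
  have := one_of C (S.io_comm io ro' (by
    rw [e2]
    calc _ = g'⁻¹ * (z * d') * g' := by group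
      _ = _ := by rw [← dz]; group)) (by
    rw [show g'⁻¹ * d' * g' = g'⁻¹ * d' * g'⁻¹⁻¹ by group, conj_pow, d3']; group)
  exact d1 (calc d' = g' * (g'⁻¹ * d' * g') * g'⁻¹ := by group
    _ = 1 := by rw [this]; group)

end H9.X9
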