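import Cfsg.Agent.Lib.X9.O3A1
import Cfsg.Agent.Lib.X9.Stab

set_option autoImplicit false
set_option linter.unusedSectionVars false
set_option maxHeartbeats 400000

namespace H9.X9

open H95 H4.LX Subgroup H9.WC H75.DW Cfsg
open H39.MS (lm)
open scoped commutatorElement

universe u

variable {G : Type u} [Group G] [Finite G] {z s g r x y d : G} {Q : Subgroup G} {c : G → ℕ} {i n M a e v w : ℕ}

namespace O3A

theorem h1 : 1 ∈ [0, 1, 2, 5, 6, 7, 8, 9] := by decide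

theorem odd_one (C : Co z Q c) (hx : x ∈ Q) (o : Odd n) (e : x ^ n = 1) : x = 1 := by
  have h4 : x ^ 4 = 1 := by
    rw [show x ^ 4 = x * x * (x * x) by rw [pow_succ, pow_succ, pow_two, mul_assoc]]
    rcases C.h.sq_mem hx with f | f <;> rw [f]
    exacts [mul_one _, C.h.sq]
  have := pow_gcd_eq_one.2 ⟨h4, e⟩
  rwa [show Nat.gcd 4 n = 1 from (Nat.coprime_two_left.2 o).pow_left 2, pow_one] at this

theorem Th.tm (h : Th z Q c x) : ∃ j < 4, ∃ D ∈ [th j, iv (th j)], Act z Q c x D := by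
  obtain ⟨-, j, hj, h | h⟩ := h
  exacts [⟨j, hj, _, by simp, h⟩, ⟨j, hj, _, by simp, h⟩]

theorem cm (C : Co z Q c) {D : ℕ} (hx : Act z Q c x M) (hd : Act z Q c d D) (e : x * d = d * x) (ha : a < 256) :
    lm M (lm D a) = lm D (lm M a) := by
  rw [← lm_mm _ _ ha, ← lm_mm _ _ ha, C.uniq (C.act_mul hx hd) (e ▸ C.act_mul hd hx)]

/-- a matrix commuting with a long root matrix preserves its block -/
theorem blk_fx (C : Co z Q c) {D j : ℕ} (hj : j < 4) (hD : D ∈ [th j, iv (th j)]) (hx : Act z Q c x M)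
    (hd : Act z Q c d D) (e : x * d = d * x) : lm M (fx j) = fx j ∨
      (lm M (fx j) = lm D (fx j) ∧ lm D (lm M (fx j)) ≠ fx j ∧ lm D (lm D (lm M (fx j))) = fx j) ∨
      (lm M (fx j) = lm D (lm D (fx j)) ∧ lm D (lm D (lm M (fx j))) ≠ fx j ∧ lm D (lm M (fx j)) = fx j) := by
  obtain ⟨-, f1, ⟨a, ha, f2⟩, f3, f4, -, -, f5, -⟩ := th_fact j hj D hD
  refine (f5 _ (lm_lt _ _) ?_).resolve_left fun k => f4 (((C.iso hx).eq_zero f3).1 k)
  rw [f2, lm_xor, cm C hx hd e ha]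
  exact f1 _ (lm_lt _ _)

end O3A

open O3A

namespace Std

variable (S : Std 1 z Q c) {t k x' s' : G} {j l : ℕ}
include S

theorem lm_th (hj : j < 4) : LM z Q c (th j) := by
  have f : ∀ v, InX 1 v → ∀ k < 8, LM z Q c (mm io (re 1 v k)) := fun v hv k hk => by
    rw [io_eq]
    exact .step (S.sub.rm (inX_one 1 (by norm_num)).1 (by norm_num)) (S.toCo.lm_of (S.sub.rm hv hk))
  obtain ⟨a0, a1, a2, a3, b0, b1, b2, b3⟩ := th_word
  interval_cases j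
  · rw [a0]; exact f _ b0 _ (by norm_num)
  · rw [a1]; exact f _ b1 _ (by norm_num)
  · rw [a2]; exact f _ b2 _ (by norm_num)
  · rw [a3]; exact f _ b3 _ (by norm_num)
theorem lm_o3 (hl : l < 81) : LM z Q c (o3 l) := by
  have f : ∀ j < 4, ∀ e, LM z Q c (p3 (th j) e) := fun j hj e => by
    have := S.lm_th hj
    unfold p3
    cases Nat.beq e 0 <;> cases Nat.beq e 1
    exacts [S.toCo.lm_mul this this, this, .one, .one]
  have _ := hl
  exact S.toCo.lm_mul (f 0 (by norm_num) _) (S.toCo.lm_mul (f 1 (by norm_num) _)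
    (S.toCo.lm_mul (f 2 (by norm_num) _) (f 3 (by norm_num) _)))
theorem dec1L (h : LM z Q c M) : ∃ k < 81, ∃ l < 8, M = mm (o3 k) (re 1 1 l) := by
  suffices ∃ l < 8, O3A.E M (re 1 1 l) from let ⟨l, hl, k, hk, e⟩ := this; ⟨k, hk, l, hl, e⟩
  induction h with
  | one => exact ⟨0, by norm_num, by rw [re_eq 0 (by norm_num), rt_zero]; exact .self I8_lt⟩
  | @step v r M a _ b =>
    have hv := S.X' (by norm_num) v a.xs
    obtain ⟨k, hk, rfl⟩ := (S.R v hv r).1 a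
    obtain ⟨l, hl, e⟩ := O3A.E.re hv hk
    obtain ⟨m, hm, f⟩ := b
    have := e.mul f (nO2 (rt_mem hl))
    have h8 : l ^^^ m < 8 := Nat.xor_lt_two_pow (n := 3) hl hm
    rw [re_eq l hl, re_eq m hm, rt_mul l hl m hm, ← re_eq _ h8] at this
    exact ⟨_, h8, this⟩
theorem fix1' (h : HM z Q c M) (h1 : lm M 1 = 1) : ∃ l < 8, ∃ t ∈ ev1, M = mm (re 1 1 l) t := by
  obtain ⟨l, hl, t, ht, hm, e⟩ := S.fix1 O3A.h1 (by decide) h h1
  refine ⟨l, hl, t, (stl_odd t ht).resolve_right fun ⟨p, q, hpq, hp⟩ => ?_, e⟩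
  have hr : ∀ M, LM z Q c M → ∃ σ : Equiv.Perm (Fin 5), Equiv.Perm.sign σ = 1 ∧
      ∀ j, ∀ a < 256, col a = j ↔ col (lm M a) = σ j := fun M hM => by
    obtain ⟨k, hk, l, hl, rfl⟩ := S.dec1L hM
    obtain ⟨σ, h1, h2⟩ := rt_pm l hl
    refine ⟨σ, by revert σ; simp, fun j a ha => ?_⟩
    rw [lm_mm _ _ ha, o3_eq k hk, re_eq l hl, (ot_spec k hk).2.2.2.2.2.2.2 _ (lm_lt _ _)]
    exact h2.iff j a ha
  have := S.toCo.perm_even (fun j a => col a = j) (fun j k e => by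
      obtain ⟨a, ha, rfl⟩ := col_surj j
      exact (e a ha).1 rfl)
    (fun M hM j => by
      obtain ⟨L, hL, t, ht, -, rfl⟩ := S.dec O3A.h1 hM
      obtain ⟨σ, -, hσ⟩ := hr L hL
      obtain ⟨a, b, c, e⟩ := stl_pm t ht
      exact ⟨_, fun x hx => by rw [lm_mm _ _ hx, ← hσ _ _ (lm_lt _ _), e.iff j x hx]⟩)
    (fun v M hM => hr M (S.toCo.lm_of hM)) hm hp.iff
  rw [Equiv.Perm.sign_swap hpq] at this
  exact absurd this (by decide)
theorem dec1 (h : HM z Q c M) : ∃ k < 81, ∃ l < 8, ∃ t ∈ ev1, M = mm (o3 k) (mm (re 1 1 l) t) := by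
  have C := S.toCo
  have hv := S.orbX O3A.h1 h (inX_one 1 (by norm_num)).1
  obtain ⟨k, hk, e⟩ := o3_reg _ hv.1 hv
  obtain ⟨l, hl, t, ht, f⟩ := S.fix1' (C.hm_mul (C.hm_inv (C.lm_hm (S.lm_o3 hk))) h)
    (by rw [lm_mm _ _ (by norm_num), ← e, (o3_iso hk).iv_lm (by norm_num)])
  exact ⟨k, hk, l, hl, t, ht, by rw [← f, ← mm_assoc, (o3_iso hk).mm_iv, I8_mm (C.hm_iso h).1]⟩
theorem o3a_dec (hg : g * z = z * g) : ∃ M p, Act z Q c g M ∧ PM p ∧ p < 2 ^ 64 ∧ O3A.E M p := by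
  obtain ⟨M, h⟩ := S.toCo.exists_act hg
  obtain ⟨k, hk, l, hl, t, ht, e⟩ := S.dec1 ⟨g, h⟩
  exact ⟨M, _, h, ⟨l, hl, t, ht, rfl⟩, mm_lt _ _, k, hk, e⟩
theorem o3a_cj {W : ℕ → Prop} (h1 : ∀ k < 81, Nm W (o3 k)) (h2 : ∀ p ∈ (List.range 8).map rt ++ ev1, Nm W p)
    (hW : ∀ N, W N → N < 2 ^ 64) (hg : g * z = z * g) (h : Act z Q c x M) (k : W M) :
    ∃ N, W N ∧ Act z Q c (g * x * g⁻¹) N := by
  obtain ⟨L, p, hL, hp, -, k', hk, rfl⟩ := S.o3a_dec hg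
  exact ⟨_, ((h1 k' hk).mul (hp.nm h2)).cj (S.toCo.iso hL) hW k, S.toCo.act_cj hL h⟩
theorem th_inv (h : Th z Q c x) : Th z Q c x⁻¹ := by
  obtain ⟨h3, j, hj, h⟩ := h
  refine ⟨by rw [inv_pow, h3, inv_one], j, hj, h.symm.imp (fun h => ?_) S.toCo.act_inv⟩
  exact (iso_of (th_spec j hj).1).iv_iv ▸ S.toCo.act_inv h
theorem th_cj (hg : g * z = z * g) (h : Th z Q c x) : Th z Q c (g * x * g⁻¹) := by
  obtain ⟨j, hj, D, hD, hx⟩ := Th.tm h
  obtain ⟨N, ⟨i, hi, e⟩, k⟩ := S.o3a_cj (fun _ => nT1) (fun _ => nT2) (fun N h => by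
    obtain ⟨-, -, e, -, he, rfl⟩ := h.om
    exact (o3_iso he).1) hg hx ⟨j, hj, List.mem_pair.1 hD⟩
  exact ⟨by rw [conj_pow, h.1, mul_one, mul_inv_cancel], i, hi, e.imp (fun e => by rwa [← e]) fun e => by rwa [← e]⟩
theorem o3_cj (hg : g * z = z * g) (h : O3 z Q c x) : O3 z Q c (g * x * g⁻¹) := by
  obtain ⟨a, ha, h⟩ := h
  obtain ⟨_, ⟨b, hb, rfl⟩, k⟩ := S.o3a_cj (fun _ => nO1) (fun _ => nO2)
    (by rintro _ ⟨e, he, rfl⟩; exact (o3_iso he).1) hg h ⟨a, ha, rfl⟩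
  exact ⟨b, hb, k⟩
theorem io_cj (hg : g * z = z * g) (h : Io z Q c x) : Io z Q c (g * x * g⁻¹) := by
  obtain ⟨h2, a, ha, h⟩ := h
  obtain ⟨_, ⟨b, hb, rfl⟩, k⟩ := S.o3a_cj (fun _ => nI1) (fun _ => nI2)
    (by rintro _ ⟨e, he, rfl⟩; exact mm_lt _ _) hg h ⟨a, ha, rfl⟩
  exact ⟨by rw [conj_mul, h2, mul_one, mul_inv_cancel], b, hb, k⟩
theorem th_o3 (h : Th z Q c x) : O3 z Q c x ∧ x ∉ Q := by
  obtain ⟨j, hj, D, hD, hx⟩ := Th.tm h
  obtain ⟨-, -, e, -, he, rfl⟩ := TM.om ⟨j, hj, List.mem_pair.1 hD⟩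
  exact ⟨⟨e, he, hx⟩, fun k => (th_fact j hj _ hD).1 (S.toCo.uniq hx (S.toCo.act_Q k))⟩
theorem o3_mul (h : O3 z Q c x) (k : O3 z Q c y) : O3 z Q c (x * y) :=
  let ⟨a, ha, h⟩ := h; let ⟨b, hb, k⟩ := k; ⟨_, ad_lt a b, o3_mm ha hb ▸ S.toCo.act_mul h k⟩
theorem o3_pow (h : O3 z Q c x) (n : ℕ) : O3 z Q c (x ^ n) := by
  induction n with
  | zero => exact ⟨0, by norm_num, o3_zero ▸ S.toCo.act_Q (pow_zero x ▸ one_mem _)⟩
  | succ n ih => exact pow_succ x n ▸ S.o3_mul ih h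
theorem sq_io (hk : k * z = z * k) (h4 : k ^ 4 = 1) (h : k * k ∉ Q) : Io z Q c (k * k) := by
  have C := S.toCo
  obtain ⟨M, p, hM, hp, -, e⟩ := S.o3a_dec hk
  have k4 : k * k * (k * k) = 1 := by rw [← h4, pow_succ, pow_succ, pow_two, mul_assoc (k * k)]
  have a2 := C.act_mul hM hM
  have n := hp.nm fun _ => nO2
  have e2 := e.mul e n
  have e4 := e2.mul e2 (n.mul n)
  have m4 := C.uniq (C.act_mul a2 a2) (k4 ▸ C.act_Q (one_mem _))
  obtain ⟨p1, p2, -⟩ := hp.spec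
  rw [m4] at e4
  rcases p2 (e4.uniq (.self I8_lt) (one_mm (one_mm p1 p1) (one_mm p1 p1)) (lm_I8 1 (by norm_num)) (mm_lt _ _)
    I8_lt) with f | f <;> rw [f] at e2
  · obtain ⟨a, ha, f⟩ := e2.om
    rw [f, o3_mm ha ha, ← o3_zero] at m4
    rw [f, (ot_spec a ha).2.2.2.1 (o3_inj (ad_lt _ _) (by norm_num) (by rw [m4])), o3_zero] at a2
    exact absurd (C.mem_Q a2) h
  · obtain ⟨a, ha, f⟩ := e2
    exact ⟨k4, a, ha, f ▸ a2⟩
theorem io_comm (ht : Io z Q c t) (hx : O3 z Q c x) (e : t * x = x * t) : x ∈ Q := by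
  have C := S.toCo
  obtain ⟨-, a, ha, ht⟩ := ht
  obtain ⟨b, hb, hx⟩ := hx
  rw [io_can ha hb (C.uniq (C.act_mul ht hx) (e ▸ C.act_mul hx ht)), o3_zero] at hx
  exact C.mem_Q hx
theorem o3a_cube (h : O3 z Q c x) : x ^ 3 ∈ Q := by
  obtain ⟨a, ha, h⟩ := h
  have := S.toCo.act_mul h (S.toCo.act_mul h h)
  rw [o3_mm ha ha, o3_mm ha (ad_lt _ _), (ot_spec a ha).2.2.1, o3_zero, ← pow_three] at this
  exact S.toCo.mem_Q this
theorem of_inv (ht : Io z Q c t) (hr : r * z = z * r) (o : Odd (orderOf r)) (e : t * r * t⁻¹ = r⁻¹) :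
    O3 z Q c r ∧ r ^ 3 = 1 := by
  have C := S.toCo
  obtain ⟨M, p, hM, hp, -, f⟩ := S.o3a_dec hr
  obtain ⟨-, a, ha, ht⟩ := ht
  have n := hp.nm fun _ => nO2
  have et : O3A.E _ io := ⟨a, ha, rfl⟩
  have e3 := f.mul (et.mul f (by rw [io_eq]; exact nO2 (rt_mem (by norm_num)))) n
  have e1 : r * (t * r) = t := by rw [mul_inv_eq_iff_eq_mul.1 e, mul_inv_cancel_left]
  rw [C.uniq (C.act_mul hM (C.act_mul ht hM)) (e1.symm ▸ ht)] at e3
  obtain ⟨p1, -, p3⟩ := hp.spec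
  have i1 : lm io 1 = 1 := by decide +kernel
  have e2 := f.mul f n
  rw [p3 (e3.uniq et (one_mm p1 (one_mm i1 p1)) i1 (mm_lt _ _) (by decide +kernel))] at e2
  obtain ⟨b, hb, e2⟩ := e2.om
  obtain ⟨m, hm⟩ := o
  have h3 : O3 z Q c r := by
    have := S.o3_pow ⟨b, hb, e2 ▸ C.act_mul hM hM⟩ (m + 1)
    rwa [← pow_two, ← pow_mul, show 2 * (m + 1) = orderOf r + 1 by omega, pow_succ, pow_orderOf_eq_one,
      one_mul] at this
  exact ⟨h3, odd_one C (S.o3a_cube h3) ⟨m, hm⟩ (by rw [← pow_mul, mul_comm, pow_mul, pow_orderOf_eq_one, one_pow])⟩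
theorem o3_sq (N : Nr Q z s) (N' : Nr Q z s') (hx : x ∈ Qof Q z s) (xz : x * z = z * x) (hx' : x' ∈ Qof Q z s')
    (xz' : x' * z = z * x') : O3 z Q c ((x * x') ^ 2) := by
  have C := S.toCo
  obtain ⟨M, hM⟩ := C.exists_act xz
  obtain ⟨M', hM'⟩ := C.exists_act xz'
  obtain ⟨k, hk, l, hl, e⟩ := S.dec1L (.step ⟨s, N, rfl, x, hx, hM⟩ (C.lm_of ⟨s', N', rfl, x', hx', hM'⟩))
  have f : O3A.E (mm M M') (re 1 1 l) := ⟨k, hk, e⟩
  have := f.mul f (nO2 (rt_mem hl))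
  rw [re_eq l hl, rt_mul l hl l hl, Nat.xor_self, rt_zero] at this
  obtain ⟨b, hb, e2⟩ := this.om
  exact ⟨b, hb, e2 ▸ pow_two (x * x') ▸ C.act_mul (C.act_mul hM hM') (C.act_mul hM hM')⟩
theorem th_root (hd : Th z Q c d) (hx : x * x = 1) (xz : x * z = z * x) (xd : x * d = d * x) :
    ∃ k ∈ Q, k * x = x * k ∧ k * k = z := by
  have C := S.toCo
  obtain ⟨j, hj, D, hD, ad⟩ := Th.tm hd
  obtain ⟨M, hM⟩ := C.exists_act xz
  obtain ⟨-, -, -, f3, -, f4, f5, -⟩ := th_fact j hj D hD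
  have m2 : lm M (lm M (fx j)) = fx j := by
    rw [← lm_mm _ _ f3, C.uniq (C.act_mul hM hM) (hx ▸ C.act_Q (one_mem _)), lm_I8 _ f3]
  have m1 : lm M (fx j) = fx j := by
    rcases blk_fx C hj hD hM ad xd with e | ⟨e, f, -⟩ | ⟨e, f, -⟩
    · exact e
    · exact absurd (by rw [← cm C hM ad xd f3, ← e, m2]) f
    · exact absurd (by rw [← cm C hM ad xd f3, ← cm C hM ad xd (lm_lt _ _), ← e, m2]) f
  obtain ⟨k, hk, e⟩ := C.surj _ f3
  rw [← e] at m1 f4 f5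
  rcases (C.fix_iff hM hk).1 m1 with f | f
  · exact ⟨k, hk, (mul_inv_eq_iff_eq_mul.1 f).symm, (C.sq' hk).2 f4⟩
  have hk' := C.nrm ad.cz hk
  refine ⟨k * (d * k * d⁻¹), mul_mem hk hk', (mul_inv_eq_iff_eq_mul.1 ?_).symm,
    (C.sq' (mul_mem hk hk')).2 (by rwa [C.mul hk hk', ad.app hk])⟩
  have : x * (d * k * d⁻¹) * x⁻¹ = d * k * d⁻¹ * z := by
    calc _ = (x * d) * k * (x * d)⁻¹ := by group
      _ = d * (x * k * x⁻¹) * d⁻¹ := by rw [xd]; group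
      _ = _ := by rw [f, mul_assoc _ d⁻¹, comm_inv ad.cz]; group
  rw [← conj_mul, f, this, mul_assoc k, ← mul_assoc z, ← C.h.central _ hk', mul_assoc _ z z, C.h.sq, mul_one]
theorem th_nr (hd : Th z Q c d) (N : Nr Q z s) : d * s ≠ s * d ∧ ¬IsConj z (s * (d * s * d⁻¹)) := by
  have C := S.toCo
  obtain ⟨j, hj, D, hD, ad⟩ := Th.tm hd
  have hv := S.X' (by norm_num) _ ⟨s, N, rfl⟩
  obtain ⟨f1, f2⟩ := (th_fact j hj D hD).2.2.2.2.2.2.2.2.1 _ hv.1 hv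
  have h' := C.nrm ad.cz N.sQ
  have e : c (s * (d * s * d⁻¹)) = c s ^^^ lm D (c s) := by rw [C.mul N.sQ h', ad.app N.sQ]
  refine ⟨fun k => f1 (by rw [← ad.app N.sQ, k, mul_inv_cancel_right]), fun k => f2 (S.X' (by norm_num) _
    ⟨_, C.nr k (mul_mem N.sQ h') fun m => f1 ?_, e⟩)⟩
  rw [m, C.c_z] at e
  exact (Nat.xor_eq_zero_iff.1 e.symm).symm
theorem th_cent (hd : Th z Q c d) (rz : r * z = z * r) (rd : r * d = d * r) (o : Odd (orderOf r))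
    (h : ∀ x ∈ Q, x * d = d * x → r * x = x * r) : r ∈ zpowers d := by
  have C := S.toCo
  obtain ⟨j, hj, D, hD, ad⟩ := Th.tm hd
  obtain ⟨M, hM⟩ := C.exists_act rz
  obtain ⟨-, -, -, f3, -, -, -, -, -, f6⟩ := th_fact j hj D hD
  have fx1 : ∀ a < 256, lm D a = a → lm M a = a := fun a ha e => by
    obtain ⟨x, hx, rfl⟩ := C.surj a ha
    rcases (C.fix_iff ad hx).1 e with f | f
    · rw [← hM.app hx, h x hx (mul_inv_eq_iff_eq_mul.1 f).symm, mul_inv_cancel_right]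
    · refine absurd (mul_left_cancel (a := x) ?_) C.h.ne_one
      have f2 : d * (x * z) * d⁻¹ = x := by
        rw [← mul_assoc, mul_assoc _ z, ← comm_inv ad.cz, ← mul_assoc, f, mul_assoc, C.h.sq, mul_one]
      calc x * z = d * (d * (d * x * d⁻¹) * d⁻¹) * d⁻¹ := by rw [f, f2, f]
        _ = d ^ 3 * x * (d ^ 3)⁻¹ := by rw [pow_three]; group
        _ = x * 1 := by rw [hd.1]; group
  have key : ∀ n N, Act z Q c (d ^ n * r) N → (∀ a < 256, lm D a = a → lm N a = a) → lm N (fx j) = fx j →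
      r ∈ zpowers d := fun n N hN k1 k2 => by
    have cr : Commute (d ^ n) r := (Commute.pow_left rd.symm n)
    have k3 : lm N (lm D (fx j)) = lm D (fx j) := by
      rw [cm C hN ad (((Commute.refl d).pow_left n).mul_left rd).eq f3, k2]
    have : N = I8 := ext_lm hN.lt I8_lt fun a ha => by
      obtain ⟨b, hb, e⟩ := f6 a ha
      have k4 : b < 256 ∧ lm N b = b := by
        simp only [List.mem_cons, List.not_mem_nil, or_false] at hb
        rcases hb with rfl | rfl | rfl | rfl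
        exacts [⟨by norm_num, lm_zero _⟩, ⟨f3, k2⟩, ⟨lm_lt _ _, k3⟩, ⟨xor_lt f3 (lm_lt _ _), by rw [lm_xor, k2, k3]⟩]
      rw [lm_I8 a ha, ← Nat.xor_xor_cancel_right a b, lm_xor, k1 _ (xor_lt ha k4.1) e, k4.2]
    have := odd_one C (C.mem_Q (this ▸ hN)) (o.mul (show Odd 3 by decide)) (by
      rw [cr.mul_pow, pow_mul r, pow_orderOf_eq_one, one_pow, mul_one, ← pow_mul, ← mul_assoc, mul_comm, pow_mul,
        hd.1, one_pow])
    rw [eq_inv_of_mul_eq_one_right this]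
    exact inv_mem (pow_mem (mem_zpowers d) n)
  rcases blk_fx C hj hD hM ad rd with e | ⟨-, -, e⟩ | ⟨-, -, e⟩
  · exact key 0 M (by simpa using hM) fx1 e
  · exact key 2 _ (pow_two d ▸ C.act_mul (C.act_mul ad ad) hM) (fun a ha k => by
      rw [lm_mm _ _ ha, fx1 a ha k, lm_mm _ _ ha, k, k]) (by rwa [lm_mm _ _ f3, lm_mm _ _ (lm_lt _ _)])
  · exact key 1 _ ((pow_one d).symm ▸ C.act_mul ad hM) (fun a ha k => by rw [lm_mm _ _ ha, fx1 a ha k, k])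
      (by rwa [lm_mm _ _ f3])
theorem o3_all (A : Subgroup G) (hA : ∀ x ∈ A, O3 z Q c x) (hQ : ∀ x ∈ A, x ∈ Q → x = 1) (h : 81 ≤ Nat.card A)
    (hj : j < 4) : ∃ x ∈ A, Act z Q c x (th j) := by
  choose f hf e using fun x : A => hA x x.2
  have inj : Function.Injective fun x : A => (⟨f x, hf x⟩ : Fin 81) := fun x y k => Subtype.ext (inv_mul_eq_one.1
    (hQ _ (mul_mem (inv_mem x.2) y.2) (S.toCo.div_mem (e x) (by rw [show f x = f y from congrArg Fin.val k]; exact e y))))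
  obtain ⟨x, k⟩ := (inj.bijective_of_nat_card_le (by simpa using h)).2
    ⟨3 ^ j, (Nat.pow_le_pow_right (by norm_num) (Nat.le_of_lt_succ hj)).trans_lt (by norm_num)⟩
  exact ⟨x, x.2, by rw [← (th_spec j hj).2.2.2.2.1, ← show f x = 3 ^ j from congrArg Fin.val k]; exact e x⟩

end Std

end H9.X9
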