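import Cfsg.Agent.Lib.X9.O3A

set_option autoImplicit false
set_option linter.unusedSectionVars false
set_option maxHeartbeats 400000
set_option maxRecDepth 100000
set_option synthInstance.maxSize 2000

namespace H9.X9

open H95 H4.LX Subgroup H9.WC H75.DW Cfsg
open H39.MS (lm)

universe u

variable {G : Type u} [Group G] [Finite G] {z s g r x y d : G} {Q : Subgroup G} {c : G → ℕ} {i n M a e v w : ℕ}

namespace Fr

theorem t_sw : ∀ a < 256, lm io 16 ^^^ 16 ^^^ a < 16 → q0 a = 0 → InX 1 a ∧ (∃ b < 256, b0 b 1 = 1 ∧ b0 b a = 0) ∧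
    ∃ v ∈ [224, 225, 230, 231, 234, 235, 236, 237], InX 1 v ∧ ∃ k < 8,
      lm (re 1 v k) 1 = a ∧ lm (re 1 v k) a = 1 := by decide +kernel
theorem t_perp : ∀ w < 256, (∀ e < 16, b0 e w = 0) → w < 16 := by decide +kernel
theorem t_free : ∀ a < 256, lm io a = a → ∃ b < 256, a = lm io b ^^^ b := by decide +kernel
theorem t_fx : ∀ j < 4, fx j < 256 ∧ mm io (cj (th j) io) = th j ∧
    mm (mm (mm (th j) (th j)) (th j)) (th j) = th j ∧ iv (iv (th j)) = th j ∧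
    q0 (lm (iv (th j)) (fx j) ^^^ fx j) = 1 ∧ ∃ b < 256, lm io b ^^^ b = fx j := by decide +kernel
theorem t_blk : ∀ j < 4, ∀ M ∈ [th j, iv (th j)], ∀ a < 256, lm M a ^^^ lm M (lm M a) ^^^ a = 0 → blk j a := by
  decide +kernel
theorem t_two : ∀ j < 4, ∀ a < 256, blk j a → lm io a = lm (th j) a →
    a = 0 ∨ a = lm (iv (th j)) (fx j) ^^^ fx j := by decide +kernel
theorem t_all : ∀ j < 4, ∀ a < 256, blk j a → a = 0 ∨ a = lm (iv (th j)) (fx j) ^^^ fx j ∨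
    a = lm (th j) (lm (iv (th j)) (fx j) ^^^ fx j) ∨
    a = lm (th j) (lm (th j) (lm (iv (th j)) (fx j) ^^^ fx j)) := by decide +kernel
theorem t_dis : ∀ i < 4, ∀ j < 4, i ≠ j → (∀ a < 256, blk i a → blk j a → a = 0) ∧
    ∀ M ∈ [th i, iv (th i)], ∀ N ∈ [th j, iv (th j)], cj N M = M := by decide +kernel
theorem t_dec : ∀ a < 256, a = (lm (th 0) a ^^^ lm (iv (th 0)) a) ^^^ (lm (th 1) a ^^^ lm (iv (th 1)) a) ^^^
    (lm (th 2) a ^^^ lm (iv (th 2)) a) ^^^ (lm (th 3) a ^^^ lm (iv (th 3)) a) ∧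
    ∀ j < 4, blk j (lm (th j) a ^^^ lm (iv (th j)) a) := by decide +kernel
theorem t_cj : ∀ k < 81, cj (o3 k) (mm (o3 k) io) = io := by decide +kernel

theorem cube (C : Co z Q c) (hx : x * z = z * x) (x3 : x ^ 3 = 1) : (x * z) ^ 3 ≠ 1 := by
  rw [(show Commute x z from hx).mul_pow, x3, one_mul, pow_succ, pow_two, C.h.sq, one_mul]
  exact C.h.ne_one

theorem code (C : Co z Q c) (hx : Act z Q c x M) (x3 : x ^ 3 = 1) (hy : y ∈ Q) (h : (x * y) ^ 3 = 1) :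
    lm M (c y) ^^^ lm M (lm M (c y)) ^^^ c y = 0 := by
  have m1 := C.nrm hx.cz hy
  have m2 := C.nrm hx.cz m1
  rw [← hx.app hy, ← hx.app m1, ← C.mul m1 m2, ← C.mul (mul_mem m1 m2) hy, ← C.c_one, ← h]
  congr 1
  calc _ = x * y * x * y * x * (x ^ 3)⁻¹ * y := by group
    _ = _ := by rw [x3]; simp [pow_succ, mul_assoc]

theorem same (C : Co z Q c) {p q : G} (hx : x * z = z * x) (hp : p ∈ Q) (hq : q ∈ Q) (h1 : (x * p) ^ 3 = 1)
    (h2 : (x * q) ^ 3 = 1) (e : c p = c q) : p = q := by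
  refine ((C.c_eq hp hq).1 e).elim Eq.symm fun e => ?_
  rw [e, ← mul_assoc] at h2
  exact (cube C (comm_mul hx (C.h.central p hp)) h1 h2).elim

theorem comm3 (C : Co z Q c) {i j N : ℕ} (hi : i < 4) (hj : j < 4) (ne : i ≠ j) (hM : M ∈ [th i, iv (th i)])
    (hN : N ∈ [th j, iv (th j)]) (hx : Act z Q c x M) (hy : Act z Q c y N) (x3 : x ^ 3 = 1) (y3 : y ^ 3 = 1) :
    Commute x y := by
  obtain ⟨t1, t2⟩ := t_dis i hi j hj ne
  have m := C.div_mem hx (t2 M hM N hN ▸ C.act_cj hy hx)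
  have e1 : (x * (x⁻¹ * (y * x * y⁻¹))) ^ 3 = 1 := by rw [mul_inv_cancel_left, conj_pow, x3]; group
  have e2 : (y * (x⁻¹ * (y * x * y⁻¹))) ^ 3 = 1 := by
    rw [show y * (x⁻¹ * (y * x * y⁻¹)) = y * x⁻¹ * y * (y * x⁻¹)⁻¹ by group, conj_pow, y3]; group
  have := same C hx.cz m Q.one_mem e1 (by rwa [mul_one]) (C.c_one ▸ t1 _ (C.lt _)
    (t_blk i hi M hM _ (C.lt _) (code C hx x3 m e1)) (t_blk j hj N hN _ (C.lt _) (code C hy y3 m e2)))
  rw [inv_mul_eq_one, eq_mul_inv_iff_mul_eq] at this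
  exact this

theorem exists_swap (S : Std 1 z Q c) :
    ∃ y g, y * y = 1 ∧ Act z Q c y io ∧ g * z * g⁻¹ = y ∧ g * y * g⁻¹ = z := by
  have C := S.toCo
  have hX := (inX_one 1 (by norm_num)).1
  obtain ⟨s, N, hs⟩ := S.X 1 hX
  have hE : ∀ e < 256, ES z Q c (c s) e ↔ e < 16 := fun e he => by
    rw [hs, S.E 1 hX, inE_one 1 (by norm_num) e he]
  obtain ⟨y, hy, y2, ay⟩ := C.exists_inv N (fun w hw k => (hE w hw).2 (t_perp w hw fun e he =>
    k e ((hE e (by omega)).2 he))) (M := io) (by rw [hs]; exact (S.R 1 hX _).2 ⟨7, by norm_num, io_eq⟩)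
  obtain ⟨m, -, m1, m2, m3⟩ := C.pull N (a := 16) (by norm_num) (by rw [hs]; decide +kernel)
  obtain ⟨x1, -, x2⟩ := m3 y hy io ay
  obtain ⟨t1, ⟨b, hb, b1, b2⟩, v, -, hv, k, hk, k1, k2⟩ := t_sw _ (C.lt _) ((hE _ (C.es_lt x2)).1 x2)
    ((C.sq x1).1 (by
      calc _ = m⁻¹ * (y * y) * m := by group
        _ = 1 := by rw [y2]; group))
  have ey : y = m * (m⁻¹ * y * m) * m⁻¹ := by group
  generalize m⁻¹ * y * m = x at x1 t1 b2 k1 k2 ey
  obtain ⟨h0, a0⟩ := (S.sub.rm hv hk).hm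
  obtain ⟨h, a, e⟩ := C.lift a0 N.sQ x1 (C.xs_ne (S.X _ t1)) (hs ▸ k1)
  obtain ⟨h, e, e'⟩ : ∃ h, h * s * h⁻¹ = x ∧ h * x * h⁻¹ = s := by
    rcases (C.c_eq N.sQ (C.nrm a.cz x1)).1 (by rw [a.app x1, k2, hs]) with f | f
    · exact ⟨h, e, f⟩
    · obtain ⟨u, hu, rfl⟩ := C.surj b hb
      refine ⟨u * h, ?_, ?_⟩
      · calc _ = u * (h * s * h⁻¹) * u⁻¹ := by group
          _ = x := by rw [e, (C.comm hu x1).2 b2, mul_inv_cancel_right]
      · calc _ = u * (h * x * h⁻¹) * u⁻¹ := by group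
          _ = u * s * u⁻¹ * (u * z * u⁻¹) := by rw [f]; group
          _ = s := by
            rw [C.conj_z hu N.sQ (hs ▸ b1), C.h.central u hu, mul_inv_cancel_right, mul_assoc, C.h.sq, mul_one]
  refine ⟨y, m * h * m⁻¹, y2, ay, ?_, ?_⟩
  · rw [ey, ← e, ← m2]; group
  · rw [ey, ← m2, ← e']; group

theorem block (S : Std 1 z Q c) (y2 : y * y = 1) (ay : Act z Q c y io) {j : ℕ} (hj : j < 4) :
    ∃ x n, x ^ 3 = 1 ∧ Act z Q c x (th j) ∧ y * x * y⁻¹ = x⁻¹ ∧ n ∈ Q ∧ c n = fx j ∧ n * n = z ∧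
      y * n * y⁻¹ = n⁻¹ := by
  have C := S.toCo
  obtain ⟨-, t1, t2, -, -, b, hb, t3⟩ := t_fx j hj
  obtain ⟨-, t4, -, -, -, -, -, -, -, t5, -⟩ := th_spec j hj
  obtain ⟨u, hu⟩ := C.lm_hm (S.lm_th hj)
  obtain ⟨k, hk, rfl⟩ := C.surj b hb
  have yi : y⁻¹ = y := inv_eq_of_mul_eq_one_right y2
  have a1 := t1 ▸ C.act_mul ay (C.act_cj hu ay)
  have i1 : y * (y * (u * y * u⁻¹)) * y⁻¹ = (y * (u * y * u⁻¹))⁻¹ := by
    simp [mul_assoc, ← mul_assoc y y, y2, yi]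
  generalize y * (u * y * u⁻¹) = p at a1 i1
  have m := mul_mem (C.nrm ay.cz hk) (inv_mem hk)
  have e := (C.c_comm ay hk).trans t3
  refine ⟨p * p * p * p, _, ?_, t2 ▸ C.act_mul (C.act_mul (C.act_mul a1 a1) a1) a1, ?_, m, e,
    (C.sq' m).2 (e ▸ t5), ?_⟩
  · rw [← C.h.pow_four (C.mem_Q (t4 ▸ C.act_mul a1 (C.act_mul a1 a1)))]
    simp only [pow_succ, pow_zero, one_mul, mul_assoc]
  · rw [← conj_mul, ← conj_mul, ← conj_mul, i1]
    group
  · simp [mul_assoc, ← mul_assoc y y, y2, yi]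

end Fr

open Fr

theorem Std.frm (S : Std 1 z Q c) : ∃ y g r n, Frm z Q c y g r n := by
  have C := S.toCo
  obtain ⟨y, g, y2, ay, g1, g2⟩ := exists_swap S
  choose x n x3 xa yx nQ nc nn yn using fun j : Fin 4 => block S y2 ay j.2
  have zz := C.h.sq
  have nz : ∀ j, n j * z = z * n j := fun j => C.h.central _ (nQ j)
  have ni : ∀ j, (n j)⁻¹ = n j * z := fun j => by rw [inv_eq_iff_mul_eq_one, ← mul_assoc, nn, zz]
  have sw : ∀ j, ∀ a, a * z = z * a → (n j)⁻¹ * a * n j = n j * a * (n j)⁻¹ := fun j a ha => by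
    rw [ni, mul_assoc (n j) z, ← ha, ← mul_assoc, mul_assoc _ z, ← nz]
  let r : Fin 4 → Bool → G := fun j e => cond e (x j) (n j * (x j)⁻¹ * (n j)⁻¹)
  have r3 : ∀ j e, r j e ^ 3 = 1 := by
    rintro j (_ | _)
    · simp only [r, cond, conj_pow, inv_pow, x3]; group
    · exact x3 j
  have rb : ∀ j, Act z Q c (r j false) (iv (th j)) := fun j =>
    C.act_mulQ (C.act_Qmul (C.act_inv (xa j)) (nQ j)) (inv_mem (nQ j))
  have ra : ∀ (j : Fin 4) e, ∃ M ∈ [th j, iv (th j)], Act z Q c (r j e) M := by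
    rintro j (_ | _)
    exacts [⟨_, by simp, rb j⟩, ⟨_, by simp, xa j⟩]
  have yr : ∀ j e, y * r j e * y⁻¹ = (r j e)⁻¹ := by
    rintro j (_ | _)
    · simp only [r, cond]
      rw [← conj_mul, ← conj_mul, ← conj_inv, ← conj_inv, yx, yn, inv_inv, inv_inv, sw j _ (xa j).cz]
      group
    · exact yx j
  have qQ : ∀ j, (x j)⁻¹ * n j * (x j)⁻¹⁻¹ * (n j)⁻¹ ∈ Q := fun j =>
    mul_mem (C.nrm (comm_inv (xa j).cz) (nQ j)) (inv_mem (nQ j))
  have qc : ∀ j, c ((x j)⁻¹ * n j * (x j)⁻¹⁻¹ * (n j)⁻¹) = lm (iv (th j)) (fx j) ^^^ fx j := fun j => by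
    rw [C.c_comm (C.act_inv (xa j)) (nQ j), nc]
  have xK : ∀ j, x j ∈ closure {r j true, r j false} := fun j => subset_closure (by simp [r])
  have qK : ∀ j, (x j)⁻¹ * n j * (x j)⁻¹⁻¹ * (n j)⁻¹ ∈ closure {r j true, r j false} := fun j => by
    have : r j false ∈ closure {r j true, r j false} := subset_closure (by simp)
    convert mul_mem (inv_mem (xK j)) (inv_mem this) using 1
    simp only [r, cond]
    group
  have zm : ∀ j, z ∈ closure {r j true, r j false} := fun j =>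
    (C.sq' (qQ j)).2 (qc j ▸ (t_fx j j.2).2.2.2.2.1) ▸ mul_mem (qK j) (qK j)
  have cK : ∀ {K : Subgroup G} {a b}, z ∈ K → a ∈ Q → b ∈ Q → c a = c b → a ∈ K → b ∈ K :=
    fun hz ha hb e k => ((C.c_eq ha hb).1 e).elim (· ▸ k) (· ▸ mul_mem k hz)
  have bK : ∀ j : Fin 4, ∀ a ∈ Q, blk j (c a) → a ∈ closure {r j true, r j false} := fun j a ha k => by
    have m1 := C.nrm (xa j).cz (qQ j)
    have k1 := mul_mem (mul_mem (xK j) (qK j)) (inv_mem (xK j))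
    rcases t_all j j.2 _ (C.lt _) k with e | e | e | e
    · exact cK (zm j) Q.one_mem ha (C.c_one.trans e.symm) (one_mem _)
    · exact cK (zm j) (qQ j) ha ((qc j).trans e.symm) (qK j)
    · exact cK (zm j) m1 ha (by rw [(xa j).app (qQ j), qc, e]) k1
    · exact cK (zm j) (C.nrm (xa j).cz m1) ha (by rw [(xa j).app m1, (xa j).app (qQ j), qc, e])
        (mul_mem (mul_mem (xK j) k1) (inv_mem (xK j)))
  have le : ∀ j, closure {r j true, r j false} ≤ closure (Set.range fun p : Fin 4 × Bool => r p.1 p.2) := fun j =>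
    closure_mono (by rintro _ (rfl | rfl); exacts [⟨(j, true), rfl⟩, ⟨(j, false), rfl⟩])
  have Qle : Q ≤ closure (Set.range fun p : Fin 4 × Bool => r p.1 p.2) := fun a ha => by
    obtain ⟨e, k⟩ := t_dec _ (C.lt a)
    choose b hb eb using fun j : Fin 4 => C.surj _ (xor_lt (lm_lt (th j) (c a)) (lm_lt (iv (th j)) (c a)))
    have m := fun j => le j (bK j _ (hb j) (eb j ▸ k j j.2))
    refine cK (le 0 (zm 0)) (mul_mem (mul_mem (mul_mem (hb 0) (hb 1)) (hb 2)) (hb 3)) ha ?_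
      (mul_mem (mul_mem (mul_mem (m 0) (m 1)) (m 2)) (m 3))
    rw [C.mul (mul_mem (mul_mem (hb 0) (hb 1)) (hb 2)) (hb 3), C.mul (mul_mem (hb 0) (hb 1)) (hb 2),
      C.mul (hb 0) (hb 1), eb, eb, eb, eb]
    exact e.symm
  have ny : ∀ j, n j * y * (n j)⁻¹ = y * z := fun j => by
    calc _ = y * (y⁻¹ * n j * y⁻¹⁻¹) * (n j)⁻¹ := by group
      _ = y * (n j * n j)⁻¹ := by rw [inv_eq_of_mul_eq_one_right y2, yn]; group
      _ = _ := by rw [nn, C.h.inv_eq]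
  have one : ∀ j : Fin 4, ∀ a, a ^ 3 = 1 → Act z Q c a (th j) → y * a * y⁻¹ = a⁻¹ → a = r j true ∨ a = (r j false)⁻¹ :=
    fun j a a3 aa ya => by
    have m := C.div_mem (xa j) aa
    have e1 : (x j * ((x j)⁻¹ * a)) ^ 3 = 1 := by rwa [mul_inv_cancel_left]
    rcases t_two j j.2 _ (C.lt _) (t_blk j j.2 _ (by simp) _ (C.lt _) (code C (xa j) (x3 j) m e1)) (by
      rw [← ay.app m, ← (xa j).app m, ← C.c_inv (C.nrm (xa j).cz m), ← conj_mul, ← conj_inv, yx, ya]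
      congr 1
      group) with e | e
    · exact .inl (inv_mul_eq_one.1 (same C (xa j).cz m Q.one_mem e1 (by rw [mul_one, x3]) (C.c_one ▸ e))).symm
    · have := same C (xa j).cz m (qQ j) e1 (by
        rw [show x j * ((x j)⁻¹ * n j * (x j)⁻¹⁻¹ * (n j)⁻¹) = n j * x j * (n j)⁻¹ by group, conj_pow, x3]
        group) (qc j ▸ e)
      right
      simp only [r, cond]
      rw [inv_mul_eq_iff_eq_mul.1 this]
      group
  refine ⟨y, g, r, n, y2, ay, g1, g2, r3, xa, rb, yr, ?_, fun i j e f ne => ?_, zm, fun j => C.h.pow_four ?_, nQ, nc,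
    fun j => bK j _ (nQ j) (nc j ▸ (th_spec j j.2).2.2.2.2.2.2.2.1), ny, ?_, Qle, ?_⟩
  · rintro a ⟨a3, j, hj, k | k⟩ ya
    · exact (one ⟨j, hj⟩ a a3 k ya).elim (fun e => ⟨_, _, .inl e⟩) fun e => ⟨_, _, .inr e⟩
    · have := one ⟨j, hj⟩ a⁻¹ (by rw [inv_pow, a3, inv_one]) ((t_fx j hj).2.2.2.1 ▸ C.act_inv k)
        (by rw [← conj_inv, ya])
      exact this.elim (fun e => ⟨_, _, .inr (inv_eq_iff_eq_inv.1 e)⟩) fun e => ⟨_, _, .inl (inv_injective e)⟩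
  · obtain ⟨M, hM, a⟩ := ra i e
    obtain ⟨N, hN, b⟩ := ra j f
    exact comm3 C i.2 j.2 (Fin.val_ne_of_ne ne) hM hN a b (r3 _ _) (r3 _ _)
  · simpa only [r, cond, mul_assoc] using mul_mem (C.nrm (xa j).cz (nQ j)) (inv_mem (nQ j))
  · rintro j (_ | _)
    · simp only [r, cond, Bool.not_false]
      calc _ = n j * n j * (x j)⁻¹ * (n j * n j)⁻¹ := by group
        _ = _ := by rw [nn, ← comm_inv (xa j).cz, mul_inv_cancel_right]
    · simp only [r, cond, Bool.not_true]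
      group
  · rintro t ⟨t2, k, hk, a⟩
    have pw : ∀ j : Fin 4, ∀ e, ∃ p ∈ closure (Set.range fun p : Fin 4 × Bool => r p.1 p.2),
        Act z Q c p (p3 (th j) e) := fun j e => by
      have m := le j (xK j)
      unfold p3
      cases Nat.beq e 0 <;> cases Nat.beq e 1
      exacts [⟨_, mul_mem m m, C.act_mul (xa j) (xa j)⟩, ⟨_, m, xa j⟩, ⟨1, one_mem _, C.act_Q Q.one_mem⟩,
        ⟨1, one_mem _, C.act_Q Q.one_mem⟩]
    obtain ⟨p0, m0, a0⟩ := pw 0 (k % 3)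
    obtain ⟨p1, m1, a1⟩ := pw 1 (k / 3 % 3)
    obtain ⟨p2, m2, a2⟩ := pw 2 (k / 9 % 3)
    obtain ⟨p3, m3, a3⟩ := pw 3 (k / 27 % 3)
    have ap : Act z Q c _ (o3 k) := C.act_mul a0 (C.act_mul a1 (C.act_mul a2 a3))
    have mp := mul_mem m0 (mul_mem m1 (mul_mem m2 m3))
    generalize p0 * (p1 * (p2 * p3)) = p at ap mp
    obtain ⟨u, hu, e⟩ := C.inv_conj ay (t_cj k hk ▸ C.act_cj ap a) y2 (by rw [conj_mul, t2]; group) t_free
    rcases e with e | e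
    · exact ⟨p⁻¹ * u, mul_mem (inv_mem mp) (Qle hu), by
        rw [mul_inv_eq_iff_eq_mul, ← eq_inv_mul_iff_mul_eq] at e
        rw [e]; group⟩
    · exact ⟨p⁻¹ * u * n 0, mul_mem (mul_mem (inv_mem mp) (Qle hu)) (Qle (nQ 0)), by
        rw [mul_inv_eq_iff_eq_mul, ← eq_inv_mul_iff_mul_eq, ← ny 0] at e
        rw [e]; group⟩

end H9.X9
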