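import Cfsg.Agent.Lib.DW.Grp
import Cfsg.Agent.Lib.W3.A8b
import Cfsg.Agent.Lib.MonType.OddCent

/-!
The minus type cannot occur: the centralizer of an element of order three gives a configuration of order `2⁷`.
-/

set_option autoImplicit false
set_option linter.unusedSectionVars false
set_option maxHeartbeats 400000

namespace H9.X9

open Module H95 H4.LX QuadraticMap Subgroup H9.WC H9.WN H75.DW Cfsg

universe u

namespace Om2

section lin

variable {V : Type*} [AddCommGroup V] [Module (ZMod 2) V] {K : Type*} [Group K]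
  {σ : K →* Module.End (ZMod 2) V} {q : QuadraticForm (ZMod 2) V} {n : ℕ} {a b : V}

theorem dec (ab : polar q a b = 1) (x : V) : ∃ y, polar q a y = 0 ∧ polar q b y = 0 ∧
    x = y + polar q b x • a + polar q a x • b := by
  refine ⟨x + polar q a x • b + polar q b x • a, ?_, ?_, by rw [abb, abb]⟩
  · rw [polar_add_right, polar_add_right, polar_smul_right, polar_smul_right, ab, polar_same, smul_zero,
      add_zero, smul_eq_mul, mul_one, zmod2_add_self]
  · rw [polar_add_right, polar_add_right, polar_smul_right, polar_smul_right, polar_same, smul_zero,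
      add_zero, polar_comm _ b a, ab, smul_eq_mul, mul_one, zmod2_add_self]

theorem one_of (F : Fm σ q n) (ab : polar q a b = 1) {k : K}
    (h : ∀ x, polar q a x = 0 → polar q b x = 0 → σ k x = x) (ha : σ k a = a) (hb : σ k b = b) : k = 1 :=
  F.faith k fun x => by
    obtain ⟨y, h1, h2, e⟩ := dec ab x
    rw [e, map_add, map_add, map_smul, map_smul, h y h1 h2, ha, hb]

theorem perp_of (F : Fm σ q n) {t : K} (ha : σ t a = b) (hb : σ t b = a + b) {x : V} (hx : σ t x = x) :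
    polar q a x = 0 ∧ polar q b x = 0 := by
  have h1 := F.polar t a x
  have h2 := F.polar t b x
  rw [hx] at h1 h2
  rw [ha] at h1
  rw [hb, polar_add_left, add_eq_right] at h2
  exact ⟨h2, h1.trans h2⟩

theorem mv (F : Fm σ q n) (ab : polar q a b = 1) {k : K}
    (h : ∀ x, polar q a x = 0 → polar q b x = 0 → σ k x = x) :
    σ k a = a ∨ σ k a = b ∨ σ k a = a + b := by
  obtain ⟨y, h1, h2, e⟩ := dec ab (σ k a)
  have y0 : y = 0 := F.toSp.zero_of fun w => by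
    obtain ⟨w', g1, g2, e'⟩ := dec ab w
    have k1 := F.polar k a w'
    rw [h w' g1 g2, g1, e, polar_add_left, polar_add_left, polar_smul_left, polar_smul_left, g1, g2, smul_zero,
      smul_zero, add_zero, add_zero] at k1
    rw [e', polar_add_right, polar_add_right, polar_smul_right, polar_smul_right, k1, polar_comm _ y a,
      polar_comm _ y b, h1, h2, smul_zero, smul_zero, add_zero, add_zero]
  have a0 : σ k a ≠ 0 := fun e0 => by
    have := F.polar k a b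
    rw [e0, polar_zero_left, ab] at this
    exact zero_ne_one this
  rw [y0, zero_add] at e
  rcases zmod2_cases (polar q b (σ k a)) with c | c <;> rcases zmod2_cases (polar q a (σ k a)) with d | d <;>
    rw [c, d] at e <;> simp only [zero_smul, one_smul, add_zero, zero_add] at e
  exacts [absurd e a0, Or.inr (Or.inl e), Or.inl e, Or.inr (Or.inr e)]

theorem ex_t (F : Fm σ q 4) (hE : ∀ v u, q v = 0 → v ≠ 0 → polar q v u = 0 → ∃ k, Ei σ q v u k)
    (qa : q a = 1) (qb : q b = 1) (ab : polar q a b = 1) {w : V} (w0 : w ≠ 0) (qw : q w = 0) :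
    ∃ t : K, (∀ x, polar q a x = 0 → polar q b x = 0 → σ t x = x) ∧ σ t a = b ∧ σ t b = a + b := by
  have := F.fin
  have nd : H12.Nondeg q := H12.nondeg_iff.2 F.nd
  let S : Subgroup (H12.O q) :=
    { carrier := {g | ∃ k, ∀ x, σ k x = g.1 x}
      mul_mem' := by
        rintro g g' ⟨k, hk⟩ ⟨k', hk'⟩
        exact ⟨k * k', fun x => by rw [map_mul, Module.End.mul_apply, hk', hk, H12.O.mul_apply]⟩
      one_mem' := ⟨1, fun x => by rw [map_one]; rfl⟩
      inv_mem' := by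
        rintro g ⟨k, hk⟩
        refine ⟨k⁻¹, fun x => ?_⟩
        rw [eq_comm, H12.O.inv_apply_eq_iff, ← hk, ← Module.End.mul_apply, ← map_mul, mul_inv_cancel, map_one]
        rfl }
  obtain ⟨f, hf⟩ := nd.exists_hyp w0 qw
  have hO : H12.Om q ≤ S := hf.Om_le_of_eich nd (H12.good_of_finrank_ne nd (by rw [F.dim]; decide))
    (by rw [F.dim]; decide) fun v u => by
      by_cases c : q v = 0 ∧ polar q v u = 0
      · by_cases v0 : v = 0
        · rw [v0, H12.eich_zero_left]; exact S.one_mem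
        obtain ⟨k, -, hk⟩ := hE v u c.1 v0 c.2
        refine ⟨k, fun x => ?_⟩
        rw [hk, H75.W3.eA c.1 c.2, polar_comm _ v x, polar_comm _ u x, add_right_comm]
      · rw [H12.eich_of_not c]; exact S.one_mem
  obtain ⟨t, ht⟩ := hO (H12.refl_mul_refl_mem_Om nd (v := b) (w := a) (t := 1) (by rw [qb]; decide) one_ne_zero
    (by rw [qa, qb]; decide))
  have r1 : ∀ {c : V}, q c = 1 → ∀ x, (H12.refl q c).1 x = x + polar q x c • c := fun {c} hc x => by
    rw [H12.refl_apply, hc, inv_one, one_mul, sub_eq_add_neg, vec2_neg]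
  refine ⟨t, fun x h1 h2 => ?_, ?_, ?_⟩
  · rw [ht, H12.O.mul_apply, H12.refl_apply_of_orth ((polar_comm _ x b).trans h2),
      H12.refl_apply_of_orth ((polar_comm _ x a).trans h1)]
  · rw [ht, H12.O.mul_apply, r1 qb, ab, one_smul, r1 qa, polar_add_left, polar_same, polar_comm _ b a, ab,
      zero_add, one_smul, aba]
  · rw [ht, H12.O.mul_apply, r1 qb, polar_same, zero_smul, add_zero, r1 qa, polar_comm _ b a, ab, one_smul,
      add_comm]

end lin

variable {G : Type u} [Group G] [Finite G] {z : G} {Q : Subgroup G} {V : Type u} [AddCommGroup V]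
  [Module (ZMod 2) V] {K : Type*} [Group K] {n : ℕ}

theorem lift3 (C : H9.WN.Cx Q z n V K) (h : L3 Q z) {θ : G} (θz : θ * z = z * θ) (θ3 : θ ^ 3 = 1) {k : K}
    (hk : C.μ θ * k = k * C.μ θ) : ∃ c, c * z = z * c ∧ θ * c = c * θ ∧ C.μ c = k := by
  classical
  obtain ⟨g, gz, rfl⟩ := C.μ_surj k
  let S := {c : G // c * z = z * c ∧ C.μ c = C.μ g}
  let f : S → S := fun c => ⟨θ * c * θ⁻¹, comm_mul (comm_mul θz c.2.1) (comm_inv θz), by
    rw [C.μ_conj θz c.2.1, c.2.2, hk, mul_inv_cancel_right]⟩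
  have f3 : ∀ c, f (f (f c)) = c := fun c => Subtype.ext (by
    change θ * (θ * (θ * c * θ⁻¹) * θ⁻¹) * θ⁻¹ = c
    rw [show θ * (θ * (θ * c * θ⁻¹) * θ⁻¹) * θ⁻¹ = θ ^ 3 * c * (θ ^ 3)⁻¹ by rw [pow_three]; group, θ3]
    simp)
  let p : Equiv.Perm S := ⟨f, fun c => f (f c), f3, f3⟩
  have := Fintype.ofFinite S
  have c : Fintype.card S = 2 ^ (2 * n + 1) := by
    rw [← Nat.card_eq_fintype_card, ← C.card_Q h]
    exact Nat.card_congr
      { toFun := fun c => ⟨g⁻¹ * c, (C.μ_eq gz c.2.1).1 c.2.2.symm⟩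
        invFun := fun x => ⟨g * x, comm_mul gz (h.central _ x.2), by
          rw [C.μ_mul _ _ gz (h.central _ x.2), C.μ_Q h x.2, mul_one]⟩
        left_inv := fun c => Subtype.ext (mul_inv_cancel_left _ _)
        right_inv := fun x => Subtype.ext (inv_mul_cancel_left _ _) }
  have : Fact (Nat.Prime 3) := ⟨by decide⟩
  obtain ⟨t, ht⟩ := Equiv.Perm.exists_fixed_point_of_prime (p := 3) (n := 1)
    (by rw [c]; exact fun d => by have := Nat.Prime.dvd_of_dvd_pow (by decide) d; omega) (σ := p)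
    (Equiv.ext fun x => f3 x)
  exact ⟨t, t.2.1, mul_inv_eq_iff_eq_mul.1 (congrArg Subtype.val ht), t.2.2⟩

theorem comm_of (C : H9.WN.Cx Q z n V K) (h : L3 Q z) {θ x : G} (θz : θ * z = z * θ) (θ3 : θ ^ 3 = 1)
    (hx : x ∈ Q) : C.σ (C.μ θ) (C.π x) = C.π x ↔ θ * x = x * θ := by
  rw [C.fix_iff h θz hx]
  refine (or_iff_left fun e => ?_).trans mul_inv_eq_iff_eq_mul
  have e2 : θ * (x * z) * θ⁻¹ = x := by
    rw [← mul_assoc, mul_assoc _ z, ← comm_inv θz, ← mul_assoc, e, mul_assoc, h.sq, mul_one]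
  have : θ ^ 3 * x * (θ ^ 3)⁻¹ = x * z := by
    rw [show θ ^ 3 * x * (θ ^ 3)⁻¹ = θ * (θ * (θ * x * θ⁻¹) * θ⁻¹) * θ⁻¹ by rw [pow_three]; group, e, e2, e]
  rw [θ3, one_mul, inv_one, mul_one] at this
  exact h.ne_one (left_eq_mul.1 this)

/-- the transfer to a group with a homomorphism which is injective on `Q₀` -/
theorem transfer (C : H9.WN.Cx Q z n V K) {D : Subgroup G} {G' : Type u} [Group G'] [Finite G'] (m : D →* G')
    (zD : z ∈ D) (h : L3 Q z) (inj : ∀ x y : D, (x : G) ∈ Q → (y : G) ∈ Q → m x = m y → x = y)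
    (h' : L3 (((Q ⊓ D).subgroupOf D).map m) (m ⟨z, zD⟩)) (hc : Nat.card (Q ⊓ D : Subgroup G) = 128)
    (hE : ∀ s ∈ Q ⊓ D, ∀ t ∈ Q ⊓ D, C.q (C.π s) = 0 → C.π s ≠ 0 → polar C.q (C.π s) (C.π t) = 0 →
      ∃ c ∈ D, c * z = z * c ∧ Ei C.σ C.q (C.π s) (C.π t) (C.μ c))
    {W : Submodule (ZMod 2) V} (ts : ∀ x ∈ W, C.q x = 0) (h3 : finrank (ZMod 2) W = 3)
    (hW : ∀ w ∈ W, ∃ x ∈ Q ⊓ D, C.π x = w) {s : D} (sQ : (s : G) ∈ Q) (sz : (s : G) ≠ z) {k : D}
    (hk : k * ⟨z, zD⟩ * k⁻¹ = s) : False := by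
  classical
  have := C.form.fin
  set Q' := ((Q ⊓ D).subgroupOf D).map m with hQ'
  have mem : ∀ x : D, (x : G) ∈ Q → m x ∈ Q' := fun x hx => ⟨x, ⟨hx, x.2⟩, rfl⟩
  have sur : ∀ y ∈ Q', ∃ x : D, (x : G) ∈ Q ∧ m x = y := fun y ⟨x, hx, e⟩ => ⟨x, hx.1, e⟩
  have hc' : Nat.card Q' = 128 := by
    rw [← hc]
    refine (Nat.card_congr (Equiv.ofBijective (fun x : (Q ⊓ D : Subgroup G) =>
      (⟨m ⟨x, x.2.2⟩, mem _ x.2.1⟩ : Q')) ⟨fun x y e => ?_, fun y => ?_⟩)).symm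
    · exact Subtype.ext (congrArg (fun t : D => (t : G)) (inj ⟨x, x.2.2⟩ ⟨y, y.2.2⟩ x.2.1 y.2.1
        (congrArg Subtype.val e)))
    · obtain ⟨x, hx, e⟩ := sur y y.2
      exact ⟨⟨x, hx, x.2⟩, Subtype.ext e⟩
  obtain ⟨V', _, _, _, ⟨C'⟩⟩ := H75.W3.exists_cx h' hc'
  have eqv : ∀ x y : D, (x : G) ∈ Q → (y : G) ∈ Q → (C'.π (m x) = C'.π (m y) ↔ C.π x = C.π y) :=
    fun x y hx hy => by
      rw [C'.π_eq _ (mem x hx) _ (mem y hy), C.π_eq _ hx _ hy, ← map_mul]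
      refine or_congr ⟨fun e => congrArg Subtype.val (inj _ _ hy hx e), fun e => congrArg m (Subtype.ext e)⟩
        ⟨fun e => congrArg Subtype.val (inj _ _ hy (mul_mem hx h.mem) e), fun e => congrArg m (Subtype.ext e)⟩
  have sur' : ∀ v : V', ∃ x : D, (x : G) ∈ Q ∧ C'.π (m x) = v := fun v => by
    obtain ⟨y, hy, rfl⟩ := C'.π_surj v
    obtain ⟨x, hx, rfl⟩ := sur y hy
    exact ⟨x, hx, rfl⟩
  choose l lQ hl using sur'
  have hφ0 : ∀ x : D, (x : G) ∈ Q → C.π (l (C'.π (m x))) = C.π x := fun x hx => (eqv _ _ (lQ _) hx).1 (hl _)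
  let φ0 : V' →+ V := AddMonoidHom.mk' (fun v => C.π (l v)) fun v w => by
    rw [← C.π_mul _ (lQ v) _ (lQ w), ← coe_mul, ← hφ0 (l v * l w) (mul_mem (lQ v) (lQ w)), map_mul,
      C'.π_mul _ (mem _ (lQ v)) _ (mem _ (lQ w)), hl, hl]
  let φ : V' →ₗ[ZMod 2] V := φ0.toZModLinearMap 2
  have hφ : ∀ x : D, (x : G) ∈ Q → φ (C'.π (m x)) = C.π x := hφ0
  have φi : Function.Injective φ := fun v w e => by
    rw [← hl v, ← hl w]
    exact (eqv _ _ (lQ v) (lQ w)).2 e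
  have z2 : ∀ {a b : ZMod 2}, (a = 0 ↔ b = 0) → a = b := by decide
  have φq : ∀ v, C.q (φ v) = C'.q v := fun v => by
    rw [← hl v, hφ _ (lQ v)]
    refine z2 ?_
    rw [C.q_π _ (lQ v), C'.q_π _ (mem _ (lQ v)), ← map_mul]
    exact ⟨fun e => by rw [← map_one m]; exact congrArg m (Subtype.ext e), fun e =>
      congrArg Subtype.val (inj _ 1 (mul_mem (lQ v) (lQ v)) Q.one_mem (e.trans (map_one m).symm))⟩
  have φb : ∀ v w, polar C.q (φ v) (φ w) = polar C'.q v w := fun v w => by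
    rw [polar_eq, polar_eq, ← map_add φ, φq, φq, φq]
  obtain ⟨w, hw, w0⟩ := exists_ne_zero (B := W) (by omega)
  have rg : W ≤ LinearMap.range φ := fun w hw => by
    obtain ⟨x, hx, rfl⟩ := hW w hw
    exact ⟨_, hφ ⟨x, hx.2⟩ hx.1⟩
  obtain ⟨w', rfl⟩ := rg hw
  obtain ⟨f, hf⟩ := C'.nd.exists_hyp (u := w') (fun e => w0 (by rw [e, map_zero])) (by rw [← φq]; exact ts _ hw)
  refine C'.not_plus (W := W.comap φ) (s₀ := m s) (hf.Om_le_of_eich C'.nd
    (H12.good_of_finrank_ne C'.nd (by rw [C'.h6]; decide)) (by rw [C'.h6]; decide) fun v u => ?_)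
    ⟨h', hc', isConj_iff.2 ⟨m k, by rw [← map_inv, ← map_mul, ← map_mul, hk]⟩, mem s sQ,
      fun e => sz (congrArg Subtype.val (inj _ _ sQ h.mem e))⟩ (fun x hx => by rw [← φq]; exact ts _ hx) ?_
  · by_cases c : C'.q v = 0 ∧ polar C'.q v u = 0
    · by_cases v0 : v = 0
      · rw [v0, H12.eich_zero_left]; exact Subgroup.one_mem _
      obtain ⟨g, gD, gz, -, hg⟩ := hE (l v) ⟨lQ v, (l v).2⟩ (l u) ⟨lQ u, (l u).2⟩ ((φq v).trans c.1)
        (fun e => v0 (φi (e.trans (map_zero φ).symm))) ((φb v u).trans c.2)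
      have gz' : m ⟨g, gD⟩ * m ⟨z, zD⟩ = m ⟨z, zD⟩ * m ⟨g, gD⟩ := by
        rw [← map_mul, ← map_mul]; exact congrArg m (Subtype.ext gz)
      refine ⟨m ⟨g, gD⟩, gz', H12.O.ext fun x => φi ?_⟩
      have e1 : φ ((C'.ρ (m ⟨g, gD⟩)).1 x) = C.σ (C.μ g) (φ x) := by
        rw [← hl x, C'.act _ gz' _ (mem _ (lQ x)), ← map_inv, ← map_mul, ← map_mul,
          hφ _ (conj_mem_of_normalizer (h.norm g gz) (lQ x)), hφ _ (lQ x), C.act g gz _ (lQ x)]
        rfl
      rw [e1, hg, H75.W3.eA c.1 c.2, map_add, map_add, map_smul, map_smul, ← φb, ← φb, ← φq, add_right_comm,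
        polar_comm _ (φ x), polar_comm _ (φ x)]
      rfl
    · rw [H12.eich_of_not c]; exact Subgroup.one_mem _
  · rw [← h3, LinearEquiv.finrank_eq (Submodule.equivMapOfInjective φ φi (W.comap φ)),
      Submodule.map_comap_eq_of_le rg]

end Om2

variable {G : Type u} [Group G] [Finite G] {z : G} {Q : Subgroup G} {V : Type u} [AddCommGroup V]
  [Module (ZMod 2) V] {K : Type*} [Group K]

open Om2 in
theorem om2 (C : H9.WN.Cx Q z 4 V K) (h : L3 Q z) (hX : ∀ v, C.q v = 0 → v ≠ 0 → v ∈ cX C)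
    (hE : ∀ v u, C.q v = 0 → v ≠ 0 → polar C.q v u = 0 → ∃ k, Ei C.σ C.q v u k)
    {a b : V} (qa : C.q a = 1) (qb : C.q b = 1) (ab : polar C.q a b = 1) {W : Submodule (ZMod 2) V}
    (ts : ∀ x ∈ W, C.q x = 0) (h3 : finrank (ZMod 2) W = 3) (Wa : ∀ x ∈ W, polar C.q a x = 0)
    (Wb : ∀ x ∈ W, polar C.q b x = 0) : False := by
  have F := C.form
  have := F.fin
  obtain ⟨w, hw, w0⟩ := exists_ne_zero (B := W) (by omega)
  obtain ⟨t, t1, t2, t3⟩ := ex_t F hE qa qb ab w0 (ts w hw)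
  have tt : ∀ x, C.σ (t * t) x = C.σ t (C.σ t x) := fun x => by rw [map_mul]; rfl
  have ttt : t ^ 3 = 1 := by
    have e : ∀ x, C.σ (t ^ 3) x = C.σ t (C.σ t (C.σ t x)) := fun x => by rw [pow_three, map_mul, map_mul]; rfl
    refine one_of F ab (fun x h1 h2 => by rw [e, t1 x h1 h2, t1 x h1 h2, t1 x h1 h2]) ?_ ?_
    · rw [e, t2, t3, map_add, t2, t3, add_comm b, abb]
    · rw [e, t3, map_add, t2, t3, add_comm b, abb, t2]
  obtain ⟨θ, θz, θ3, hθ⟩ : ∃ θ : G, θ * z = z * θ ∧ θ ^ 3 = 1 ∧ C.μ θ = t := by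
    obtain ⟨g, gz, rfl⟩ := C.μ_surj t
    refine ⟨g ^ 4, (Commute.pow_left gz 4).eq, ?_, by rw [C.μ_pow gz, pow_succ, ttt, one_mul]⟩
    rw [← pow_mul, mul_comm, pow_mul]
    exact h.pow_four ((C.μ_one _ (Commute.pow_left gz 3).eq).1 (by rw [C.μ_pow gz, ttt]))
  subst hθ
  set B := zpowers θ with hB
  have hD : ∀ x, x ∈ centralizer (B : Set G) ↔ θ * x = x * θ := fun x => by
    rw [hB, zpowers_eq_closure, centralizer_closure, mem_centralizer_iff]
    simp
  have odd : Odd (Nat.card B) := by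
    rw [hB, Nat.card_zpowers]
    exact Odd.of_dvd_nat (by decide : Odd 3) (orderOf_dvd_of_pow_eq_one θ3)
  have zD := (hD z).2 θz
  have BD : B ≤ centralizer (B : Set G) := by
    rw [hB, zpowers_le]; exact (hD θ).2 rfl
  have nB : (B.subgroupOf (centralizer (B : Set G))).Normal := ⟨fun x hx g => by
    rw [mem_subgroupOf, coe_mul, coe_mul, ← mem_centralizer_iff.1 g.2 (x : G) hx, coe_inv, mul_inv_cancel_right]
    exact hx⟩
  have mD : ∀ x ∈ Q, x ∈ centralizer (B : Set G) ↔ polar C.q a (C.π x) = 0 ∧ polar C.q b (C.π x) = 0 :=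
    fun x hx => by
      rw [hD, ← comm_of C h θz θ3 hx]
      exact ⟨perp_of F t2 t3, fun k => t1 _ k.1 k.2⟩
  have lf : ∀ v, polar C.q a v = 0 → polar C.q b v = 0 → ∃ x ∈ Q ⊓ centralizer (B : Set G), C.π x = v :=
    fun v h1 h2 => by
      obtain ⟨x, hx, rfl⟩ := C.π_surj v
      exact ⟨x, ⟨hx, (mD x hx).2 ⟨h1, h2⟩⟩, rfl⟩
  obtain ⟨s, N, rfl⟩ := hX w (ts w hw) w0
  have sD := (mD s N.sQ).2 ⟨Wa _ hw, Wb _ hw⟩
  have hR : ES (Q ⊓ centralizer (B : Set G)) z :=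
    (h.toES.cent_odd (A := B) (fun b hb => h.norm b (mem_centralizer_iff.1 zD b hb)) odd).resolve_left fun e =>
      (h.toES.mem_zpowers.1 (e.le (mem_inf.2 ⟨N.sQ, sD⟩))).elim N.p.h'.ne_one N.ne
  obtain ⟨k, kD, hk⟩ := N.p.exists_conj_odd odd zD sD
  have h' := h.quot_odd odd zD hR (fun c cD hc => by
    have cz := (hc z ⟨h.mem, zD⟩).symm
    have c1 : ∀ x, polar C.q a x = 0 → polar C.q b x = 0 → C.σ (C.μ c) x = x := fun x h1 h2 => by
      obtain ⟨y, hy, rfl⟩ := lf x h1 h2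
      rw [C.act c cz y hy.1, ← hc y hy, mul_inv_cancel_right]
    have c2 : ∀ x, C.σ (C.μ c) (C.σ (C.μ θ) x) = C.σ (C.μ θ) (C.σ (C.μ c) x) := fun x => by
      rw [← Module.End.mul_apply, ← map_mul, ← C.μ_mul _ _ cz θz, ← (hD c).1 cD, C.μ_mul _ _ θz cz, map_mul]
      rfl
    have key : ∀ u ∈ B, u * z = z * u → (∀ x, polar C.q a x = 0 → polar C.q b x = 0 → C.σ (C.μ u) x = x) →
        C.σ (C.μ u) a = C.σ (C.μ c) a → C.σ (C.μ u) b = C.σ (C.μ c) b → ∃ u ∈ B, u⁻¹ * c ∈ Q :=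
      fun u hu uz u1 u2 u3 => ⟨u, hu, (C.μ_eq uz cz).1 (F.fext fun x => by
        obtain ⟨y, h1, h2, e⟩ := dec ab x
        rw [e, map_add, map_add, map_add, map_add, map_smul, map_smul, map_smul, map_smul, u1 y h1 h2,
          c1 y h1 h2, u2, u3])⟩
    have c3 := c2 a
    rw [t2] at c3
    rcases mv F ab c1 with e | e | e <;> rw [e] at c3
    · refine key 1 B.one_mem (by simp) (fun x _ _ => ?_) ?_ ?_ <;> rw [C.μ1, map_one, Module.End.one_apply]
      exacts [e.symm, (c3.trans t2).symm]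
    · exact key θ (mem_zpowers θ) θz t1 (t2.trans e.symm) c3.symm
    · refine key (θ * θ) (mul_mem (mem_zpowers θ) (mem_zpowers θ)) (comm_mul θz θz) (fun x h1 h2 => ?_) ?_ ?_ <;>
        rw [C.μ_mul _ _ θz θz, tt]
      · rw [t1 x h1 h2, t1 x h1 h2]
      · rw [t2, t3, e]
      · rw [t3, c3]) BD
  refine transfer C _ zD h (fun x y hx hy e => eq_of_mk_eq odd (Subtype.ext (h.pow_four hx))
    (Subtype.ext (h.pow_four hy)) e) h' ?_ (fun s hs u hu h1 h2 h4 => ?_) ts h3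
    (fun v hv => lf v (Wa v hv) (Wb v hv)) (s := ⟨s, sD⟩) N.sQ N.ne (k := ⟨k, kD⟩) (Subtype.ext hk)
  · set L := Submodule.span (ZMod 2) {a} ⊔ Submodule.span (ZMod 2) {b} with hL
    have a0 : a ≠ 0 := fun e => by rw [e, map_zero] at qa; exact zero_ne_one qa
    have dL : finrank (ZMod 2) L = 2 := by
      rw [finrank_sup1, finrank_span_singleton a0]
      rw [mem_span1]
      rintro (e | e) <;> rw [e] at ab
      · rw [polar_zero_right] at ab; exact zero_ne_one ab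
      · rw [polar_same] at ab; exact zero_ne_one ab
    have d := F.toSp.fr_pp L
    rw [C.card _ inf_le_left ⟨h.mem, zD⟩ (pp C.q L) fun v => ⟨fun hv => lf v
      (H4.LX.mem_perp.1 hv a (H75.W3.mem_two.2 (Or.inr (Or.inl rfl))))
      (H4.LX.mem_perp.1 hv b (H75.W3.mem_two.2 (Or.inr (Or.inr (Or.inl rfl))))), ?_⟩,
      show finrank (ZMod 2) (pp C.q L) = 6 by omega]
    · rfl
    rintro ⟨x, hx, rfl⟩
    obtain ⟨h1, h2⟩ := (mD x hx.1).1 hx.2
    refine H4.LX.mem_perp.2 fun e he => ?_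
    rcases H75.W3.mem_two.1 he with rfl | rfl | rfl | rfl
    exacts [polar_zero_left _ _, h1, h2, by rw [polar_add_left, h1, h2, add_zero]]
  · obtain ⟨k, hk⟩ := hE _ _ h1 h2 h4
    have f1 := t1 _ ((mD s hs.1).1 hs.2).1 ((mD s hs.1).1 hs.2).2
    have f2 := t1 _ ((mD u hu.1).1 hu.2).1 ((mD u hu.1).1 hu.2).2
    obtain ⟨c, cz, cθ, rfl⟩ := lift3 C h θz θ3 (k := k) (F.fext fun x => by
      rw [map_mul, map_mul, Module.End.mul_apply, Module.End.mul_apply, hk.2, hk.2, map_add, map_add, map_smul,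
        map_smul, f1, f2, ← F.polar (C.μ θ) (C.π s) x, ← F.polar (C.μ θ) (C.π u) x, f1, f2])
    exact ⟨c, (hD c).2 cθ, cz, hk⟩

end H9.X9
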