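import Cfsg.Agent.Lib.X9.ZS
import Cfsg.Agent.Lib.X9.NT

/-!
A root element of one frame commutes with one of two opposite root elements of the next frame.
-/

set_option autoImplicit false
set_option linter.unusedSectionVars false
set_option maxHeartbeats 400000
set_option maxRecDepth 100000
set_option synthInstance.maxSize 4000
set_option synthInstance.maxHeartbeats 200000

namespace H9.X9

open H95 H4.LX Subgroup H9.WC H75.DW Cfsg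
open H39.MS (lm)
open scoped commutatorElement

universe u

variable {G : Type u} [Group G] [Finite G] {z s g x y d : G} {Q : Subgroup G} {c : G → ℕ} {M a v w : ℕ}

namespace Wt

theorem tab : ∀ i : Fin 4, ∃ a : Fin 4, ∃ B < 256, ∃ B' < 256, ∃ p < 256, ∃ p' < 256,
    (∀ M ∈ [th i, iv (th i)], ∀ v ∈ [fx a, B, B', p, p'], lm M v = v) ∧ q0 B = 0 ∧ q0 B' = 0 ∧ b0 B B' = 0 ∧
    b0 (fx a) B = 0 ∧ b0 (fx a) B' = 0 ∧ (∃ b : Fin 4, fx a ^^^ fx b = B) ∧ (∃ b : Fin 4, fx a ^^^ fx b = B') ∧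
    b0 p B = 0 ∧ b0 p B' = 1 ∧ lm io p ^^^ p = B ∧
    b0 p' B' = 0 ∧ b0 p' B = 1 ∧ lm io p' ^^^ p' = B' := by
  intro i
  fin_cases i
  exacts [⟨1, 6, by decide, 10, by decide, 96, by decide, 72, by decide, by decide +kernel⟩,
    ⟨0, 11, by decide, 7, by decide, 64, by decide, 104, by decide, by decide +kernel⟩,
    ⟨0, 13, by decide, 7, by decide, 32, by decide, 104, by decide, by decide +kernel⟩,
    ⟨0, 13, by decide, 11, by decide, 32, by decide, 64, by decide, by decide +kernel⟩]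

theorem blkT : ∀ j j' : Fin 4, ∀ M ∈ [th j', iv (th j'), iv (iv (th j'))], th j = M → j = j' := by decide +kernel

theorem io0 : mm (o3 0) io = io := by decide +kernel

theorem card_mul {A B C : Subgroup G} (hB : B ≤ A) (hC : C ≤ A) (h : Disjoint B C) :
    Nat.card B * Nat.card C ≤ Nat.card A := by
  rw [← Nat.card_prod]
  exact Nat.card_le_card_of_injective (fun p : B × C => (⟨p.1 * p.2, mul_mem (hB p.1.2) (hC p.2.2)⟩ : A))
    fun p q e => mul_injective_of_disjoint h (congrArg Subtype.val e)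

theorem three_le {A B : Subgroup G} (o : Odd (Nat.card A)) (h : B ≤ A) (hx : x ∈ B) (x1 : x ≠ 1) : 3 ≤ Nat.card B := by
  have o' := o.of_dvd_nat (card_dvd_of_le h)
  have : 1 < Nat.card B := (one_lt_card_iff_ne_bot B).2 fun q => x1 (by rwa [q, mem_bot] at hx)
  obtain ⟨k, hk⟩ := o'
  omega

/-- four weight vectors -/
theorem card81 {A : Subgroup G} {b b' : G} (o : Odd (Nat.card A)) (f : ∀ x ∈ A, x * z = z * x → x = 1)
    (W : ∀ β, β = b ∨ β = b * z → ∀ β', β' = b' ∨ β' = b' * z → ∃ v ∈ A, v ≠ 1 ∧ v * β = β * v ∧ v * β' = β' * v) :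
    81 ≤ Nat.card A := by
  have h : ∀ B ≤ A, ∀ t, Nat.card (B ⊓ centralizer {t} : Subgroup G) * Nat.card (B ⊓ centralizer {t * z} : Subgroup G) ≤
      Nat.card B := fun B hB t => card_mul inf_le_left inf_le_left (disjoint_def.2 fun {x} h1 h2 => f x (hB h1.1) (by
    have e1 := mem_cent_iff.1 h1.2
    have e2 := mem_cent_iff.1 h2.2
    rwa [← mul_assoc, e1, mul_assoc, mul_assoc, mul_right_inj] at e2))
  have k : ∀ β, β = b ∨ β = b * z → 9 ≤ Nat.card (A ⊓ centralizer {β} : Subgroup G) := fun β hβ => by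
    obtain ⟨v, v1, v2, v3, v4⟩ := W β hβ _ (.inl rfl)
    obtain ⟨w, w1, w2, w3, w4⟩ := W β hβ _ (.inr rfl)
    exact (Nat.mul_le_mul (three_le o (inf_le_left.trans inf_le_left) ⟨⟨v1, mem_cent_iff.2 v3⟩, mem_cent_iff.2 v4⟩ v2)
      (three_le o (inf_le_left.trans inf_le_left) ⟨⟨w1, mem_cent_iff.2 w3⟩, mem_cent_iff.2 w4⟩ w2)).trans
        (h _ inf_le_left b')
  exact (Nat.mul_le_mul (k _ (.inl rfl)) (k _ (.inr rfl))).trans (h A le_rfl b)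

theorem inv2 {t : G} (h1 : t * x * t⁻¹ = x⁻¹) (h2 : z * x * z⁻¹ = x⁻¹) : x * (t * z) = t * z * x := by
  rw [eq_comm, ← mul_inv_eq_iff_eq_mul]
  calc _ = t * (z * x * z⁻¹) * t⁻¹ := by group
    _ = x := by rw [h2, ← conj_inv, h1, inv_inv]

theorem pick {B : Subgroup G} {t : G} (o : Odd (Nat.card B)) (tt : t * t = 1) (ht : ∀ x ∈ B, t * x * t⁻¹ ∈ B)
    (hz : ∀ x ∈ B, z * x * z⁻¹ = x⁻¹) (hx : x ∈ B) (x1 : x ≠ 1) :
    ∃ β, (β = t ∨ β = t * z) ∧ ∃ v ∈ B, v ≠ 1 ∧ v * β = β * v := by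
  obtain ⟨a, ha, b, hb, rfl, at', bt⟩ := Zs.split o tt ht hx
  by_cases a1 : a = 1
  · exact ⟨_, .inr rfl, b, hb, by simpa [a1] using x1, inv2 bt (hz b hb)⟩
  · exact ⟨_, .inl rfl, a, ha, a1, at'⟩

end Wt

open Wt

theorem Frm.one {r : Fin 4 → Bool → G} {n : Fin 4 → G} (F : Frm z Q c y g r n) (S : Std 1 z Q c) (i j : Fin 4)
    (e : Bool) : ∃ f, Commute (r i e) (g * r j f * g⁻¹) := by
  have C := S.toCo
  obtain ⟨a, B, hB, B', hB', p, hp, p', hp', t1, t2, t3, t4, t5, t6, t7, t8, t9, t10, t11, t12, t13, t14⟩ := tab i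
  have hM : ∃ M ∈ [th i, iv (th i)], Act z Q c (r i e) M := by
    cases e
    exacts [⟨_, by simp, F.rb i⟩, ⟨_, by simp, F.ra i⟩]
  have hd : Th z Q c (r i e) := ⟨F.r3 i e, i, i.2, by simpa using hM⟩
  have yd := F.yr i e
  generalize r i e = d at *
  obtain ⟨M, hM, dM⟩ := hM
  have cd : ∀ x ∈ Q, c x ∈ [fx a, B, B', p, p'] → d * x = x * d := fun x hx m => Nt.fix3 C dM hd.1 hx (t1 M hM _ m)
  obtain ⟨R, o, h1, h2, h3, h4⟩ := S.zs hd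
  have nR : ∀ h, d * h = h * d → ∀ x ∈ R, h * x * h⁻¹ ∈ R := fun h q => h2 h (.inl (by rw [← q]; group))
  have yz := F.ya.cz
  have zz := C.h.sq
  have yi : y⁻¹ = y := inv_eq_of_mul_eq_one_right F.yy
  have zi : z⁻¹ = z := inv_eq_of_mul_eq_one_right zz
  let A := R ⊓ centralizer {y}
  have oA : Odd (Nat.card A) := o.of_dvd_nat (card_dvd_of_le inf_le_left)
  have nA : ∀ h, d * h = h * d → h * y = y * h → ∀ x ∈ A, h * x * h⁻¹ ∈ A := fun h q q' x hx =>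
    ⟨nR h q x hx.1, mem_cent_iff.2 (comm_mul (comm_mul q' (mem_cent_iff.1 hx.2)) (comm_inv q'))⟩
  have fA : ∀ x ∈ A, x * z = z * x → x = 1 := fun x hx q => by
    obtain ⟨k, rfl⟩ := mem_zpowers_iff.1 (h4 x hx.1 q)
    have e1 : y * d ^ k * y⁻¹ = (d ^ k)⁻¹ := by rw [← conj_zpow, yd, inv_zpow]
    rw [← mem_cent_iff.1 hx.2, mul_inv_cancel_right, eq_inv_iff_mul_eq_one, ← pow_two] at e1
    exact orderOf_eq_one_iff.1 ((Zs.odd_ord oA hx).coprime_two_right.eq_one_of_dvd (orderOf_dvd_of_pow_eq_one e1))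
  have zA := inverts_of_fixedPointFree zz (nA z dM.cz yz.symm) fA
  -- moving from `y z` to `y`
  have na := cd _ (F.nQ a) (by simp [F.nc])
  have mv : ∀ v ∈ R, v * (y * z) = y * z * v → (n a)⁻¹ * v * (n a)⁻¹⁻¹ ∈ A := fun v hv q =>
    ⟨nR _ (comm_inv na.symm).symm v hv, mem_cent_iff.2 (by
      rw [← F.ny a] at q
      calc _ = (n a)⁻¹ * (v * (n a * y * (n a)⁻¹)) * n a := by group
        _ = _ := by rw [q]; group)⟩
  obtain ⟨v0, v0A, v01⟩ : ∃ v ∈ A, v ≠ 1 := by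
    obtain ⟨h, hh, hz⟩ := S.nt hd
    have w1 : z * h * z⁻¹ * h⁻¹ ≠ 1 := fun q => hz (by rw [mul_inv_eq_one, mul_inv_eq_iff_eq_mul] at q; exact q.symm)
    have w2 : z * (z * h * z⁻¹ * h⁻¹) * z⁻¹ = (z * h * z⁻¹ * h⁻¹)⁻¹ := by simp [mul_assoc, zi, ← mul_assoc z z, zz]
    obtain ⟨a', ha, b, hb, q, ay, yb⟩ := Zs.split o F.yy (h2 y (.inr yd)) (h3 h hh)
    by_cases a1 : a' = 1
    · rw [q, a1, one_mul] at w1 w2
      exact ⟨_, mv b hb (inv2 yb w2), by rwa [Ne, conj_eq_one_iff]⟩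
    · exact ⟨a', ⟨ha, mem_cent_iff.2 ay⟩, a1⟩
  have step : ∀ u ∈ Q, d * u = u * d → ∀ β ∈ Q, ∀ β' ∈ Q, b0 (fx a) (c β) = 0 → b0 (fx a) (c β') = 0 →
      b0 (c u) (c β) = 0 → b0 (c u) (c β') = 1 → lm io (c u) ^^^ c u = c β →
      (∃ v ∈ A, v ≠ 1 ∧ v * β = β * v ∧ v * β' = β' * v) →
      ∃ v ∈ A, v ≠ 1 ∧ v * β = β * v ∧ v * (β' * z) = β' * z * v := by
    rintro u hu du β hβ β' hβ' q1 q2 q3 q4 q5 ⟨v, vA, v1, v2, v3⟩
    have cjc : ∀ {a}, v * a = a * v → u * v * u⁻¹ * (u * a * u⁻¹) = u * a * u⁻¹ * (u * v * u⁻¹) := fun q => by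
      rw [conj_mul, conj_mul, q]
    have w2 := cjc v2
    have w3 := cjc v3
    have w4 := cjc (mem_cent_iff.1 vA.2)
    rw [(C.comm hu hβ).2 q3, mul_inv_cancel_right] at w2
    rw [C.conj_z hu hβ' q4] at w3
    have w5 : u * y * u⁻¹ = y * (y * u * y⁻¹ * u⁻¹) := by rw [yi, ← mul_assoc, ← mul_assoc, ← mul_assoc, F.yy, one_mul]
    have w1 : u * v * u⁻¹ ≠ 1 := by rwa [Ne, conj_eq_one_iff]
    have wR := nR u du v vA.1
    generalize u * v * u⁻¹ = w at *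
    have bz := C.h.central β hβ
    rcases (C.c_eq hβ (mul_mem (C.nrm yz hu) (inv_mem hu))).1 (q5.symm.trans (C.c_comm F.ya hu).symm) with k | k <;>
      rw [w5, k] at w4
    · refine ⟨w, ⟨wR, mem_cent_iff.2 ?_⟩, w1, w2, w3⟩
      rwa [mul_assoc, ← w2, ← mul_assoc, ← mul_assoc, mul_left_inj] at w4
    · have n1 := (C.comm (F.nQ a) hβ).2 (F.nc a ▸ q1)
      have n2 := (C.comm (F.nQ a) (mul_mem hβ' C.h.mem)).2 (by rw [F.nc, C.c_mulz hβ', q2])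
      refine ⟨_, mv w wR ?_, by rwa [Ne, conj_eq_one_iff],
        comm_mul (comm_mul (comm_inv n1) w2) (comm_inv (comm_inv n1)),
        comm_mul (comm_mul (comm_inv n2) w3) (comm_inv (comm_inv n2))⟩
      rwa [bz, ← mul_assoc y, mul_assoc (y * z), ← w2, ← mul_assoc w, ← mul_assoc _ w, mul_left_inj] at w4
  obtain ⟨b1, m1, c1⟩ := C.surj B hB
  obtain ⟨b2, m2, c2⟩ := C.surj B' hB'
  obtain ⟨u, mu, cu⟩ := C.surj p hp
  obtain ⟨u', mu', cu'⟩ := C.surj p' hp'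
  have by' : ∀ b ∈ Q, c b = B ∨ c b = B' → b * y = y * b := fun b hb q => by
    obtain ⟨k, hk⟩ : ∃ k : Fin 4, fx a ^^^ fx k = c b := q.elim (· ▸ t7) (· ▸ t8)
    have e1 : n a * n k * y = y * (n a * n k) := by
      rw [← mul_inv_eq_iff_eq_mul]
      calc _ = n a * (n k * y * (n k)⁻¹) * (n a)⁻¹ := by group
        _ = y := by
          rw [F.ny, ← conj_mul, F.ny, C.h.central _ (F.nQ a), mul_inv_cancel_right, mul_assoc, zz, mul_one]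
    rcases (C.c_eq (mul_mem (F.nQ a) (F.nQ k)) hb).1 (by rw [C.mul (F.nQ a) (F.nQ k), F.nc, F.nc, hk]) with rfl | rfl
    exacts [e1, comm_mul e1 yz.symm]
  have mem : ∀ {b β}, b ∈ Q → β = b ∨ β = b * z → β ∈ Q ∧ c β = c b := fun hb q => by
    rcases q with rfl | rfl
    exacts [⟨hb, rfl⟩, ⟨mul_mem hb C.h.mem, C.c_mulz hb⟩]
  obtain ⟨β, hβ, v1, v1A, v11, v12⟩ := pick oA ((C.sq m1).2 (c1 ▸ t2))
    (nA b1 (cd _ m1 (by simp [c1])) (by' _ m1 (.inl c1))) zA v0A v01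
  obtain ⟨mβ, cβ⟩ := mem m1 hβ
  have bb : b2 * β = β * b2 := ((C.comm mβ m2).2 (by rw [cβ, c1, c2, t4])).symm
  obtain ⟨β', hβ', v2, v2A, v21, v22⟩ := pick (B := A ⊓ centralizer {β}) (oA.of_dvd_nat (card_dvd_of_le inf_le_left))
    ((C.sq m2).2 (c2 ▸ t3)) (fun x hx => ⟨nA b2 (cd _ m2 (by simp [c2])) (by' _ m2 (.inr c2)) x hx.1,
      mem_cent_iff.2 (comm_mul (comm_mul bb (mem_cent_iff.1 hx.2)) (comm_inv bb))⟩)
    (fun x hx => zA x hx.1) ⟨v1A, mem_cent_iff.2 v12⟩ v11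
  obtain ⟨mβ', cβ'⟩ := mem m2 hβ'
  rw [c1] at cβ
  rw [c2] at cβ'
  have s1 : ∀ γ ∈ Q, c γ = B → ∀ γ' ∈ Q, c γ' = B' → (∃ v ∈ A, v ≠ 1 ∧ v * γ = γ * v ∧ v * γ' = γ' * v) →
      ∃ v ∈ A, v ≠ 1 ∧ v * γ = γ * v ∧ v * (γ' * z) = γ' * z * v := fun γ m q γ' m' q' =>
    step u mu (cd _ mu (by simp [cu])) γ m γ' m' (q ▸ t5) (q' ▸ t6) (by rw [cu, q, t9]) (by rw [cu, q', t10])
      (by rw [cu, q, t11])
  have s2 : ∀ γ ∈ Q, c γ = B → ∀ γ' ∈ Q, c γ' = B' → (∃ v ∈ A, v ≠ 1 ∧ v * γ = γ * v ∧ v * γ' = γ' * v) →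
      ∃ v ∈ A, v ≠ 1 ∧ v * (γ * z) = γ * z * v ∧ v * γ' = γ' * v := fun γ m q γ' m' q' ⟨v, a1, a2, a3, a4⟩ =>
    let ⟨v, a1, a2, a3, a4⟩ := step u' mu' (cd _ mu' (by simp [cu'])) γ' m' γ m (q' ▸ t6) (q ▸ t5)
      (by rw [cu', q', t12]) (by rw [cu', q, t13]) (by rw [cu', q', t14]) ⟨v, a1, a2, a4, a3⟩
    ⟨v, a1, a2, a4, a3⟩
  have W0 : ∃ v ∈ A, v ≠ 1 ∧ v * β = β * v ∧ v * β' = β' * v := ⟨v2, v2A.1, v21, mem_cent_iff.1 v2A.2, v22⟩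
  have c81 := card81 (b := β) (b' := β') oA fA (by
    rintro _ (rfl | rfl) _ (rfl | rfl)
    exacts [W0, s1 _ mβ cβ _ mβ' cβ' W0, s2 _ mβ cβ _ mβ' cβ' W0,
      s1 _ (mul_mem mβ C.h.mem) ((C.c_mulz mβ).trans cβ) _ mβ' cβ' (s2 _ mβ cβ _ mβ' cβ' W0)])
  have gy : g⁻¹ * y * g⁻¹⁻¹ = z := by rw [← F.gz]; group
  have gz : g⁻¹ * z * g⁻¹⁻¹ = y := by rw [← F.gy]; group
  have pb : ∀ x ∈ A, y * (g⁻¹ * x * g⁻¹⁻¹) * y⁻¹ = (g⁻¹ * x * g⁻¹⁻¹)⁻¹ := fun x hx => by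
    rw [conj_inv, ← zA x hx, ← gz]; group
  have po : ∀ x ∈ A, O3 z Q c (g⁻¹ * x * g⁻¹⁻¹) ∧ (g⁻¹ * x * g⁻¹⁻¹) ^ 3 = 1 := fun x hx =>
    S.of_inv ⟨F.yy, 0, by decide, io0 ▸ F.ya⟩ (by rw [← gy, conj_mul, conj_mul, mem_cent_iff.1 hx.2])
      ((MulAut.conj g⁻¹).orderOf_eq x ▸ Zs.odd_ord oA hx) (pb x hx)
  obtain ⟨_, ⟨x, hx, rfl⟩, xa⟩ := S.o3_all (A.map (MulAut.conj g⁻¹).toMonoidHom)
    (by rintro _ ⟨x, hx, rfl⟩; exact (po x hx).1) (by rintro _ ⟨x, hx, rfl⟩ q; exact Nt.one_of C q (po x hx).2)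
    (by rwa [card_map_of_injective (MulAut.conj g⁻¹).injective]) j.2
  replace xa : Act z Q c (g⁻¹ * x * g⁻¹⁻¹) (th j) := xa
  obtain ⟨j', f, q⟩ := F.all _ ⟨(po x hx).2, j, j.2, .inl xa⟩ (pb x hx)
  obtain rfl : j = j' := by
    cases f <;> rcases q with q | q <;> rw [q] at xa
    exacts [blkT j j' _ (by simp) (C.uniq xa (F.rb j')), blkT j j' _ (by simp) (C.uniq xa (C.act_inv (F.rb j'))),
      blkT j j' _ (by simp) (C.uniq xa (F.ra j')), blkT j j' _ (by simp) (C.uniq xa (C.act_inv (F.ra j')))]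
  exact ⟨f, ((Pm.symm q).cj g).cm (by simpa [mul_assoc] using Commute.symm (h1 x hx.1))⟩

end H9.X9
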