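import Cfsg.Agent.Lib.X9.O3A
import Cfsg.Agent.Lib.TwoFusion.ZStarIso

set_option autoImplicit false
set_option linter.unusedSectionVars false
set_option maxHeartbeats 400000

namespace H9.X9

open H95 H4.LX Subgroup H9.WC H75.DW Cfsg
open H39.MS (lm)
open scoped commutatorElement

universe u

variable {G : Type u} [Group G] [Finite G] {z s g r x y d : G} {Q : Subgroup G} {c : G → ℕ} {i n M a e v w : ℕ}

namespace Zs

theorem odd_ord {R : Subgroup G} (h : Odd (Nat.card R)) (hx : x ∈ R) : Odd (orderOf x) :=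
  h.of_dvd_nat (orderOf_dvd_natCard R hx)

/-- an element of a group of odd order splits under an involution -/
theorem split {R : Subgroup G} (h : Odd (Nat.card R)) (z2 : z * z = 1) (hz : ∀ x ∈ R, z * x * z⁻¹ ∈ R)
    (hx : x ∈ R) : ∃ a ∈ R, ∃ b ∈ R, x = a * b ∧ a * z = z * a ∧ z * b * z⁻¹ = b⁻¹ := by
  have m := mul_mem (inv_mem hx) (hz x hx)
  obtain ⟨k, hk⟩ := odd_ord h m
  have zi : z⁻¹ = z := inv_eq_of_mul_eq_one_right z2
  have e1 : z * (x⁻¹ * (z * x * z⁻¹)) * z⁻¹ = (x⁻¹ * (z * x * z⁻¹))⁻¹ := by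
    simp [mul_assoc, zi, z2]
  have e0 : z * x * z⁻¹ = x * (x⁻¹ * (z * x * z⁻¹)) := by group
  generalize x⁻¹ * (z * x * z⁻¹) = w at m hk e1 e0
  have e2 : z * w ^ (k + 1) * z⁻¹ = (w ^ (k + 1))⁻¹ := by rw [← conj_pow, e1, inv_pow]
  have e3 : w ^ (k + 1) * w ^ (k + 1) = w := by
    rw [← pow_add, show k + 1 + (k + 1) = 2 * k + 1 + 1 by ring, pow_succ, ← hk, pow_orderOf_eq_one, one_mul]
  refine ⟨_, mul_mem hx (pow_mem m (k + 1)), _, inv_mem (pow_mem m (k + 1)), by group, ?_, ?_⟩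
  · rw [eq_comm, ← mul_inv_eq_iff_eq_mul, ← conj_mul, e0, e2, mul_assoc, mul_right_inj, mul_inv_eq_iff_eq_mul, e3]
  · rw [← conj_inv, e2]

theorem isolated (S : Std 1 z Q c) (hd : Th z Q c d) (gd : g * d = d * g)
    (h : g * z * g⁻¹ * z = z * (g * z * g⁻¹)) : g * z * g⁻¹ = z := by
  have C := S.toCo
  by_contra ne
  obtain ⟨o, dQ⟩ := S.th_o3 hd
  have dz : d * z = z * d := let ⟨_, _, k⟩ := o; k.cz
  have cj : IsConj z (g * z * g⁻¹) := isConj_iff.2 ⟨g, rfl⟩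
  have xd : g * z * g⁻¹ * d = d * (g * z * g⁻¹) :=
    comm_mul (comm_mul gd dz.symm) (comm_inv gd)
  have xQ : g * z * g⁻¹ ∉ Q := fun k => (S.th_nr hd (C.nr cj k ne)).1 xd.symm
  obtain ⟨k, -, k1, k2⟩ := S.th_root hd (by rw [conj_mul, C.h.sq]; group) h xd
  have e : g⁻¹ * k * g * (g⁻¹ * k * g) = g⁻¹ * z * g := by rw [← k2]; group
  have i := S.sq_io (k := g⁻¹ * k * g) (by
    calc _ = g⁻¹ * (k * (g * z * g⁻¹)) * g := by group
      _ = _ := by rw [k1]; group) (by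
    rw [show 4 = 2 * 2 from rfl, pow_mul, pow_two, pow_two, e]
    calc _ = g⁻¹ * (z * z) * g := by group
      _ = 1 := by rw [C.h.sq]; group) (by
    rw [e]
    intro f
    exact xQ ((Qof_self C.h).le (Qof_symm C.h C.T.h8 (.refl z) cj ((mem_Qof C.h rfl).2 f))))
  exact dQ (S.io_comm i o (e ▸ comm_mul (comm_mul (comm_inv gd) dz.symm) gd))

end Zs

open Zs

theorem Std.zs (S : Std 1 z Q c) (hd : Th z Q c d) : ∃ R : Subgroup G, Odd (Nat.card R) ∧
    (∀ x ∈ R, x * d = d * x) ∧ (∀ h, h * d * h⁻¹ = d ∨ h * d * h⁻¹ = d⁻¹ → ∀ x ∈ R, h * x * h⁻¹ ∈ R) ∧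
    (∀ h, h * d = d * h → z * h * z⁻¹ * h⁻¹ ∈ R) ∧ ∀ x ∈ R, x * z = z * x → x ∈ zpowers d := by
  have C := S.toCo
  have dz : d * z = z * d := let ⟨_, _, k⟩ := (S.th_o3 hd).1; k.cz
  let K := centralizer ({d} : Set G)
  have I : IsIsolatedInvolution (⟨z, mem_cent_iff.2 dz.symm⟩ : K) :=
    ⟨orderOf_eq_prime (Subtype.ext (by simpa [pow_two] using C.h.sq)) fun e => C.h.ne_one (congrArg Subtype.val e),
      fun g h => Subtype.ext (isolated S hd (mem_cent_iff.1 g.2) (congrArg Subtype.val h.eq).symm)⟩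
  have o : Odd (Nat.card ((oddCore K).map K.subtype)) := by
    rw [card_map_of_injective K.subtype_injective]
    exact H1.odd_card_oddCore
  have h1 : ∀ x ∈ (oddCore K).map K.subtype, x * d = d * x := by
    rintro _ ⟨x, -, rfl⟩
    exact mem_cent_iff.1 x.2
  have h2 : ∀ h, h * d * h⁻¹ = d ∨ h * d * h⁻¹ = d⁻¹ → ∀ x ∈ (oddCore K).map K.subtype,
      h * x * h⁻¹ ∈ (oddCore K).map K.subtype := by
    rintro h hh _ ⟨x, hx, rfl⟩
    have hn : h ∈ normalizer (K : Set G) := mem_normalizer_iff.2 fun a => by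
      have : h * a * h⁻¹ * (h * d * h⁻¹) = h * d * h⁻¹ * (h * a * h⁻¹) ↔ a * d = d * a := by
        rw [conj_mul, conj_mul]
        simp
      rw [mem_cent_iff, mem_cent_iff, ← this]
      rcases hh with e | e <;> rw [e]
      exact Commute.inv_right_iff
    exact ⟨K.normalizerMonoidHom ⟨h, hn⟩ x, (characteristic_iff_map_le.1 (H1.pPrimeCore_characteristic)
      (K.normalizerMonoidHom ⟨h, hn⟩) ⟨x, hx, rfl⟩), rfl⟩
  refine ⟨_, o, h1, h2, fun h hh => ⟨_, H41.Isolated.zstar I ⟨h, mem_cent_iff.2 hh⟩, rfl⟩, fun r hr rz =>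
    S.th_cent hd rz (h1 r hr) (odd_ord o hr) fun x hx xd => ?_⟩
  have m1 := mul_mem hr (h2 x (.inl (by rw [xd, mul_inv_cancel_right])) _ (inv_mem hr))
  have m2 : r * (x * r⁻¹ * x⁻¹) ∈ Q := by simpa only [mul_assoc] using mul_mem (C.nrm rz hx) (inv_mem hx)
  have := (odd_ord o m1).coprime_two_right.pow_right 2 |>.eq_one_of_dvd
    (orderOf_dvd_of_pow_eq_one (C.h.pow_four m2))
  rw [orderOf_eq_one_iff, ← mul_assoc, ← mul_assoc, mul_inv_eq_one, mul_inv_eq_iff_eq_mul] at this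
  exact this

theorem Std.tri (S : Std 1 z Q c) (hd : Th z Q c d) (x3 : x ^ 3 = 1) (y3 : y ^ 3 = 1) (xd : Commute d x)
    (yd : Commute d y) (zx : z * x * z⁻¹ = x⁻¹) (zy : z * y * z⁻¹ = y⁻¹) : ⁅x, y⁆ ∈ zpowers d := by
  obtain ⟨R, o, h1, h2, h3, h4⟩ := S.zs hd
  have dz : d * z = z * d := let ⟨_, _, k⟩ := (S.th_o3 hd).1; k.cz
  have m : ∀ {x}, x ^ 3 = 1 → Commute d x → z * x * z⁻¹ = x⁻¹ → x ∈ R := fun {x} a b e => by
    have := h3 x b.symm
    rwa [e, show x⁻¹ * x⁻¹ = (x ^ 3)⁻¹ * x by group, a, inv_one, one_mul] at this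
  obtain ⟨a, ha, b, hb, e, az, zb⟩ := split o S.toCo.h.sq
    (h2 z (.inl (by rw [← dz, mul_inv_cancel_right]))) (mul_mem (m x3 xd zx) (m y3 yd zy))
  have e' : x⁻¹ * y⁻¹ = a * b⁻¹ := by rw [← zx, ← zy, conj_mul, e, ← conj_mul, zb, ← az, mul_inv_cancel_right]
  have ad := h4 a ha az
  obtain ⟨k, rfl⟩ := mem_zpowers_iff.1 ad
  rw [commutatorElement_def, mul_assoc, e, e', mul_assoc, ← mul_assoc b,
    (show Commute b d from h1 b hb).zpow_right k, mul_inv_cancel_right]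
  exact mul_mem ad ad

end H9.X9
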